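import Mathlib

/-!
# Product action of `S_m ≀ S_k`: definitions and small lemmas (for S5767)
-/

set_option autoImplicit false
set_option linter.unusedSectionVars false

namespace Cfsg.Agent.PA

open Equiv Function

variable {ι α : Type*} [Fintype ι] [DecidableEq ι] [Fintype α] [DecidableEq α]

/-- the element `(π; τ)` of the wreath product in product action -/
def wr (π : Perm ι) (τ : ι → Perm α) : Perm (ι → α) where
  toFun f := fun i => τ i (f (π.symm i))
  invFun f := fun i => (τ (π i)).symm (f (π i))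
  left_inv f := by funext i; simp
  right_inv f := by funext i; simp

@[simp] theorem wr_apply (π : Perm ι) (τ : ι → Perm α) (f : ι → α) (i : ι) :
    wr π τ f i = τ i (f (π.symm i)) := rfl

@[simp] theorem one_symm_apply (i : ι) : (1 : Perm ι).symm i = i := rfl

theorem wr_mul (σ : ι → Perm α) (π : Perm ι) (τ : ι → Perm α) :
    wr 1 σ * wr π τ = wr π (σ * τ) := by
  ext f i; simp [Perm.mul_apply]

theorem wr_update (π : Perm ι) (τ : ι → Perm α) (q : ι → α) (j : ι) (c : α) :
    wr π τ (update q j c) = update (wr π τ q) (π j) (τ (π j) c) := by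
  funext l
  by_cases h : l = π j
  · subst h; simp
  · have : π.symm l ≠ j := fun e => h (by rw [← e]; simp)
    simp [update_of_ne h, update_of_ne this]

/-- the permutation acting as `σ` on the coordinate `i` -/
def co (i : ι) : Perm α →* Perm (ι → α) where
  toFun σ :=
    { toFun := fun f => update f i (σ (f i))
      invFun := fun f => update f i (σ.symm (f i))
      left_inv := fun f => by simp
      right_inv := fun f => by simp }
  map_one' := by ext f l; simp
  map_mul' σ τ := by ext f l; simp [Perm.mul_apply]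

theorem co_apply (i : ι) (σ : Perm α) (f : ι → α) : co i σ f = update f i (σ (f i)) := rfl

@[simp] theorem co_same (i : ι) (σ : Perm α) (f : ι → α) : co i σ f i = σ (f i) := by
  simp [co_apply]

theorem co_ne {i l : ι} (h : l ≠ i) (σ : Perm α) (f : ι → α) : co i σ f l = f l := by
  simp [co_apply, update_of_ne h]

theorem co_update (i : ι) (σ : Perm α) (f : ι → α) (c : α) :
    co i σ (update f i c) = update f i (σ c) := by
  simp [co_apply]

theorem co_update_ne {i l : ι} (h : l ≠ i) (σ : Perm α) (f : ι → α) (c : α) :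
    co i σ (update f l c) = update (co i σ f) l c := by
  simp [co_apply, update_of_ne h.symm, update_comm h]

theorem co_fix {i : ι} {σ : Perm α} {f : ι → α} : co i σ f = f ↔ σ (f i) = f i := by
  rw [co_apply]; exact update_eq_self_iff.trans eq_comm |>.trans (by rw [eq_comm])

theorem co_eq_wr (i : ι) (σ : Perm α) : co i σ = wr 1 (Pi.mulSingle i σ) := by
  ext f l
  by_cases h : l = i
  · subst h; simp
  · simp [co_ne h, Pi.mulSingle_eq_of_ne h]

theorem co_comm {i j : ι} (h : i ≠ j) (σ τ : Perm α) : co i σ * co j τ = co j τ * co i σ := by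
  ext f l
  simp only [Perm.mul_apply]
  by_cases h1 : l = i
  · subst h1; simp [co_ne h]
  · by_cases h2 : l = j
    · subst h2; simp [co_ne h1]
    · simp [co_ne h1, co_ne h2]

theorem co_inj [Nonempty α] (i : ι) : Injective (co i : Perm α → Perm (ι → α)) := by
  intro σ τ h
  ext c
  have := congrArg (fun g : Perm (ι → α) => g (fun _ => c) i) h
  simpa using this

/-- The standing hypothesis on the overgroup `G`. -/
structure Hyp (G : Subgroup (Perm (ι → α))) : Prop where
  m5 : 5 ≤ Fintype.card α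
  nt : Nontrivial ι
  base : ∀ τ : ι → Perm α, ∏ i, Perm.sign (τ i) = 1 → wr 1 τ ∈ G
  top : ∀ π : Perm ι, ∃ τ : ι → Perm α, wr π τ ∈ G
  par : Odd (Fintype.card α) ∨ ∀ (i : ι) (σ : Perm α), co i σ ∈ G

/-! ### small facts on permutations of `α` -/

theorem exists_notMem (s : Finset α) (h : s.card < Fintype.card α) : ∃ x, x ∉ s := by
  by_contra hc
  push_neg at hc
  have : s = Finset.univ := Finset.eq_univ_iff_forall.mpr hc
  rw [this, Finset.card_univ] at h
  exact lt_irrefl _ h

theorem exists_ne4 (hm : 5 ≤ Fintype.card α) (a b c d : α) :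
    ∃ x, x ≠ a ∧ x ≠ b ∧ x ≠ c ∧ x ≠ d := by
  obtain ⟨x, hx⟩ := exists_notMem ({a, b, c, d} : Finset α)
    (lt_of_le_of_lt (Finset.card_le_four) (by omega))
  exact ⟨x, by simpa [not_or] using hx⟩

/-- S3: an even permutation fixing `u, v` and sending `x` to `y`. -/
theorem exists_even_map (hm : 5 ≤ Fintype.card α) {u v x y : α} (hxu : x ≠ u) (hxv : x ≠ v)
    (hyu : y ≠ u) (hyv : y ≠ v) :
    ∃ β : Perm α, Perm.sign β = 1 ∧ β u = u ∧ β v = v ∧ β x = y := by
  by_cases hxy : x = y
  · exact ⟨1, by simp, rfl, rfl, by simp [hxy]⟩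
  obtain ⟨z, hzu, hzv, hzx, hzy⟩ := exists_ne4 hm u v x y
  refine ⟨swap x z * swap x y, ?_, ?_, ?_, ?_⟩
  · simp [Perm.sign_swap hxy, Perm.sign_swap hzx.symm]
  · simp [Perm.mul_apply, swap_apply_of_ne_of_ne hxu.symm hyu.symm,
      swap_apply_of_ne_of_ne hxu.symm hzu.symm]
  · simp [Perm.mul_apply, swap_apply_of_ne_of_ne hxv.symm hyv.symm,
      swap_apply_of_ne_of_ne hxv.symm hzv.symm]
  · simp [Perm.mul_apply, swap_apply_of_ne_of_ne (Ne.symm hxy) hzy.symm]

theorem exists_even_map0 (hm : 5 ≤ Fintype.card α) (x y : α) :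
    ∃ β : Perm α, Perm.sign β = 1 ∧ β x = y := by
  obtain ⟨z, hzx, hzy, -, -⟩ := exists_ne4 hm x y x y
  obtain ⟨β, h1, -, -, h2⟩ := exists_even_map hm hzx.symm hzx.symm hzy.symm hzy.symm
  exact ⟨β, h1, h2⟩

/-- an even permutation fixing `u, v` and moving `x` -/
theorem exists_even_move (hm : 5 ≤ Fintype.card α) {u v x : α} (hxu : x ≠ u) (hxv : x ≠ v) :
    ∃ β : Perm α, Perm.sign β = 1 ∧ β u = u ∧ β v = v ∧ β x ≠ x := by
  obtain ⟨y, hyu, hyv, hyx, -⟩ := exists_ne4 hm u v x x
  obtain ⟨β, h1, h2, h3, h4⟩ := exists_even_map hm hxu hxv hyu hyv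
  exact ⟨β, h1, h2, h3, h4 ▸ hyx⟩

/-- S0: a permutation commuting with all even permutations is trivial. -/
theorem eq_one_of_comm (hm : 5 ≤ Fintype.card α) {σ : Perm α}
    (h : ∀ β : Perm α, Perm.sign β = 1 → σ * β = β * σ) : σ = 1 := by
  ext x
  by_contra hx
  simp only [Perm.one_apply] at hx
  obtain ⟨β, h1, h2, -, h3⟩ := exists_even_move hm (u := x) (v := x) hx hx
  have := congrArg (fun g : Perm α => g x) (h β h1)
  simp only [Perm.mul_apply, h2] at this
  exact h3 this.symm

/-- S1: a nontrivial subgroup normalized by the alternating group contains it. -/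
theorem alt_le_of_norm (hm : 5 ≤ Fintype.card α) {N : Subgroup (Perm α)}
    (hN : ∀ β : Perm α, Perm.sign β = 1 → ∀ σ ∈ N, β * σ * β⁻¹ ∈ N) {σ : Perm α} (hσ : σ ∈ N)
    (h1 : σ ≠ 1) : alternatingGroup α ≤ N := by
  have hn : (N.subgroupOf (alternatingGroup α)).Normal := by
    constructor
    intro x hx g
    rw [Subgroup.mem_subgroupOf] at hx ⊢
    exact hN g (Perm.mem_alternatingGroup.mp g.2) _ hx
  rcases alternatingGroup.normal_subgroup_eq_bot_or_eq_top (α := α) (by simpa using hm)
    (N := N.subgroupOf (alternatingGroup α)) with hb | ht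
  · exfalso
    apply h1
    apply eq_one_of_comm hm
    intro β hβ
    have hm1 : σ * (β * σ⁻¹ * β⁻¹) ∈ N := N.mul_mem hσ (hN β hβ _ (N.inv_mem hσ))
    have hs : σ * (β * σ⁻¹ * β⁻¹) ∈ alternatingGroup α := by
      rw [Perm.mem_alternatingGroup]; simp [hβ]
    have : (⟨_, hs⟩ : alternatingGroup α) ∈ N.subgroupOf (alternatingGroup α) := hm1
    rw [hb, Subgroup.mem_bot] at this
    have h2 : σ * (β * σ⁻¹ * β⁻¹) = 1 := congrArg Subtype.val this
    calc σ * β = (σ * (β * σ⁻¹ * β⁻¹)) * (β * σ) := by group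
      _ = β * σ := by rw [h2, one_mul]
  · exact Subgroup.subgroupOf_eq_top.mp ht

/-- S2 -/
theorem exists_not_comm (hm : 5 ≤ Fintype.card α) {σ τ : Perm α} (hσ : σ ≠ 1) (hτ : τ ≠ 1) :
    ∃ γ : Perm α, Perm.sign γ = 1 ∧ σ * (γ * τ * γ⁻¹) ≠ (γ * τ * γ⁻¹) * σ := by
  by_contra hc
  push_neg at hc
  let N : Subgroup (Perm α) :=
    { carrier := {x | ∀ γ : Perm α, Perm.sign γ = 1 → σ * (γ * x * γ⁻¹) = (γ * x * γ⁻¹) * σ}
      one_mem' := by intro γ _; simp
      mul_mem' := by
        intro x y hx hy γ hγ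
        have e : γ * (x * y) * γ⁻¹ = (γ * x * γ⁻¹) * (γ * y * γ⁻¹) := by group
        rw [e]
        exact (Commute.mul_right (hx γ hγ) (hy γ hγ)).eq
      inv_mem' := by
        intro x hx γ hγ
        have e : γ * x⁻¹ * γ⁻¹ = (γ * x * γ⁻¹)⁻¹ := by group
        rw [e]
        exact (Commute.inv_right (hx γ hγ)).eq }
  have hle : alternatingGroup α ≤ N := by
    refine alt_le_of_norm hm ?_ (σ := τ) hc hτ
    intro β hβ x hx γ hγ
    have e : γ * (β * x * β⁻¹) * γ⁻¹ = (γ * β) * x * (γ * β)⁻¹ := by group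
    rw [e]
    exact hx _ (by simp [hβ, hγ])
  apply hσ
  apply eq_one_of_comm hm
  intro β hβ
  have := hle (Perm.mem_alternatingGroup.mpr hβ) 1 (by simp)
  simpa using this

/-! ### induction over coordinates -/

theorem ind_update (S : ι → Prop) (P : (ι → α) → Prop)
    (h : ∀ p j c, S j → P p → P (update p j c)) {p q : ι → α} (hp : P p)
    (hq : ∀ l, ¬ S l → q l = p l) : P q := by
  have key : ∀ (s : Finset ι), ∀ q : ι → α, (∀ l, q l ≠ p l → l ∈ s ∧ S l) → P q := by
    intro s
    induction s using Finset.induction_on with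
    | empty =>
      intro q hq
      have : q = p := funext fun l => by
        by_contra hl
        simpa using (hq l hl).1
      exact this ▸ hp
    | insert j s hj ih =>
      intro q hq
      by_cases hqj : q j = p j
      · refine ih q fun l hl => ⟨?_, (hq l hl).2⟩
        rcases Finset.mem_insert.mp (hq l hl).1 with e | e
        · exact absurd (e ▸ hqj) hl
        · exact e
      · have h1 : P (update q j (p j)) := by
          refine ih _ fun l hl => ?_
          have hlj : l ≠ j := fun e => hl (by subst e; simp)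
          rw [update_of_ne hlj] at hl
          refine ⟨?_, (hq l hl).2⟩
          rcases Finset.mem_insert.mp (hq l hl).1 with e | e
          · exact absurd e hlj
          · exact e
        have := h _ j (q j) (hq j hqj).2 h1
        simpa using this
  exact key Finset.univ q fun l hl => ⟨Finset.mem_univ _, by_contra fun hs => hl (hq l hs)⟩

/-! ### consequences of `Hyp` -/

namespace Hyp

variable {G : Subgroup (Perm (ι → α))}

theorem ne (H : Hyp G) : Nonempty α := Fintype.card_pos_iff.mp (by have := H.m5; omega)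

theorem exists_ne (H : Hyp G) (i : ι) : ∃ j, j ≠ i := by
  have := H.nt; exact _root_.exists_ne i

theorem co_mem (H : Hyp G) (i : ι) {σ : Perm α} (h : Perm.sign σ = 1) : co i σ ∈ G := by
  rw [co_eq_wr]
  apply H.base
  rw [Finset.prod_eq_single i]
  · simpa using h
  · intro l _ hl; simp [Pi.mulSingle_eq_of_ne hl]
  · simp

theorem co2_mem (H : Hyp G) {i j : ι} (hij : i ≠ j) {σ τ : Perm α}
    (h : Perm.sign σ = Perm.sign τ) : co i σ * co j τ ∈ G := by
  rw [co_eq_wr, co_eq_wr, wr_mul]
  apply H.base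
  simp only [Pi.mul_apply, Perm.sign_mul, Finset.prod_mul_distrib]
  rw [Finset.prod_eq_single i, Finset.prod_eq_single j]
  · simp [h]
  · intro l _ hl; simp [Pi.mulSingle_eq_of_ne hl]
  · simp
  · intro l _ hl; simp [Pi.mulSingle_eq_of_ne hl]
  · simp

theorem top' (H : Hyp G) (π : Perm ι) (i : ι) : ∃ τ : ι → Perm α, wr π τ ∈ G ∧ τ i = 1 := by
  obtain ⟨τ, hτ⟩ := H.top π
  obtain ⟨j, hj⟩ := H.exists_ne i
  have h2 := H.co2_mem hj.symm (σ := (τ i)⁻¹) (τ := (τ i)⁻¹) rfl
  rw [co_eq_wr, co_eq_wr, wr_mul] at h2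
  have h3 := G.mul_mem h2 hτ
  rw [wr_mul] at h3
  exact ⟨_, h3, by simp [Pi.mulSingle_eq_of_ne hj.symm]⟩

theorem exists_wr (H : Hyp G) (π : Perm ι) (q q' : ι → α) :
    ∃ τ : ι → Perm α, wr π τ ∈ G ∧ wr π τ q = q' := by
  obtain ⟨τ, hτ⟩ := H.top π
  choose β hβ hβ' using fun l => exists_even_map0 H.m5 (wr π τ q l) (q' l)
  have h1 : wr 1 β ∈ G := H.base β (by simp [hβ])
  have h3 := G.mul_mem h1 hτ
  rw [wr_mul] at h3
  refine ⟨_, h3, funext fun l => ?_⟩
  simpa using hβ' l

theorem exists_wr' (H : Hyp G) (π : Perm ι) (i : ι) (hi : π i = i) (q q' : ι → α)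
    (hq : q i = q' i) : ∃ τ : ι → Perm α, wr π τ ∈ G ∧ τ i = 1 ∧ wr π τ q = q' := by
  obtain ⟨τ, hτ, hτi⟩ := H.top' π i
  choose β hβ hβ' using fun l => exists_even_map0 H.m5 (wr π τ q l) (q' l)
  have h1 : wr 1 (update β i 1) ∈ G := by
    apply H.base
    apply Finset.prod_eq_one
    intro l _
    by_cases hl : l = i
    · subst hl; simp
    · simp [update_of_ne hl, hβ]
  have h3 := G.mul_mem h1 hτ
  rw [wr_mul] at h3
  have hi' : π.symm i = i := by rw [Equiv.symm_apply_eq]; exact hi.symm
  refine ⟨_, h3, by simp [hτi], funext fun l => ?_⟩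
  by_cases hl : l = i
  · subst hl; simp [hτi, hi', hq]
  · simpa [update_of_ne hl] using hβ' l

end Hyp

/-- `w` keeps the coordinate `i` and maps `i`-lines to `i`-lines. -/
def Cm (i : ι) (w : Perm (ι → α)) : Prop :=
  (∀ p, w p i = p i) ∧ ∀ p c, w (update p i c) = update (w p) i c

theorem Cm.inv {i : ι} {w : Perm (ι → α)} (h : Cm i w) : Cm i w⁻¹ := by
  refine ⟨fun p => ?_, fun p c => ?_⟩
  · have := h.1 (w⁻¹ p)
    simpa using this.symm
  · rw [Perm.inv_eq_iff_eq, h.2]; simp

theorem Cm.comm {i : ι} {w : Perm (ι → α)} (h : Cm i w) (σ : Perm α) :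
    w * co i σ = co i σ * w := by
  ext1 p
  simp [Perm.mul_apply, co_apply, h.1, h.2]

theorem cm_wr {π : Perm ι} {τ : ι → Perm α} {i : ι} (h1 : π i = i) (h2 : τ i = 1) :
    Cm i (wr π τ) := by
  have hi' : π.symm i = i := by rw [Equiv.symm_apply_eq]; exact h1.symm
  refine ⟨fun p => by simp [h2, hi'], fun p c => ?_⟩
  rw [wr_update, h1, h2]; rfl

theorem cm_co {i j : ι} (h : j ≠ i) (σ : Perm α) : Cm i (co j σ) :=
  ⟨fun p => co_ne h.symm σ p, fun p c => co_update_ne h.symm σ p c⟩

/-- Lemma A -/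
theorem full_of_rel (hm : 5 ≤ Fintype.card α) {r : (ι → α) → (ι → α) → Prop} (hr : Equivalence r)
    {j : ι} (hinv : ∀ σ : Perm α, Perm.sign σ = 1 → ∀ p q, r p q → r (co j σ p) (co j σ q))
    {p q : ι → α} (h : r p q) (hj : p j ≠ q j) (c : α) : r q (update q j c) := by
  have key : ∀ p q : ι → α, r p q → p j ≠ q j → ∀ c, c ≠ p j → r q (update q j c) := by
    intro p q h hj c hc
    obtain ⟨β, h1, h2, -, h3⟩ := exists_even_map hm hj.symm hj.symm hc hc
    have := hinv β h1 p q h
    rw [co_fix.mpr h2, co_apply, h3] at this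
    exact hr.trans (hr.symm h) this
  by_cases hc : c = p j
  · obtain ⟨c', h1, h2, -, -⟩ := exists_ne4 hm (p j) (q j) (p j) (p j)
    have h3 := key p q h hj c' h1
    refine key (update q j c') q (hr.symm h3) (by simpa using h2) c ?_
    rw [hc]; simpa using h1.symm
  · exact key p q h hj c hc

theorem full_wr {r : (ι → α) → (ι → α) → Prop} {π : Perm ι} {τ : ι → Perm α}
    (hinv : ∀ p q, r p q → r (wr π τ p) (wr π τ q)) {j : ι} {q : ι → α}
    (h : ∀ c, r q (update q j c)) (c : α) : r (wr π τ q) (update (wr π τ q) (π j) c) := by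
  have := hinv _ _ (h ((τ (π j)).symm c))
  rw [wr_update] at this
  simpa using this

/-- An invariant equivalence relation which joins two different `i`-lines is everything. -/
theorem Hyp.prim {G : Subgroup (Perm (ι → α))} (H : Hyp G) {r : (ι → α) → (ι → α) → Prop}
    (hr : Equivalence r) {i : ι} (hinv : ∀ w ∈ G, Cm i w → ∀ p q, r p q → r (w p) (w q))
    (U : α → Prop) (hU : ∀ p c, U (p i) → U c → r p (update p i c))
    {p q : ι → α} {j : ι} (hj : j ≠ i) (h : r p q) (hpq : p j ≠ q j) (hq : U (q i))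
    {x y : ι → α} (hx : U (x i)) (hy : U (y i)) : r x y := by
  have h1 : ∀ c, r q (update q j c) :=
    full_of_rel H.m5 hr (fun σ hσ => hinv _ (H.co_mem j hσ) (cm_co hj σ)) h hpq
  have h2 : ∀ (x : ι → α) (l : ι) (c : α), l ≠ i → x i = q i → r x (update x l c) := by
    intro x l c hl hx
    have hπ : swap j l i = i := swap_apply_of_ne_of_ne hj.symm hl.symm
    obtain ⟨τ, hτ, hτi, hτq⟩ := H.exists_wr' (swap j l) i hπ q x hx.symm
    have := full_wr (hinv _ hτ (cm_wr hπ hτi)) h1 c
    rwa [hτq, swap_apply_left] at this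
  have h3 : ∀ z : ι → α, z i = q i → r q z := by
    intro z hz
    have := ind_update (fun l => l ≠ i) (fun z => z i = q i ∧ r q z) ?_ (p := q) (q := z)
      ⟨rfl, hr.refl q⟩ (fun l hl => by rw [not_not.mp hl]; exact hz)
    · exact this.2
    · intro z l c hl hz
      exact ⟨by rw [update_of_ne (Ne.symm hl)]; exact hz.1, hr.trans hz.2 (h2 z l c hl hz.1)⟩
  have h4 : ∀ z : ι → α, U (z i) → r q z := by
    intro z hz
    exact hr.trans (h3 _ (by simp)) (hr.symm (hU z (q i) hz hq))
  exact hr.trans (hr.symm (h4 x hx)) (h4 y hy)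

theorem Hyp.primitive {G : Subgroup (Perm (ι → α))} (H : Hyp G) :
    MulAction.IsPreprimitive G (ι → α) := by
  have htr : MulAction.IsPretransitive G (ι → α) := by
    constructor
    intro x y
    obtain ⟨τ, h1, h2⟩ := H.exists_wr 1 x y
    exact ⟨⟨_, h1⟩, h2⟩
  refine { toIsPretransitive := htr, isTrivialBlock_of_isBlock := ?_ }
  intro B hB
  by_cases hs : B.Subsingleton
  · exact Or.inl hs
  right
  obtain ⟨p, hp, q, hq, hpq⟩ := Set.not_subsingleton_iff.mp hs
  obtain ⟨j, hj⟩ := Function.ne_iff.mp hpq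
  let r : (ι → α) → (ι → α) → Prop := fun x y => ∀ g : G, (g • x ∈ B ↔ g • y ∈ B)
  have hr : Equivalence r :=
    ⟨fun _ _ => Iff.rfl, fun h g => (h g).symm, fun h h' g => (h g).trans (h' g)⟩
  have hinv : ∀ w ∈ G, ∀ p q, r p q → r (w p) (w q) := by
    intro w hw x y h g
    have := h (g * ⟨w, hw⟩)
    simpa [mul_smul] using this
  have hBr : ∀ x ∈ B, ∀ y ∈ B, r x y := by
    have : ∀ x ∈ B, ∀ y ∈ B, ∀ g : G, g • x ∈ B → g • y ∈ B := by
      intro x hx y hy g hg
      have e := hB.smul_eq_of_mem hx hg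
      rw [← e]; exact Set.smul_mem_smul_set hy
    exact fun x hx y hy g => ⟨this x hx y hy g, this y hy x hx g⟩
  have h1 : ∀ c, r q (update q j c) :=
    full_of_rel H.m5 hr (fun σ hσ => hinv _ (H.co_mem j hσ)) (hBr p hp q hq) hj
  have h2 : ∀ (x : ι → α) (l : ι) (c : α), r x (update x l c) := by
    intro x l c
    obtain ⟨τ, hτ, hτq⟩ := H.exists_wr (swap j l) q x
    have := full_wr (hinv _ hτ) h1 c
    rwa [hτq, swap_apply_left] at this
  rw [Set.eq_univ_iff_forall]
  intro z
  have : r q z := ind_update (fun _ => True) (fun z => r q z)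
    (fun z l c _ hz => hr.trans hz (h2 z l c)) (hr.refl q) (fun l hl => absurd trivial hl)
  simpa using (this 1).mp (by simpa using hq)

/-! ### commuting with the even permutations of a coordinate -/

theorem cm_of_comm (hm : 5 ≤ Fintype.card α) {j : ι} {g : Perm (ι → α)}
    (h : ∀ σ : Perm α, Perm.sign σ = 1 → g * co j σ = co j σ * g) : Cm j g := by
  have h1 : ∀ p, g p j = p j := by
    intro p
    by_contra hp
    obtain ⟨β, h1, h2, -, h3⟩ := exists_even_move hm (u := p j) (v := p j) hp hp
    have := congrArg (fun x : Perm (ι → α) => x p j) (h β h1)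
    simp only [Perm.mul_apply, co_fix.mpr h2, co_same] at this
    exact h3 this.symm
  refine ⟨h1, fun p c => ?_⟩
  obtain ⟨β, h2, h3⟩ := exists_even_map0 hm (p j) c
  have := congrArg (fun x : Perm (ι → α) => x p) (h β h2)
  simpa only [Perm.mul_apply, co_apply, h3, h1] using this

theorem comm_of_swap {j : ι} {g : Perm (ι → α)}
    (h : ∀ x y : α, g * co j (swap x y) = co j (swap x y) * g) (σ : Perm α) :
    g * co j σ = co j σ * g := by
  induction σ using Perm.swap_induction_on with
  | one => simp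
  | swap_mul f x y _ ih => rw [map_mul, ← mul_assoc, h, mul_assoc, ih, mul_assoc]

/-- the coordinates outside `S` of `g p` only depend on those of `p` -/
theorem dep_of_cm (S : ι → Prop) {g : Perm (ι → α)} (h : ∀ l, S l → Cm l g) {p q : ι → α}
    (hpq : ∀ l, ¬ S l → q l = p l) {i : ι} (hi : ¬ S i) : g q i = g p i := by
  refine ind_update S (fun q => g q i = g p i) ?_ rfl hpq
  intro x l c hl hx
  have : i ≠ l := fun e => hi (e ▸ hl)
  rw [(h l hl).2, update_of_ne this]; exact hx

/-- lemma C -/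
theorem eq_co_of_cm [Nonempty α] {i : ι} {g : Perm (ι → α)} (h : ∀ l, l ≠ i → Cm l g) :
    ∃ σ : Perm α, g = co i σ := by
  have hinj : Injective fun c : α => g (fun _ => c) i := by
    intro c d hcd
    simp only at hcd
    have h1 : g (update (fun _ => c) i d) i = g (fun _ => d) i :=
      dep_of_cm (fun l => l ≠ i) h (fun l hl => by rw [not_not.mp hl]; simp) (by simp)
    have h2 : g (update (fun _ => c) i d) = g (fun _ => c) := by
      funext l
      by_cases hl : l = i
      · subst hl; rw [h1, hcd]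
      · rw [(h l hl).1, (h l hl).1, update_of_ne hl]
    have := congrFun (g.injective h2) i
    simpa using this.symm
  refine ⟨Equiv.ofBijective _ (Finite.injective_iff_bijective.mp hinj), ?_⟩
  ext p l
  by_cases hl : l = i
  · subst hl
    simp only [co_same, ofBijective_apply]
    exact dep_of_cm (fun x => x ≠ l) h (fun x hx => by rw [not_not.mp hx]) (by simp)
  · rw [co_ne hl, (h l hl).1]

/-! ### counting -/

/-- the slab over `V` in direction `i` -/
def slab (i : ι) (V : Finset α) : Finset (ι → α) := Finset.univ.filter fun p => p i ∈ V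

@[simp] theorem mem_slab {i : ι} {V : Finset α} {p : ι → α} : p ∈ slab i V ↔ p i ∈ V := by
  simp [slab]

/-- the hyperplane `p i = a` -/
def hy (i : ι) (a : α) : Finset (ι → α) := Finset.univ.filter fun p => p i = a

@[simp] theorem mem_hy {i : ι} {a : α} {p : ι → α} : p ∈ hy i a ↔ p i = a := by
  simp [hy]

/-- the size of a hyperplane -/
def ff (ι α : Type*) [Fintype ι] [Fintype α] : ℕ := Fintype.card α ^ (Fintype.card ι - 1)

theorem card_closed {F : Finset (ι → α)} {j : ι} (h : ∀ p ∈ F, ∀ c, update p j c ∈ F) (a : α) :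
    F.card = Fintype.card α * (F ∩ hy j a).card := by
  rw [Finset.card_eq_sum_card_fiberwise (f := fun p => p j) (t := Finset.univ)
    (fun _ _ => Finset.mem_coe.mpr (Finset.mem_univ _))]
  rw [Finset.sum_const_nat (m := (F ∩ hy j a).card), Finset.card_univ]
  intro c _
  apply Finset.card_bij (fun p _ => update p j a)
  · intro p hp
    simp only [Finset.mem_filter] at hp
    simp [h p hp.1]
  · intro p hp q hq e
    simp only [Finset.mem_filter] at hp hq
    funext l
    by_cases hl : l = j
    · subst hl; rw [hp.2, hq.2]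
    · simpa [update_of_ne hl] using congrFun e l
  · intro p hp
    simp only [Finset.mem_inter, mem_hy] at hp
    refine ⟨update p j c, by simp [h p hp.1], ?_⟩
    simp [← hp.2]

theorem card_hy (i : ι) (a : α) : (hy i a).card = ff ι α := by
  have h := card_closed (F := (Finset.univ : Finset (ι → α))) (j := i) (by simp) a
  have hm : 0 < Fintype.card α := Fintype.card_pos_iff.mpr ⟨a⟩
  have hk : 0 < Fintype.card ι := Fintype.card_pos_iff.mpr ⟨i⟩
  rw [Finset.univ_inter, Finset.card_univ, Fintype.card_fun] at h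
  apply Nat.eq_of_mul_eq_mul_left hm
  rw [← h, ff, ← pow_succ']
  congr 1; omega

theorem card_slab (i : ι) (V : Finset α) : (slab i V).card = V.card * ff ι α := by
  rw [Finset.card_eq_sum_card_fiberwise (f := fun p => p i) (t := V)
    (fun p hp => by simpa using hp)]
  rw [Finset.sum_const_nat (m := ff ι α)]
  intro c hc
  rw [← card_hy i c]
  congr 1
  ext p
  simp only [Finset.mem_filter, mem_slab, mem_hy]
  exact ⟨fun h => h.2, fun h => ⟨h ▸ hc, h⟩⟩

theorem card_univ_eq (i : ι) : Fintype.card (ι → α) = Fintype.card α * ff ι α := by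
  have := card_slab i (Finset.univ : Finset α)
  rw [Finset.card_univ] at this
  rw [← this, ← Finset.card_univ]
  congr 1; ext p; simp

theorem ff_pos [Nonempty α] : 0 < ff ι α := pow_pos Fintype.card_pos _

theorem card_le_ff [Nonempty α] [Nontrivial ι] : Fintype.card α ≤ ff ι α := by
  have : 1 < Fintype.card ι := Fintype.one_lt_card
  exact Nat.le_self_pow (by omega) _

end Cfsg.Agent.PA
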