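import Cfsg.Agent.PA.Props

/-!
# From the overgroup theorem to the maximality statement S5767

PROOF.  `W = {wr π τ}` is a subgroup (closed under products and inverses; the membership condition of the
statement is `σ = wr π τ` pointwise).  Signs by `Equiv.Perm.sign_of_pow_two_eq_one` and `card_slab`:
`sign (co i (swap x y)) = (-1)^(m^(k-1))` (`2 m^(k-1)` moved points), so `sign (co i σ) = (sign σ)^(m^(k-1))`
(`swap_induction_on`), `wr 1 τ = ∏ co i (τ i)` (induction over the support, `co_eq_wr`, `wr_mul`), so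
`sign (wr 1 τ) = (∏ sign (τ i))^(m^(k-1))`; `sign (wr (swap i j) 1) = (-1)^((m^k - m^(k-1))/2)` (fixed points:
`p i = p j`, `m^(k-1)` of them); it is `1` when `m` is even and (`k ≥ 3` or `4 ∣ m`).
* Claim 1: `M = W.subgroupOf (alternatingGroup _)`.  `M ≠ ⊤` (a 3-cycle `swap p q * swap p r` of `Ω` is not in
  `W`: e.g. it fixes all but 3 points; or use a line-counting argument: an element of `W` fixing all points but
  three is `1`).  If `M < G'`, let `G = G'.map (alternatingGroup _).subtype ≥ W ⊓ A`.  `Hyp G`: `base` by the sign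
  formula; `par`: `m` odd, or `m` even and then every `co i σ` is even; `top`: `π ↦ ∃ τ, wr π τ` even: if `m`
  is odd multiply `wr π 1` by `co i (swap x y)` when it is odd; if `m` is even all `wr (swap i j) 1` are even,
  so all `wr π 1` are.  `main` gives `G ≤ W` (so `G' ≤ M`, absurd) or `A ≤ G` (so `G' = ⊤`).
* Claim 2: `M = W ≠ ⊤`; `W < G` ⇒ `Hyp G` (`par` on the right) ⇒ `A ≤ G`, and `G` has an odd element ⇒ `G = ⊤`
  (`alternatingGroup.isCoatom` / index two).
-/

set_option autoImplicit false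
set_option linter.unusedSectionVars false

namespace Cfsg.Agent.PA

open Equiv Function

section

variable {ι α : Type*} [Fintype ι] [DecidableEq ι] [Fintype α] [DecidableEq α]

theorem wr_mul' (π π' : Perm ι) (τ τ' : ι → Perm α) :
    wr π τ * wr π' τ' = wr (π * π') (fun i => τ i * τ' (π.symm i)) := by
  ext f i; simp [Perm.mul_apply]; rfl

theorem wr_one : wr (1 : Perm ι) (1 : ι → Perm α) = 1 := by
  ext f i; simp

/-- the wreath product in product action -/
def WW (ι α : Type*) [Fintype ι] [DecidableEq ι] [Fintype α] [DecidableEq α] :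
    Subgroup (Perm (ι → α)) where
  carrier := {g | ∃ π τ, g = wr π τ}
  one_mem' := ⟨1, 1, wr_one.symm⟩
  mul_mem' := by
    rintro _ _ ⟨π, τ, rfl⟩ ⟨π', τ', rfl⟩
    exact ⟨_, _, wr_mul' π π' τ τ'⟩
  inv_mem' := by
    rintro _ ⟨π, τ, rfl⟩
    refine ⟨π⁻¹, fun i => (τ (π i))⁻¹, ?_⟩
    ext f i; rfl

theorem mem_WW {g : Perm (ι → α)} : g ∈ WW ι α ↔
    ∃ (π : Perm ι) (τ : ι → Perm α), ∀ f i, g f i = τ i (f (π.symm i)) := by
  constructor
  · rintro ⟨π, τ, rfl⟩; exact ⟨π, τ, fun _ _ => rfl⟩
  · rintro ⟨π, τ, h⟩; exact ⟨π, τ, by ext f i; exact h f i⟩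

theorem sign_invol {X : Type*} [Fintype X] [DecidableEq X] {σ : Perm X} (h : σ ^ 2 = 1) :
    Perm.sign σ = (-1) ^ (σ.support.card / 2) := by
  rw [Perm.sign_of_pow_two_eq_one h, Perm.card_fixedPoints, Perm.sum_cycleType,
    Nat.sub_sub_self (Finset.card_le_univ _)]

theorem sign_co (i : ι) (σ : Perm α) : Perm.sign (co i σ) = Perm.sign σ ^ ff ι α := by
  induction σ using Perm.swap_induction_on with
  | one => simp
  | swap_mul f x y hxy ih =>
    rw [map_mul, Perm.sign_mul, Perm.sign_mul, ih, mul_pow]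
    congr 1
    rw [sign_invol (by rw [← map_pow, sq, swap_mul_self, map_one]), Perm.sign_swap hxy]
    have : (co i (swap x y) : Perm (ι → α)).support = slab i {x, y} := by
      ext p
      rw [Perm.mem_support, Ne, co_fix, mem_slab, ← Perm.support_swap hxy, Perm.mem_support]
    rw [this, card_slab, Finset.card_pair hxy, Nat.mul_div_cancel_left _ two_pos]

theorem sign_base (τ : ι → Perm α) :
    Perm.sign (wr 1 τ) = (∏ i, Perm.sign (τ i)) ^ ff ι α := by
  have key : ∀ (s : Finset ι) (τ : ι → Perm α), (∀ l, l ∉ s → τ l = 1) →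
      Perm.sign (wr 1 τ) = (∏ i, Perm.sign (τ i)) ^ ff ι α := by
    intro s
    induction s using Finset.induction_on with
    | empty =>
      intro τ h
      have : τ = 1 := funext fun l => h l (by simp)
      rw [this, wr_one]; simp
    | insert j s _ ih =>
      intro τ h
      have e : τ = Pi.mulSingle j (τ j) * update τ j 1 := by
        funext l
        by_cases hl : l = j
        · subst hl; simp
        · simp [Pi.mulSingle_eq_of_ne hl, update_of_ne hl]
      rw [e, ← wr_mul, ← co_eq_wr, Perm.sign_mul, sign_co, ih _ (by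
        intro l hl
        by_cases hlj : l = j
        · subst hlj; simp
        · rw [update_of_ne hlj]; exact h l (by simp [hl, hlj])), ← mul_pow]
      congr 1
      simp only [Pi.mul_apply, Perm.sign_mul, Finset.prod_mul_distrib]
      congr 1
      rw [Finset.prod_eq_single j]
      · simp
      · intro l _ hl; simp [Pi.mulSingle_eq_of_ne hl]
      · simp
  exact key Finset.univ τ (by simp)

theorem sign_top [Nonempty α] (h4 : 4 ∣ ff ι α) (π : Perm ι) :
    Perm.sign (wr π (1 : ι → Perm α)) = 1 := by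
  induction π using Perm.swap_induction_on with
  | one => rw [wr_one]; simp
  | swap_mul f i j hij ih =>
    have e : wr (swap i j * f) (1 : ι → Perm α) = wr (swap i j) 1 * wr f 1 := by
      rw [wr_mul']; rfl
    rw [e, Perm.sign_mul, ih, mul_one, sign_invol (by rw [sq, wr_mul', swap_mul_self]; exact wr_one)]
    obtain ⟨a⟩ := ‹Nonempty α›
    have h1 : (wr (swap i j) (1 : ι → Perm α)).supportᶜ.card = ff ι α := by
      rw [← card_hy i a]
      have hm : ∀ p : ι → α, p ∈ (wr (swap i j) (1 : ι → Perm α)).supportᶜ ↔ p i = p j := by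
        intro p
        rw [Finset.mem_compl, Perm.notMem_support]
        constructor
        · intro h; simpa using congrFun h j
        · intro h
          funext l
          simp only [wr_apply, Pi.one_apply, symm_swap, Perm.one_apply, swap_apply_def]
          split_ifs with h1 h2
          · rw [h1, h]
          · rw [h2, h]
          · rfl
      apply Finset.card_bij (fun p _ => update p i a)
      · intro p _; simp
      · intro p hp q hq e
        funext l
        by_cases hl : l = i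
        · rw [hl, (hm p).mp hp, (hm q).mp hq]
          simpa [update_of_ne hij.symm] using congrFun e j
        · simpa [update_of_ne hl] using congrFun e l
      · intro p hp
        refine ⟨update p i (p j), (hm _).mpr (by simp [update_of_ne hij.symm]), ?_⟩
        simp [← mem_hy.mp hp]
    rw [Finset.card_compl, card_univ_eq i] at h1
    have h2 := Finset.card_le_univ (wr (swap i j) (1 : ι → Perm α)).support
    rw [card_univ_eq i] at h2
    obtain ⟨c, hc⟩ := h4
    have h3 : 4 ∣ (wr (swap i j) (1 : ι → Perm α)).support.card := by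
      have : Fintype.card α * ff ι α = 4 * (Fintype.card α * c) := by rw [hc]; ring
      omega
    apply Even.neg_one_pow
    rw [Nat.even_iff]; omega

theorem not_alt_le (hm : 5 ≤ Fintype.card α) [Nontrivial ι] :
    ¬ alternatingGroup (ι → α) ≤ WW ι α := by
  intro h
  obtain ⟨a⟩ : Nonempty α := Fintype.card_pos_iff.mp (by omega)
  obtain ⟨b, hb, -⟩ := exists_ne4 hm a a a a
  obtain ⟨c, hc, hcb, -⟩ := exists_ne4 hm a b a a
  obtain ⟨l⟩ : Nonempty ι := inferInstance
  have n : ∀ x y : α, x ≠ y → (fun _ : ι => x) ≠ fun _ => y := fun x y h e => h (congrFun e l)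
  obtain ⟨π, τ, e⟩ := mem_WW.mp (h (Perm.isThreeCycle_swap_mul_swap_same (n _ _ hb.symm)
    (n _ _ hc.symm) (n _ _ hcb.symm)).mem_alternatingGroup)
  obtain ⟨j, hj⟩ := exists_ne (π.symm l)
  have n' : ∀ x : α, update (fun _ : ι => a) j b ≠ fun _ => x := by
    intro x e
    have h1 := congrFun e j
    have h2 := congrFun e (π.symm l)
    rw [update_of_ne hj.symm] at h2
    exact hb (by simpa using h1.trans h2.symm)
  have h1 := e (fun _ => a) l
  have h2 := e (update (fun _ => a) j b) l
  rw [Perm.mul_apply, swap_apply_left, swap_apply_of_ne_of_ne (n _ _ hc) (n _ _ hcb)] at h1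
  rw [Perm.mul_apply, swap_apply_of_ne_of_ne (n' _) (n' _), swap_apply_of_ne_of_ne (n' _) (n' _),
    update_of_ne hj.symm, ← h1] at h2
  by_cases hl : l = j
  · rw [hl, update_self] at h2; exact hcb h2.symm
  · rw [update_of_ne hl] at h2; exact hc h2.symm

theorem hyp_even (hm : 5 ≤ Fintype.card α) [Nontrivial ι]
    (h4 : Even (Fintype.card α) → 4 ∣ ff ι α) {G : Subgroup (Perm (ι → α))}
    (hG : ∀ w ∈ WW ι α, Perm.sign w = 1 → w ∈ G) : Hyp G := by
  have : Nonempty α := Fintype.card_pos_iff.mp (by omega)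
  refine ⟨hm, inferInstance, fun τ hτ => hG _ ⟨_, _, rfl⟩ (by rw [sign_base, hτ, one_pow]),
    fun π => ?_, ?_⟩
  · rcases Nat.even_or_odd (Fintype.card α) with h | h
    · exact ⟨1, hG _ ⟨_, _, rfl⟩ (sign_top (h4 h) π)⟩
    · rcases Int.units_eq_one_or (Perm.sign (wr π (1 : ι → Perm α))) with e | e
      · exact ⟨1, hG _ ⟨_, _, rfl⟩ e⟩
      · obtain ⟨a⟩ := this
        obtain ⟨b, hb, -⟩ := exists_ne4 hm a a a a
        obtain ⟨i⟩ : Nonempty ι := inferInstance
        refine ⟨Pi.mulSingle i (Equiv.swap b a) * 1, hG _ ⟨_, _, rfl⟩ ?_⟩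
        rw [← wr_mul, ← co_eq_wr, Perm.sign_mul, e, sign_co, Perm.sign_swap hb,
          Odd.neg_one_pow (show Odd (ff ι α) from h.pow)]
        simp
  · rcases Nat.even_or_odd (Fintype.card α) with h | h
    · refine Or.inr fun i σ => hG _ ⟨_, _, co_eq_wr i σ⟩ ?_
      obtain ⟨c, hc⟩ := h4 h
      rw [sign_co, hc, show 4 * c = 2 * (2 * c) by ring, pow_mul, Int.units_sq, one_pow]
    · exact Or.inl h

end

theorem fin (m k : ℕ) (hm : 5 ≤ m) (hk : 2 ≤ k)
    (main : ∀ G : Subgroup (Perm (Fin k → Fin m)), Hyp G →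
      (∀ g ∈ G, ∃ (π : Perm (Fin k)) (τ : Fin k → Perm (Fin m)), g = wr π τ) ∨
        alternatingGroup (Fin k → Fin m) ≤ G) :
    (¬ (k = 2 ∧ m % 4 = 2) → ∃ M : Subgroup ↥(alternatingGroup (Fin k → Fin m)), IsCoatom M ∧ ∀ σ : ↥(alternatingGroup (Fin k → Fin m)), σ ∈ M ↔ ∃ (π : Equiv.Perm (Fin k)) (τ : Fin k → Equiv.Perm (Fin m)), ∀ (f : Fin k → Fin m) (i : Fin k), (σ : Equiv.Perm (Fin k → Fin m)) f i = τ i (f (π.symm i))) ∧
    ((∃ σ : Equiv.Perm (Fin k → Fin m), Equiv.Perm.sign σ = -1 ∧ ∃ (π : Equiv.Perm (Fin k)) (τ : Fin k → Equiv.Perm (Fin m)), ∀ (f : Fin k → Fin m) (i : Fin k), σ f i = τ i (f (π.symm i))) →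
      ∃ M : Subgroup (Equiv.Perm (Fin k → Fin m)), IsCoatom M ∧ ∀ σ, σ ∈ M ↔ ∃ (π : Equiv.Perm (Fin k)) (τ : Fin k → Equiv.Perm (Fin m)), ∀ (f : Fin k → Fin m) (i : Fin k), σ f i = τ i (f (π.symm i))) := by
  haveI : Nontrivial (Fin k) := Fin.nontrivial_iff_two_le.mpr hk
  have hm' : 5 ≤ Fintype.card (Fin m) := by simpa using hm
  have hA := not_alt_le (ι := Fin k) hm'
  constructor
  · intro hkm
    refine ⟨(WW (Fin k) (Fin m)).subgroupOf (alternatingGroup _),
      ⟨fun h => hA (Subgroup.subgroupOf_eq_top.mp h), fun b hb => ?_⟩, fun σ => mem_WW⟩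
    have H : Hyp (b.map (alternatingGroup (Fin k → Fin m)).subtype) := by
      refine hyp_even hm' ?_ fun w hw hs =>
        ⟨⟨w, Perm.mem_alternatingGroup.mpr hs⟩, hb.le hw, rfl⟩
      simp only [Fintype.card_fin, ff]
      rintro ⟨c, hc⟩
      by_cases h2 : k = 2
      · subst h2
        have : 4 ∣ m := by omega
        simpa using this
      · refine Dvd.dvd.trans ?_ (pow_dvd_pow m (show 2 ≤ k - 1 by omega))
        exact ⟨c * c, by rw [hc]; ring⟩
    rcases main _ H with h | h
    · exact (hb.not_ge fun x hx => h x.1 ⟨x, hx, rfl⟩).elim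
    · rw [eq_top_iff]
      intro x _
      obtain ⟨y, hy, e⟩ := h x.2
      exact (Subtype.ext e : y = x) ▸ hy
  · rintro ⟨σ, hσ, hW⟩
    refine ⟨WW (Fin k) (Fin m), ⟨fun h => hA (h ▸ le_top), fun b hb => ?_⟩, fun σ => mem_WW⟩
    have H : Hyp b := ⟨hm', inferInstance, fun τ _ => hb.le ⟨_, _, rfl⟩,
      fun π => ⟨1, hb.le ⟨_, _, rfl⟩⟩, Or.inr fun i σ => hb.le ⟨_, _, co_eq_wr i σ⟩⟩
    rcases main _ H with h | h
    · exact absurd h hb.not_ge
    · rw [eq_top_iff]
      intro x _
      have hσb : σ ∈ b := hb.le (mem_WW.mpr hW)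
      rcases Int.units_eq_one_or (Perm.sign x) with e | e
      · exact h (Perm.mem_alternatingGroup.mpr e)
      · have : x * σ⁻¹ ∈ b := h (Perm.mem_alternatingGroup.mpr (by simp [e, hσ]))
        simpa using b.mul_mem this hσb

end Cfsg.Agent.PA
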