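import Cfsg.Agent.PA.Props

/-!
# Line-preserving elements (for S5767)
-/

set_option autoImplicit false
set_option linter.unusedSectionVars false

namespace Cfsg.Agent.PA

open Equiv Function

variable {ι α : Type*} [Fintype ι] [DecidableEq ι] [Fintype α] [DecidableEq α]

/-- the elements preserving each `i`-line -/
def LP (α : Type*) (i : ι) : Subgroup (Perm (ι → α)) where
  carrier := {g | ∀ p l, l ≠ i → g p l = p l}
  one_mem' := fun _ _ _ => rfl
  mul_mem' := by
    intro g h hg hh p l hl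
    rw [Perm.mul_apply, hg _ _ hl, hh _ _ hl]
  inv_mem' := by
    intro g hg p l hl
    have := hg (g⁻¹ p) l hl
    simpa using this.symm

theorem LP.apply_update {i : ι} (g : LP α i) (p : ι → α) (c : α) :
    g.1 (update p i c) = update p i (g.1 (update p i c) i) := by
  funext l
  by_cases hl : l = i
  · subst hl; simp
  · rw [g.2 _ _ hl, update_of_ne hl, update_of_ne hl]

/-- the action on the `i`-line through `p` -/
def val (i : ι) (p : ι → α) : LP α i →* Perm α where
  toFun g :=
    { toFun := fun c => g.1 (update p i c) i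
      invFun := fun c => (g⁻¹).1 (update p i c) i
      left_inv := fun c => by
        simp only
        rw [← LP.apply_update]; simp
      right_inv := fun c => by
        simp only
        rw [← LP.apply_update]; simp }
  map_one' := by ext c; simp
  map_mul' g h := by
    ext c
    simp only [Subgroup.coe_mul, Perm.mul_apply, coe_fn_mk]
    rw [← LP.apply_update]

theorem val_apply (i : ι) (p : ι → α) (g : LP α i) (c : α) :
    val i p g c = g.1 (update p i c) i := rfl

theorem LP.apply {i : ι} (g : LP α i) (p : ι → α) : g.1 p = update p i (val i p g (p i)) := by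
  rw [val_apply, ← LP.apply_update]; simp

theorem val_update (i : ι) (p : ι → α) (c : α) (g : LP α i) :
    val i (update p i c) g = val i p g := by
  ext d; simp [val_apply]

theorem val_line {i : ι} {p q : ι → α} (h : ∀ l, l ≠ i → q l = p l) (g : LP α i) :
    val i q g = val i p g := by
  have : q = update p i (q i) := by
    funext l
    by_cases hl : l = i
    · subst hl; simp
    · rw [update_of_ne hl, h l hl]
  rw [this, val_update]

theorem co_mem_LP (i : ι) (σ : Perm α) : co i σ ∈ LP α i := fun p _ hl => co_ne hl σ p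

theorem val_co (i : ι) (p : ι → α) (σ : Perm α) : val i p ⟨co i σ, co_mem_LP i σ⟩ = σ := by
  ext c; simp [val_apply]

theorem conj_mem_LP {i : ι} {w : Perm (ι → α)} (hw : Cm i w) (g : LP α i) :
    w * g.1 * w⁻¹ ∈ LP α i := by
  intro p l hl
  rw [Perm.mul_apply, Perm.mul_apply, LP.apply, hw.2, update_of_ne hl]; simp

theorem val_conj {i : ι} {w : Perm (ι → α)} (hw : Cm i w) (g : LP α i) (p : ι → α) :
    val i (w p) ⟨w * g.1 * w⁻¹, conj_mem_LP hw g⟩ = val i p g := by
  ext c
  simp only [val_apply, Perm.mul_apply]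
  rw [hw.1, hw.inv.2]; simp

/-- the `i`-line through `p0` -/
def lineEquiv (i : ι) (p0 : ι → α) : α ≃ {p : ι → α // ∀ l, l ≠ i → p l = p0 l} where
  toFun c := ⟨update p0 i c, fun _ hl => update_of_ne hl _ _⟩
  invFun p := p.1 i
  left_inv c := by simp
  right_inv p := by
    apply Subtype.ext
    funext l
    by_cases hl : l = i
    · subst hl; simp
    · simp only [update_of_ne hl]; exact (p.2 l hl).symm

/-- a permutation of `α` acting on one line only -/
def ln (i : ι) (p0 : ι → α) : Perm α →* Perm (ι → α) := Perm.extendDomainHom (lineEquiv i p0)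

theorem ln_on (i : ι) (p0 : ι → α) (σ : Perm α) {p : ι → α} (h : ∀ l, l ≠ i → p l = p0 l) :
    ln i p0 σ p = update p0 i (σ (p i)) :=
  Perm.extendDomain_apply_subtype σ (lineEquiv i p0) h

theorem ln_off (i : ι) (p0 : ι → α) (σ : Perm α) {p : ι → α} (h : ¬ ∀ l, l ≠ i → p l = p0 l) :
    ln i p0 σ p = p :=
  Perm.extendDomain_apply_not_subtype σ (lineEquiv i p0) h

theorem co_conj_ln (i : ι) (p0 : ι → α) (β σ : Perm α) :
    co i β * ln i p0 σ * (co i β)⁻¹ = ln i p0 (β * σ * β⁻¹) := by
  ext1 p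
  rw [← map_inv, Perm.mul_apply, Perm.mul_apply]
  by_cases h : ∀ l, l ≠ i → p l = p0 l
  · rw [ln_on i p0 _ h, ln_on i p0 σ (fun l hl => by rw [co_ne hl, h l hl]), co_update, co_same]
    rfl
  · rw [ln_off i p0 _ h, ln_off i p0 σ (fun h' => h fun l hl => by rw [← h' l hl, co_ne hl]),
      ← Perm.mul_apply, ← map_mul]
    simp

theorem alt_le_of_ln {G : Subgroup (Perm (ι → α))} (H : Hyp G) {i : ι} {p0 : ι → α} {σ : Perm α}
    (hσ : σ ≠ 1) (h : ln i p0 σ ∈ G) : alternatingGroup (ι → α) ≤ G := by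
  have hle : alternatingGroup α ≤ G.comap (ln i p0) := by
    refine alt_le_of_norm H.m5 ?_ (σ := σ) h hσ
    intro β hβ τ hτ
    rw [Subgroup.mem_comap, ← co_conj_ln]
    exact G.mul_mem (G.mul_mem (H.co_mem i hβ) hτ) (G.inv_mem (H.co_mem i hβ))
  obtain ⟨x⟩ := H.ne
  obtain ⟨y, hy, -⟩ := exists_ne4 H.m5 x x x x
  obtain ⟨z, hz, hz', -⟩ := exists_ne4 H.m5 x y x x
  have h3 := Perm.isThreeCycle_swap_mul_swap_same hy.symm hz.symm hz'.symm
  refine Perm.alternatingGroup_le_of_isPreprimitive_of_isThreeCycle_mem H.primitive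
    (g := ln i p0 (swap x y * swap x z)) ?_ (hle h3.mem_alternatingGroup)
  exact (Perm.cycleType_extendDomain (lineEquiv i p0)).trans h3

theorem lnp {G : Subgroup (Perm (ι → α))} (H : Hyp G) (hA : ¬ alternatingGroup (ι → α) ≤ G) :
    LNp G := by
  classical
  intro i g hg hgl
  let r : (ι → α) → (ι → α) → Prop := fun p q =>
    ∀ h : LP α i, h.1 ∈ G → (val i p h = 1 ↔ val i q h = 1)
  have hr : Equivalence r :=
    ⟨fun _ _ _ => Iff.rfl, fun h g hg => (h g hg).symm, fun h h' g hg => (h g hg).trans (h' g hg)⟩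
  have hinv : ∀ w ∈ G, Cm i w → ∀ p q, r p q → r (w p) (w q) := by
    intro w hw hc p q hpq h hh
    have e : ∀ x, val i (w x) h = val i x ⟨w⁻¹ * h.1 * w⁻¹⁻¹, conj_mem_LP hc.inv h⟩ := by
      intro x
      rw [← val_conj hc ⟨w⁻¹ * h.1 * w⁻¹⁻¹, conj_mem_LP hc.inv h⟩ x]
      congr 1
      apply Subtype.ext
      simp only [inv_inv]; group
    rw [e, e]
    exact hpq _ (G.mul_mem (G.mul_mem (G.inv_mem hw) hh) (G.inv_mem (G.inv_mem hw)))
  by_cases hu : ∃ p q j, j ≠ i ∧ r p q ∧ p j ≠ q j
  · obtain ⟨p, q, j, hj, hpq, hne⟩ := hu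
    have hall : ∀ x y, r x y := fun x y =>
      H.prim hr hinv (fun _ => True) (fun p c _ _ h _ => by rw [val_update]) hj hpq hne trivial
        trivial trivial
    let g' : LP α i := ⟨g, hgl⟩
    have h1 : ∀ (p : ι → α) (l : ι) (c : α), l ≠ i → val i (update p l c) g' = val i p g' := by
      intro p l c hl
      obtain ⟨u, hu1, hu2, -⟩ := exists_ne4 H.m5 (p l) c c c
      obtain ⟨β, hβ, hβu, -, hβc⟩ := exists_even_map H.m5 hu1.symm hu1.symm hu2.symm hu2.symm
      have hc : Cm i (co l β)⁻¹ := (cm_co hl β).inv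
      let h : LP α i := g'⁻¹ * ⟨(co l β)⁻¹ * g'.1 * (co l β)⁻¹⁻¹, conj_mem_LP hc g'⟩
      have hv : ∀ x, val i x h = (val i x g')⁻¹ * val i (co l β x) g' := by
        intro x
        simp only [h, map_mul, map_inv]
        rw [← val_conj hc g' (co l β x)]
        simp
      have hG : h.1 ∈ G := by
        have := H.co_mem l hβ
        exact G.mul_mem (G.inv_mem hg)
          (G.mul_mem (G.mul_mem (G.inv_mem this) hg) (G.inv_mem (G.inv_mem this)))
      have h2 : val i (update p l u) h = 1 := by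
        rw [hv, co_fix.mpr (by simpa using hβu)]; simp
      have h3 := (hall _ p h hG).mp h2
      rw [hv, co_apply, hβc, inv_mul_eq_one] at h3
      exact h3.symm
    obtain ⟨x⟩ := H.ne
    refine ⟨val i (fun _ => x) g', ?_⟩
    ext1 p
    have h2 : val i p g' = val i (fun _ => x) g' := by
      have := ind_update (fun l => l ≠ i) (fun z => val i z g' = val i (fun _ => x) g')
        (fun z l c hl hz => (h1 z l c hl).trans hz) (p := update (fun _ => x) i (p i)) (q := p)
        (val_update _ _ _ _) (fun l hl => by rw [not_not.mp hl]; simp)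
      exact this
    rw [co_apply, ← h2]
    exact LP.apply g' p
  by_cases hg1 : g = 1
  · exact ⟨1, by simp [hg1]⟩
  exfalso
  push Not at hu
  let Λ : LP α i → Finset (ι → α) := fun h => Finset.univ.filter fun p => val i p h ≠ 1
  have hΛ : ∀ h p, p ∈ Λ h ↔ val i p h ≠ 1 := by simp [Λ]
  have hex : ∃ n, ∃ h : LP α i, h.1 ∈ G ∧ (Λ h).Nonempty ∧ (Λ h).card = n := by
    refine ⟨_, ⟨g, hgl⟩, hg, ?_, rfl⟩
    by_contra hne
    apply hg1
    ext1 p
    have : val i p ⟨g, hgl⟩ = 1 := by
      by_contra h; exact hne ⟨p, (hΛ _ _).mpr h⟩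
    have h2 := LP.apply ⟨g, hgl⟩ p
    rw [this] at h2
    simpa using h2
  obtain ⟨h, hG, ⟨p0, hp0⟩, hcard⟩ := Nat.find_spec hex
  have hmin : ∀ h' : LP α i, h'.1 ∈ G → (Λ h').Nonempty → (Λ h).card ≤ (Λ h').card :=
    fun h' h1 h2 => hcard ▸ Nat.find_min' hex ⟨h', h1, h2, rfl⟩
  -- Lemma I
  have hI : ∀ p ∈ Λ h, ∀ h' : LP α i, h'.1 ∈ G → val i p h' ≠ 1 → ∀ q ∈ Λ h, val i q h' ≠ 1 := by
    intro p hp h' hh' hv q hq hq'
    obtain ⟨γ, hγ, hne⟩ := exists_not_comm H.m5 ((hΛ _ _).mp hp) hv
    let c : LP α i := ⟨co i γ, co_mem_LP i γ⟩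
    let k : LP α i := h * (c * h' * c⁻¹) * h⁻¹ * (c * h' * c⁻¹)⁻¹
    have hc : c.1 ∈ G := H.co_mem i hγ
    have hk : k.1 ∈ G := by
      have h1 : (c * h' * c⁻¹).1 ∈ G := G.mul_mem (G.mul_mem hc hh') (G.inv_mem hc)
      exact G.mul_mem (G.mul_mem (G.mul_mem hG h1) (G.inv_mem hG)) (G.inv_mem h1)
    have hvk : ∀ x, val i x k = val i x h * (γ * val i x h' * γ⁻¹) * (val i x h)⁻¹ *
        (γ * val i x h' * γ⁻¹)⁻¹ := by
      intro x
      simp only [k, c, map_mul, map_inv, val_co]
    have hsub : Λ k ⊆ (Λ h).erase q := by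
      intro x hx
      rw [hΛ, hvk] at hx
      rw [Finset.mem_erase, hΛ]
      constructor
      · rintro rfl; apply hx; rw [hq']; group
      · intro e; apply hx; rw [e]; group
    have hpk : p ∈ Λ k := by
      rw [hΛ, hvk]
      intro e
      apply hne
      rw [mul_inv_eq_one, mul_inv_eq_iff_eq_mul] at e
      exact e
    have h1 := hmin k hk ⟨p, hpk⟩
    have h2 := Finset.card_le_card hsub
    rw [Finset.card_erase_of_mem hq] at h2
    have h3 := Finset.card_pos.mpr ⟨q, hq⟩
    omega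
  have hline : ∀ q ∈ Λ h, ∀ l, l ≠ i → q l = p0 l := by
    intro q hq l hl
    refine hu q p0 l hl ?_
    intro h' hh'
    exact ⟨fun e => by_contra fun e' => hI p0 hp0 h' hh' e' q hq e,
      fun e => by_contra fun e' => hI q hq h' hh' e' p0 hp0 e⟩
  apply hA
  refine alt_le_of_ln H (i := i) (p0 := p0) ((hΛ _ _).mp hp0) ?_
  convert hG using 1
  ext1 p
  by_cases hp : ∀ l, l ≠ i → p l = p0 l
  · rw [ln_on i p0 _ hp, LP.apply, val_line hp]
    funext l
    by_cases hl : l = i
    · subst hl; simp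
    · rw [update_of_ne hl, update_of_ne hl, hp l hl]
  · rw [ln_off i p0 _ hp, LP.apply]
    have : val i p h = 1 := by
      by_contra e
      exact hp (hline p ((hΛ _ _).mpr e))
    simp [this]

end Cfsg.Agent.PA
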