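import Cfsg.Agent.PA.Rt

/-!
# Elements fixing a hyperplane pointwise (for S5767)
-/

set_option autoImplicit false
set_option linter.unusedSectionVars false

namespace Cfsg.Agent.PA

open Equiv Function

variable {ι α : Type*} [Fintype ι] [DecidableEq ι] [Fintype α] [DecidableEq α]
variable {G : Subgroup (Perm (ι → α))}

theorem fix_iff {i : ι} {a : α} {g : Perm (ι → α)} (h : ∀ p, p i = a → g p = p) (p : ι → α) :
    g p i = a ↔ p i = a :=
  ⟨fun hp => g.injective (h _ hp) ▸ hp, fun hp => by rw [h p hp, hp]⟩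

/-- pointwise stabilizer of a hyperplane -/
def Ka (G : Subgroup (Perm (ι → α))) (i : ι) (a : α) : Subgroup (Perm (ι → α)) where
  carrier := {g | g ∈ G ∧ ∀ p, p i = a → g p = p}
  one_mem' := ⟨G.one_mem, fun _ _ => rfl⟩
  mul_mem' := fun h1 h2 => ⟨G.mul_mem h1.1 h2.1, fun p hp => by
    rw [Perm.mul_apply, h2.2 p hp, h1.2 p hp]⟩
  inv_mem' := fun h1 => ⟨G.inv_mem h1.1, fun p hp => by rw [Perm.inv_eq_iff_eq, h1.2 p hp]⟩

/-- the stabilizer in `Ka` of a parallel hyperplane -/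
def Na (G : Subgroup (Perm (ι → α))) (i : ι) (a b : α) : Subgroup (Perm (ι → α)) where
  carrier := {g | g ∈ Ka G i a ∧ ∀ p, g p i = b ↔ p i = b}
  one_mem' := ⟨one_mem _, fun _ => Iff.rfl⟩
  mul_mem' := fun h1 h2 => ⟨mul_mem h1.1 h2.1, fun p => (h1.2 _).trans (h2.2 p)⟩
  inv_mem' := fun {g} h1 => ⟨inv_mem h1.1, fun p => by simpa using (h1.2 (g⁻¹ p)).symm⟩

theorem Ka.conj {i : ι} {a a' : α} {w g : Perm (ι → α)} (hw : w ∈ G)
    (ha : ∀ p, w p i = a ↔ p i = a') (hg : g ∈ Ka G i a') : w * g * w⁻¹ ∈ Ka G i a := by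
  refine ⟨G.mul_mem (G.mul_mem hw hg.1) (G.inv_mem hw), fun p hp => ?_⟩
  rw [Perm.mul_apply, Perm.mul_apply, hg.2 _ ((ha _).mp (by simpa using hp))]; simp

theorem Na.conj {i : ι} {a b a' b' : α} {w g : Perm (ι → α)} (hw : w ∈ G)
    (ha : ∀ p, w p i = a ↔ p i = a') (hb : ∀ p, w p i = b ↔ p i = b') (hg : g ∈ Na G i a' b') :
    w * g * w⁻¹ ∈ Na G i a b := by
  refine ⟨Ka.conj hw ha hg.1, fun p => ?_⟩
  rw [Perm.mul_apply, Perm.mul_apply, hb, hg.2, ← hb]; simp

theorem Na.two {i : ι} {a b : α} {g : Perm (ι → α)} (hg : g ∈ Na G i a b) (p : ι → α) :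
    (g p i = a ∨ g p i = b) ↔ (p i = a ∨ p i = b) := by
  rw [fix_iff hg.1.2, hg.2]

theorem orb_equiv (K : Subgroup (Perm (ι → α))) : Equivalence fun p q => ∃ h ∈ K, h p = q := by
  refine ⟨fun p => ⟨1, one_mem _, rfl⟩, ?_, ?_⟩
  · rintro p q ⟨h, hh, rfl⟩; exact ⟨h⁻¹, inv_mem hh, by simp⟩
  · rintro p q s ⟨h, hh, rfl⟩ ⟨k, hk, rfl⟩; exact ⟨k * h, mul_mem hk hh, rfl⟩

theorem exists_cyc (T : Finset α) (h : 2 ≤ T.card) : ∃ ξ : Perm α, ξ.IsCycle ∧ ξ.support = T := by
  have hl : 2 ≤ T.toList.length := by rwa [Finset.length_toList]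
  refine ⟨T.toList.formPerm, List.isCycle_formPerm T.nodup_toList hl, ?_⟩
  rw [List.support_formPerm_of_nodup _ T.nodup_toList, Finset.toList_toFinset]
  intro x e
  rw [e] at hl
  simp at hl

/-- the counting step: if `Ka` is transitive off the hyperplane, some element of `Na` is not uniform -/
theorem exists_na (H : Hyp G) {i : ι} {a b : α} (hab : a ≠ b)
    (htr : ∀ p q : ι → α, p i ≠ a → q i ≠ a → ∃ h ∈ Ka G i a, h p = q) :
    ∃ y ∈ Na G i a b, ¬ ∃ σ : Perm α, y = co i σ := by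
  classical
  by_contra hn
  push Not at hn
  have hm := H.m5
  have hT : (Finset.univ \ {a, b} : Finset α).card = Fintype.card α - 2 := by
    rw [Finset.card_sdiff_of_subset (Finset.subset_univ _), Finset.card_univ, Finset.card_pair hab]
  obtain ⟨ξ, hξ, hs⟩ := exists_cyc (Finset.univ \ {a, b} : Finset α) (by omega)
  have hfix : ∀ c, ξ c = c ↔ c = a ∨ c = b := by
    intro c
    rw [← Perm.notMem_support, hs]; simp; tauto
  have hx : co i ξ ∈ G := by
    rcases H.par with h | h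
    · apply H.co_mem
      rw [hξ.sign, hs, hT, Odd.neg_one_pow (Nat.Odd.sub_even (by omega) h even_two)]; simp
    · exact h i ξ
  set x := co i ξ with hxd
  have hxK : x ∈ Ka G i a := ⟨hx, fun p hp => co_fix.mpr ((hfix _).mpr (Or.inl hp))⟩
  have hC : ∀ y ∈ Ka G i a, y * x = x * y → ∃ σ : Perm α, y = co i σ := by
    intro y hy hc
    refine hn y ⟨hy, fun p => ?_⟩
    have h1 : x (y p) = y p ↔ x p = p := by
      rw [← Perm.mul_apply, ← hc, Perm.mul_apply, y.apply_eq_iff_eq]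
    rw [co_fix, co_fix, hfix, hfix, fix_iff hy.2] at h1
    have h2 := fix_iff hy.2 p
    constructor
    · intro e
      rcases h1.mp (Or.inr e) with e' | e'
      · exact absurd (e.symm.trans (h2.mpr e')) hab.symm
      · exact e'
    · intro e
      rcases h1.mpr (Or.inr e) with e' | e'
      · exact absurd (e.symm.trans e') hab.symm
      · exact e'
  obtain ⟨t0, hta, htb, -⟩ := exists_ne4 hm a b a a
  have := H.ne
  have := H.nt
  let p0 : ι → α := fun _ => b
  let p1 : ι → α := fun _ => t0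
  have hC1 : ∀ y ∈ Ka G i a, y * x = x * y → y p1 i = t0 → y = 1 := by
    intro y hy hc h0
    obtain ⟨ρ, rfl⟩ := hC y hy hc
    rw [hxd, ← map_mul, ← map_mul] at hc
    have hc' : Commute ρ ξ := co_inj i hc
    have h1 : ρ t0 = t0 := by simpa [p1] using h0
    have h2 : ρ a = a := by simpa using congrFun (hy.2 (fun _ => a) rfl) i
    have : ρ = 1 := by
      ext c
      by_cases hc1 : c = a
      · rw [hc1, h2]; rfl
      by_cases hc2 : c = b
      · have h3 : ξ (ρ b) = ρ b := by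
          rw [← Perm.mul_apply, ← hc'.eq, Perm.mul_apply, (hfix b).mpr (Or.inr rfl)]
        rcases (hfix _).mp h3 with e | e
        · exact absurd (ρ.injective (e.trans h2.symm)) hab.symm
        · rw [hc2, e]; rfl
      · obtain ⟨n, hn⟩ := hξ.exists_pow_eq (x := t0) (y := c) (by rw [Ne, hfix]; tauto)
          (by rw [Ne, hfix]; tauto)
        rw [← hn, ← Perm.mul_apply, (hc'.pow_right n).eq, Perm.mul_apply, h1]; rfl
    rw [this, map_one]
  let A : Finset (Perm (ι → α)) := Finset.univ.filter fun k => k ∈ Ka G i a ∧ k p0 i = b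
  let S : Finset (Perm (ι → α)) := Finset.univ.filter fun k => k ∈ Ka G i a ∧ k p0 = p0
  have hA : ∀ k, k ∈ A ↔ k ∈ Ka G i a ∧ k p0 i = b := by simp [A]
  have hS : ∀ k, k ∈ S ↔ k ∈ Ka G i a ∧ k p0 = p0 := by simp [S]
  have h1 : S.card * (hy i b).card ≤ A.card := by
    refine Finset.mul_card_image_le_card_of_maps_to (f := fun k => k p0)
      (fun k hk => mem_hy.mpr ((hA k).mp hk).2) _ fun q hq => ?_
    obtain ⟨k0, hk0, hk0'⟩ := htr p0 q hab.symm (by rw [mem_hy.mp hq]; exact hab.symm)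
    refine Finset.card_le_card_of_injOn (fun k => k0 * k) ?_ fun k _ k' _ e => mul_left_cancel e
    intro k hk
    obtain ⟨k1, k2⟩ := (hS k).mp hk
    simp only [Finset.coe_filter, Set.mem_setOf_eq, hA, Perm.mul_apply, k2, hk0']
    exact ⟨⟨mul_mem hk0 k1, mem_hy.mp hq⟩, trivial⟩
  have h2 : A.card ≤ (Fintype.card α - 1) * S.card := by
    refine Finset.card_le_mul_card_image_of_maps_to (f := fun k => k⁻¹ * x * k) ?_ _ fun s _ => ?_
    · intro k hk
      obtain ⟨k1, k2⟩ := (hA k).mp hk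
      refine (hS _).mpr ⟨mul_mem (mul_mem (inv_mem k1) hxK) k1, ?_⟩
      rw [Perm.mul_apply, Perm.mul_apply, co_fix.mpr ((hfix _).mpr (Or.inr k2))]; simp
    · rcases (A.filter fun k => k⁻¹ * x * k = s).eq_empty_or_nonempty with e | ⟨k0, hk0⟩
      · rw [e]; simp
      rw [Finset.mem_filter, hA] at hk0
      rw [← Finset.card_univ, ← Finset.card_erase_of_mem (Finset.mem_univ a)]
      have hcm : ∀ k ∈ A.filter fun k => k⁻¹ * x * k = s,
          k * k0⁻¹ ∈ Ka G i a ∧ Commute (k * k0⁻¹) x := by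
        intro k hk
        rw [Finset.mem_filter, hA] at hk
        refine ⟨mul_mem hk.1.1 (inv_mem hk0.1.1), ?_⟩
        have e := hk.2.trans hk0.2.symm
        calc k * k0⁻¹ * x = k * (k0⁻¹ * x * k0) * k0⁻¹ := by group
          _ = x * (k * k0⁻¹) := by rw [← e]; group
      refine Finset.card_le_card_of_injOn (fun k => (k * k0⁻¹) p1 i) ?_ ?_
      · intro k hk
        simp only [Finset.coe_erase, Finset.coe_univ, Set.mem_diff, Set.mem_univ,
          Set.mem_singleton_iff, true_and]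
        rw [fix_iff (hcm k hk).1.2]; exact hta
      · intro k hk k' hk' e
        obtain ⟨a1, a2⟩ := hcm k hk
        obtain ⟨b1, b2⟩ := hcm k' hk'
        have := hC1 ((k' * k0⁻¹)⁻¹ * (k * k0⁻¹)) (mul_mem (inv_mem b1) a1)
          (b2.inv_left.mul_left a2).eq (by
            obtain ⟨σ, hσ⟩ := hC _ b1 b2.eq
            simp only at e
            rw [Perm.mul_apply, hσ, ← map_inv, co_same, e, hσ, co_same]
            simp [p1])
        rw [inv_mul_eq_one] at this
        exact (mul_right_cancel this).symm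
  have h3 : 0 < S.card := Finset.card_pos.mpr ⟨1, (hS 1).mpr ⟨one_mem _, rfl⟩⟩
  rw [card_hy] at h1
  have h4 := card_le_ff (ι := ι) (α := α)
  have h5 : S.card * Fintype.card α ≤ S.card * (Fintype.card α - 1) := by
    calc _ ≤ S.card * ff ι α := Nat.mul_le_mul_left _ h4
      _ ≤ _ := h1.trans (by rw [mul_comm]; exact h2)
  have := Nat.le_of_mul_le_mul_left h5 h3
  omega

theorem na_false (H : Hyp G) (h2 : Twop G) {i : ι} {a b : α} (hab : a ≠ b)
    (htr : ∀ p q : ι → α, p i ≠ a → p i ≠ b → q i ≠ a → q i ≠ b → ∃ h ∈ Na G i a b, h p = q) :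
    False := by
  have hm := H.m5
  obtain ⟨c, hca, hcb, -⟩ := exists_ne4 hm a b a a
  obtain ⟨d, hda, hdb, hdc, -⟩ := exists_ne4 hm a b c a
  have hcd1 : ∀ x, swap c d x = a ↔ x = a := fun x => by
    rw [swap_apply_eq_iff, swap_apply_of_ne_of_ne hca.symm hda.symm]
  have hcd2 : ∀ x, swap c d x = b ↔ x = b := fun x => by
    rw [swap_apply_eq_iff, swap_apply_of_ne_of_ne hcb.symm hdb.symm]
  have htr' : ∀ p q : ι → α, p i ≠ a → p i ≠ b → q i ≠ a → q i ≠ b →
      ∃ h ∈ Na G i b a, h p = q := by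
    intro p q pa pb qa qb
    have hw : co i (swap a b * swap c d) ∈ G :=
      H.co_mem i (by simp [Perm.sign_swap hab, Perm.sign_swap hdc.symm])
    have w1 : ∀ p, co i (swap a b * swap c d) p i = b ↔ p i = a := fun p => by
      rw [co_same, Perm.mul_apply, swap_apply_eq_iff, swap_apply_right, hcd1]
    have w2 : ∀ p, co i (swap a b * swap c d) p i = a ↔ p i = b := fun p => by
      rw [co_same, Perm.mul_apply, swap_apply_eq_iff, swap_apply_left, hcd2]
    set w := co i (swap a b * swap c d)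
    obtain ⟨h, hh, e⟩ := htr (w⁻¹ p) (w⁻¹ q) (by rw [Ne, ← w1]; simpa using pb)
      (by rw [Ne, ← w2]; simpa using pa) (by rw [Ne, ← w1]; simpa using qb)
      (by rw [Ne, ← w2]; simpa using qa)
    exact ⟨_, Na.conj hw w1 w2 hh, by rw [Perm.mul_apply, Perm.mul_apply, e]; simp⟩
  have hoff : ∀ n ∈ Na G i a b, ∀ p : ι → α, p i ≠ a → p i ≠ b → n p i ≠ a ∧ n p i ≠ b := by
    intro n hn p pa pb
    exact ⟨by rwa [Ne, fix_iff hn.1.2], by rwa [Ne, hn.2]⟩
  -- semiregularity on lines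
  have hsemi : ∀ n ∈ Na G i a b, ∀ P : ι → α, P i ≠ a → P i ≠ b → (∀ l, l ≠ i → n P l = P l) →
      ∀ Q : ι → α, Q i ≠ a → Q i ≠ b → ∀ l, l ≠ i → n Q l = Q l := by
    intro n hn P pa pb hP Q qa qb l hl
    obtain ⟨n', hn', rfl⟩ := htr' P Q pa pb qa qb
    obtain ⟨σ, hσ⟩ := h2 i a b hab (n * n' * n⁻¹ * n'⁻¹)
      (G.mul_mem (G.mul_mem (G.mul_mem hn.1.1 hn'.1.1) (G.inv_mem hn.1.1)) (G.inv_mem hn'.1.1)) (by
        intro p hp
        rcases hp with e | e
        · rw [Perm.mul_apply, Perm.mul_apply, (inv_mem hn).1.2 _ (((inv_mem hn').2 p).mpr e),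
            Perm.mul_apply]
          simpa using hn.1.2 p e
        · rw [Perm.mul_apply, (inv_mem hn').1.2 p e, Perm.mul_apply, Perm.mul_apply,
            hn'.1.2 _ (((inv_mem hn).2 p).mpr e)]
          simp)
    have e : n (n' P) = co i σ (n' (n P)) := by rw [← hσ]; simp [Perm.mul_apply]
    rw [e, co_ne hl, eq_update hP]
    exact h2.ol H hab.symm hn'.1.1 (Na.two hn') pb pa (hoff n hn P pa pb).2 (hoff n hn P pa pb).1 hl
  obtain ⟨j, hj⟩ := H.exists_ne i
  obtain ⟨n, hn, hn1⟩ := htr (fun _ => c) (update (fun _ => c) j d) hca hcb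
    (by rwa [update_of_ne hj.symm]) (by rwa [update_of_ne hj.symm])
  obtain ⟨P, pa, pb, P1, P2⟩ : ∃ P : ι → α, P i ≠ a ∧ P i ≠ b ∧ P j ≠ d ∧ n⁻¹ P j ≠ d := by
    by_contra hc
    push Not at hc
    let F : Finset (ι → α) := Finset.univ.filter fun p => p i ≠ a ∧ p i ≠ b
    have hF : ∀ p, p ∈ F ↔ p i ≠ a ∧ p i ≠ b := by simp [F]
    have h1 := card_closed (F := F) (j := j) (fun p hp c => by
      rw [hF, update_of_ne hj.symm]; exact (hF p).mp hp) d
    have h3 : F ⊆ (F ∩ hy j d) ∪ (F ∩ hy j d).image n := by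
      intro p hp
      rw [Finset.mem_union]
      by_cases e : p j = d
      · exact Or.inl (Finset.mem_inter.mpr ⟨hp, mem_hy.mpr e⟩)
      · obtain ⟨pa, pb⟩ := (hF p).mp hp
        exact Or.inr (Finset.mem_image.mpr ⟨n⁻¹ p, Finset.mem_inter.mpr
          ⟨(hF _).mpr (hoff _ (inv_mem hn) p pa pb), mem_hy.mpr (hc p pa pb e)⟩, by simp⟩)
    have h4 := (Finset.card_le_card h3).trans (Finset.card_union_le _ _)
    have h5 := Finset.card_image_le (s := F ∩ hy j d) (f := n)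
    have h6 : 0 < F.card := Finset.card_pos.mpr ⟨fun _ => c, (hF _).mpr ⟨hca, hcb⟩⟩
    nlinarith
  obtain ⟨v, v1, v2, v3, v4⟩ := exists_ne4 hm d c (P j) (n⁻¹ P j)
  have hz : co j (swap d v) * co i (swap c d) ∈ G :=
    H.co2_mem hj (by rw [Perm.sign_swap v1.symm, Perm.sign_swap hdc.symm])
  have z1 : ∀ p, (co j (swap d v) * co i (swap c d)) p i = swap c d (p i) := fun p => by
    rw [Perm.mul_apply, co_ne hj.symm, co_same]
  have z2 : ∀ p, (co j (swap d v) * co i (swap c d)) p j = swap d v (p j) := fun p => by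
    rw [Perm.mul_apply, co_same, co_ne hj]
  have z3 : ∀ p : ι → α, p j ≠ d → p j ≠ v →
      (co j (swap d v) * co i (swap c d)) p = update p i (swap c d (p i)) := fun p h1 h3 => by
    rw [Perm.mul_apply, co_fix.mpr (by rw [co_ne hj]; exact swap_apply_of_ne_of_ne h1 h3), co_apply]
  have z4 : (co j (swap d v) * co i (swap c d))⁻¹ = co j (swap d v) * co i (swap c d) := by
    rw [mul_inv_rev, ← map_inv, ← map_inv, swap_inv, swap_inv, co_comm hj]
  set z := co j (swap d v) * co i (swap c d)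
  have hk : z * n * z⁻¹ * n⁻¹ ∈ Na G i a b :=
    mul_mem (Na.conj hz (fun p => by rw [z1, hcd1]) (fun p => by rw [z1, hcd2]) hn) (inv_mem hn)
  have hol : ∀ p : ι → α, p i ≠ a → p i ≠ b → ∀ l, l ≠ i →
      n (update p i (swap c d (p i))) l = n p l := fun p pa pb l hl =>
    h2.ol H hab hn.1.1 (Na.two hn) pa pb (by rwa [Ne, hcd1]) (by rwa [Ne, hcd2]) hl
  have := hsemi _ hk P pa pb (by
    intro l hl
    obtain ⟨qa, qb⟩ := hoff _ (inv_mem hn) P pa pb
    have e : ∀ l, l ≠ i → n (update (n⁻¹ P) i (swap c d (n⁻¹ P i))) l = P l := fun l hl => by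
      rw [hol _ qa qb l hl]; simp
    rw [z4, Perm.mul_apply, Perm.mul_apply, Perm.mul_apply, z3 _ P2 v4.symm,
      z3 _ (by rwa [e j hj]) (by rw [e j hj]; exact v3.symm), update_of_ne hl, e l hl])
    (n fun _ => c) (hoff n hn _ hca hcb).1 (hoff n hn _ hca hcb).2 j hj
  rw [z4, Perm.mul_apply, Perm.mul_apply, Perm.mul_apply, z2] at this
  simp only [Perm.coe_inv, symm_apply_apply] at this
  rw [z3 _ hdc.symm v2.symm, hol _ hca hcb j hj, hn1] at this
  exact v1 (by simpa using this)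

theorem onep (H : Hyp G) (hL : LNp G) (h2 : Twop G) (hR : Rtp G) : Onep G := by
  intro i a g hg hf
  refine hL i g hg fun p j hj => ?_
  by_contra hne
  have hpa : p i ≠ a := fun e => hne (by rw [hf p e])
  have htr : ∀ p q : ι → α, p i ≠ a → q i ≠ a → ∃ h ∈ Ka G i a, h p = q := by
    intro x y hx hy
    refine H.prim (orb_equiv (Ka G i a)) ?_ (fun c => c ≠ a) ?_ hj ⟨g, ⟨hg, hf⟩, rfl⟩ (Ne.symm hne)
      (by rwa [Ne, fix_iff hf]) hx hy
    · rintro w hw hc p q ⟨h, hh, rfl⟩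
      exact ⟨_, Ka.conj hw (fun p => by rw [hc.1]) hh, by simp [Perm.mul_apply]⟩
    · intro p c hp hc
      obtain ⟨β, b1, b2, -, b3⟩ := exists_even_map H.m5 hp hp hc hc
      exact ⟨co i β, ⟨H.co_mem i b1, fun q hq => co_fix.mpr (by rw [hq, b2])⟩, by
        rw [co_apply, b3]⟩
  obtain ⟨b, hb, -⟩ := exists_ne4 H.m5 a a a a
  obtain ⟨y, hy, hny⟩ := exists_na H hb.symm htr
  obtain ⟨q, l, qa, qb, hl, hq⟩ : ∃ q l, q i ≠ a ∧ q i ≠ b ∧ l ≠ i ∧ y q l ≠ q l := by
    by_contra hc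
    push Not at hc
    exact hny (hR i a b hb.symm y hy.1.1 (Na.two hy) hc)
  refine na_false H h2 (i := i) hb.symm fun x z xa xb za zb => ?_
  refine H.prim (orb_equiv (Na G i a b)) ?_ (fun c => c ≠ a ∧ c ≠ b) ?_ hl ⟨y, hy, rfl⟩ (Ne.symm hq)
    ⟨by rwa [Ne, fix_iff hy.1.2], by rwa [Ne, hy.2]⟩ ⟨xa, xb⟩ ⟨za, zb⟩
  · rintro w hw hc p q ⟨h, hh, rfl⟩
    exact ⟨_, Na.conj hw (fun p => by rw [hc.1]) (fun p => by rw [hc.1]) hh,
      by simp [Perm.mul_apply]⟩
  · intro p c hp hc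
    obtain ⟨β, b1, b2, b4, b3⟩ := exists_even_map H.m5 hp.1 hp.2 hc.1 hc.2
    refine ⟨co i β, ⟨⟨H.co_mem i b1, fun q hq => co_fix.mpr (by rw [hq, b2])⟩, fun q => ?_⟩, by
      rw [co_apply, b3]⟩
    rw [co_same]
    exact ⟨fun e => β.injective (e.trans b4.symm), fun e => by rw [e, b4]⟩

end Cfsg.Agent.PA
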