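import Cfsg.Agent.PA.Props

/-!
# Images of hyperplanes are hyperplanes (for S5767)

`Ω = ι → α`, `m = card α`, `f = ff ι α = |hy i a|`.  `Φ` = the finsets `h • hy i a` (`h ∈ G`, any `i, a`; use
`(hy i a).map h.toEmbedding` or `.image h`).  `G` is transitive on hyperplanes (`Hyp.exists_wr (swap i i') q q'`
maps `hy i (q i)` onto `hy i' (q' i')`), so for fixed `i, a` each member of `Φ` is `h • hy i a`.
`ζ` = the maximum of `|F ∩ F'|` over `F ≠ F'` in `Φ`; `ζ > 0` (`hy i a ∩ hy j c ≠ ∅` for `i ≠ j`).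

PROOF.
* L3: if `h ∈ G` maps `hy i c` onto `hy i c'` then it maps each `hy i x` onto a hyperplane `hy i x'`:
  let `p = h p0`, `p0 i = x ≠ c`, `q i = p i`, `q0 = h⁻¹ q`.  If `q0 i ∉ {c,x}` take `σ` even fixing `c, x`,
  moving `q0 i` (`exists_even_move`); `h (co i σ) h⁻¹ = co i σ'` by `Onep`, it fixes `p`, so fixes `q`,
  so `co i σ` fixes `q0`, absurd; `q0 i = c` gives `p i = q i = c'`, so `p0 i = c`, absurd.  Then compare cards.
* KL: let `F0 = hy i a`, `F1 = h • hy i a ≠ F0`, `|F0 ∩ F1| = ζ`.  For even `σ` fixing `a`, `u = co i σ`: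
  `u F1 ∩ F1 ⊇ F0 ∩ F1`, so `u F1 = F1` or `u F1 ∩ F1 = F0 ∩ F1`; hence `u F1 = F1` as soon as `σ` fixes
  `p i` for some `p ∈ F1 \ F0` (nonempty by cards).  `V = {p i | p ∈ F1 \ F0}`.
  - `V ∋ v ≠ v'`: `exists_even_map` (fix `a, v`, send `v'` to `c`) gives `V = α \ {a}`; then for `p ∈ F1 \ F0`,
    `c ≠ a`: `update p i c ∈ F1` (fix `a` and some `w ∉ {a, p i, c}`).  So `co i σ` stabilizes `F1` for all
    `σ` fixing `a`.
  - `V = {b}`: `F1 ⊆ F2 = {p i ∈ {a,b}}`.  Then `h⁻¹ F2` is a slab: for `σ` even fixing `a, b`,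
    `h⁻¹ (co i σ) h` fixes `hy i a` pointwise, so is a `co i σ'` (`Onep`), and `F2` = common fixed points of
    these `co i σ` (`exists_even_move`).  By cards (`card_slab`) `h⁻¹ F2 = slab i {a, b'}`.  For `c ≠ d`
    outside `{a,b'}`: `u' = h (co i (swap a b' * swap c d)) h⁻¹` stabilizes `F2` and preserves lines off `F2`
    (`Twop.ol` for `h` and `h⁻¹`), so `u' = co i σ` by `Rtp`; hence whether `h q` is fixed by `u'` depends only on
    `(h q) i`.  So `h • slab i {c,d}` is a slab (the points off `F2` moved by `u'`), and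
    `h • hy i c = h • slab {c,d} ∩ h • slab {c,e}` is a slab with `f` points: a hyperplane `hy i c'`.  L3 gives
    that `F1` is a hyperplane `hy i x`, so `F0 ∩ F1 = ∅`, contradicting `ζ > 0`.
* KL2: in the situation of KL, `F1` is closed under `update · i c`.  Apply KL also to the pair
  `(hy i a, h⁻¹ • hy i a)` (same intersection size): `u = h (co i σ) h⁻¹` (`σ` even fixing `a`) stabilizes `F0`
  and fixes `F1` pointwise; `v = co i ρ` (`ρ` even fixing `a`) stabilizes `F1`, fixes `F0` pointwise.  The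
  commutator fixes `F0` and `F1` pointwise, so is `co i σ'` (`Onep`) with `σ'` fixing `a` and all of `V`: it is
  `1`.  So `u` commutes with all such `v`; hence `(u p) i = p i` for all `p` (`exists_even_move` with `a, p i`;
  `u` stabilizes `F0`) and `u (update p i c) = update (u p) i c` for `p i, c ≠ a`.  For `z = co i (swap a c *
  swap d e)` (`a,c,d,e` distinct): `u⁻¹ z u z⁻¹` fixes `hy i d` pointwise, so is `co i σ'` (`Onep`), and keeps
  the coordinate `i`, so `σ' = 1`: `u z = z u`.  So `u (update p i c) = update (u p) i c` for all `p, c`.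
  As `F1` = common fixed points of these `u` (`exists_even_move`), `F1` is closed under `update · i c`.
* So `m ζ = f` (`card_closed`; move a maximal pair by `G` so that the first member is `hy i a`).
* Let `F ∈ Φ` not be a hyperplane.  For each `i`: `∑_a |F ∩ hy i a| = f = m ζ`, each term `≤ ζ`, so all equal `ζ`,
  KL2 ⇒ `F` closed under `update · i c` for every `i`, so `F = univ` (`ind_update`), but `|F| = f < m f`.
* Finally for `g ∈ G`: `g • hy i a = hy (π i a) (t i a)`; disjointness ⇒ `π i a` does not depend on `a`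
  (hyperplanes in different directions meet); `(g p) (π i) = t i (p i)`, `t i` injective, `π` injective
  (vary `p i` only), so `g = wr π τ` with `τ (π i) = t i`.
-/

set_option autoImplicit false
set_option linter.unusedSectionVars false

namespace Cfsg.Agent.PA

open Equiv Function

variable {ι α : Type*} [Fintype ι] [DecidableEq ι] [Fintype α] [DecidableEq α]

/-- the preimage of a hyperplane -/
def pr (g : Perm (ι → α)) (i : ι) (a : α) : Finset (ι → α) := Finset.univ.filter fun p => g p i = a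

@[simp] theorem mem_pr {g : Perm (ι → α)} {i : ι} {a : α} {p : ι → α} :
    p ∈ pr g i a ↔ g p i = a := by simp [pr]

theorem card_pre (u : Perm (ι → α)) (P Q : Finset (ι → α)) (h : ∀ p, p ∈ P ↔ u p ∈ Q) :
    P.card = Q.card :=
  Finset.card_bij (fun p _ => u p) (fun p hp => (h p).1 hp) (fun _ _ _ _ e => u.injective e)
    fun q hq => ⟨u⁻¹ q, (h _).2 (by simpa using hq), by simp⟩

theorem card_pr (g : Perm (ι → α)) (i : ι) (a : α) : (pr g i a).card = ff ι α :=
  (card_pre g _ (hy i a) (by simp)).trans (card_hy i a)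

theorem pr_eq_hy {g : Perm (ι → α)} {i j : ι} {a c : α} (h : ∀ p, p j = c → g p i = a) :
    pr g i a = hy j c :=
  (Finset.eq_of_subset_of_card_le (fun p hp => by simpa using h p (by simpa using hp))
    (by rw [card_pr, card_hy])).symm

theorem conj_fix (g : Perm (ι → α)) (i : ι) (σ : Perm α) (p : ι → α) :
    (g⁻¹ * co i σ * g) p = p ↔ σ (g p i) = g p i := by
  rw [Perm.mul_apply, Perm.mul_apply, Perm.inv_eq_iff_eq, co_fix]

section

variable {G : Subgroup (Perm (ι → α))} (H : Hyp G)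
include H

theorem conj_mem {g : Perm (ι → α)} (hg : g ∈ G) (i : ι) {σ : Perm α} (h : Perm.sign σ = 1) :
    g⁻¹ * co i σ * g ∈ G :=
  G.mul_mem (G.mul_mem (G.inv_mem hg) (H.co_mem i h)) hg

theorem pr_move {g : Perm (ι → α)} (hg : g ∈ G) (j i : ι) (c a : α) :
    ∃ g' ∈ G, pr g' i a = pr g j c := by
  obtain ⟨τ, h1, h2⟩ := H.exists_wr (swap j i) (fun _ => c) (fun _ => a)
  refine ⟨_, G.mul_mem h1 hg, ?_⟩
  have h3 : τ i c = a := by simpa using congrFun h2 i
  ext p
  simp [Perm.mul_apply, ← h3]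

theorem l3 (h1 : Onep G) {g : Perm (ι → α)} (hg : g ∈ G) {i : ι} {c c' : α}
    (h : pr g i c = hy i c') (x : α) : ∃ x', pr g i x = hy i x' := by
  by_cases hx : x = c
  · exact ⟨c', hx ▸ h⟩
  have k : ∀ p, g p i = c ↔ p i = c' := fun p => by simpa using Finset.ext_iff.1 h p
  let p := g⁻¹ fun _ => x
  have hp : g p i = x := by simp [p]
  refine ⟨p i, pr_eq_hy fun q hq => by_contra fun hn => ?_⟩
  have hc : g q i ≠ c := fun e => hx (hp.symm.trans ((k p).2 (hq ▸ (k q).1 e)))
  obtain ⟨β, b1, b2, b3, b4⟩ := exists_even_move H.m5 hc hn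
  obtain ⟨σ, hσ⟩ := h1 i c' _ (conj_mem H hg i b1) fun r hr => by
    rw [conj_fix, (k r).2 hr, b2]
  have h2 := (conj_fix g i β p).2 (by rw [hp, b3])
  rw [hσ, co_fix, ← hq, ← co_fix, ← hσ, conj_fix] at h2
  exact b4 h2

end

/-- `ζ` bounds the intersections of the images of hyperplanes -/
def Mx (G : Subgroup (Perm (ι → α))) (ζ : ℕ) : Prop :=
  ∀ g ∈ G, ∀ g' ∈ G, ∀ (i i' : ι) (a a' : α), pr g i a ≠ pr g' i' a' →
    (pr g i a ∩ pr g' i' a').card ≤ ζ

/-- a pair with largest intersection -/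
structure MP (G : Subgroup (Perm (ι → α))) (ζ : ℕ) (g : Perm (ι → α)) (i : ι) (a : α) : Prop where
  hyp : Hyp G
  one : Onep G
  rt : Rtp G
  mx : Mx G ζ
  pos : 0 < ζ
  mem : g ∈ G
  ne : pr g i a ≠ hy i a
  eq : (pr g i a ∩ hy i a).card = ζ

namespace MP

variable {G : Subgroup (Perm (ι → α))} {ζ : ℕ} {g : Perm (ι → α)} {i : ι} {a : α} (h : MP G ζ g i a)
include h

theorem inv : MP G ζ g⁻¹ i a :=
  ⟨h.hyp, h.one, h.rt, h.mx, h.pos, G.inv_mem h.mem, fun e => h.ne (by
      ext p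
      simpa using (Finset.ext_iff.1 e (g p)).symm),
    (card_pre g _ _ fun p => by simp [and_comm]).symm.trans h.eq⟩

theorem stab {p : ι → α} (hp : g p i = a) (pa : p i ≠ a) {σ : Perm α} (s1 : Perm.sign σ = 1)
    (s2 : σ a = a) (s3 : σ (p i) = p i) {r : ι → α} (hr : g r i = a) :
    g (update r i (σ (r i))) i = a := by
  have e : pr (g * co i σ) i a = pr g i a := by_contra fun hn => by
    have h1 := h.mx _ (G.mul_mem h.mem (h.hyp.co_mem i s1)) _ h.mem _ _ _ _ hn
    have h2 : pr g i a ∩ hy i a = pr (g * co i σ) i a ∩ pr g i a :=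
      Finset.eq_of_subset_of_card_le (fun q hq => by
        simp only [Finset.mem_inter, mem_pr, mem_hy, Perm.mul_apply] at hq ⊢
        rw [co_fix.2 (by rw [hq.2, s2])]
        exact ⟨hq.1, hq.1⟩) (h.eq ▸ h1)
    have := (Finset.ext_iff.1 h2 p).2 (by
      simp only [Finset.mem_inter, mem_pr, Perm.mul_apply]
      rw [co_fix.2 s3]
      exact ⟨hp, hp⟩)
    exact pa (by simpa using (Finset.mem_inter.1 this).2)
  simpa [Perm.mul_apply, co_apply] using (Finset.ext_iff.1 e r).2 (by simpa using hr)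

theorem not_single {b : α} (ba : b ≠ a) (hb : ∀ p, g p i = a → p i = a ∨ p i = b) : False := by
  have m5 := h.hyp.m5
  have := h.hyp.ne
  have k1 : ∀ q q' : ι → α, q' i = q i → (g⁻¹ q i = a ∨ g⁻¹ q i = b) →
      g⁻¹ q' i = a ∨ g⁻¹ q' i = b := fun q q' e hq => by_contra fun hn => by
    obtain ⟨β, b1, b2, b3, b4⟩ := exists_even_move m5 (not_or.1 hn).1 (not_or.1 hn).2
    have k : ∀ r : ι → α, (g⁻¹ r i = a ∨ g⁻¹ r i = b) → (g⁻¹⁻¹ * co i β * g⁻¹) r = r := fun r hr => by
      rw [conj_fix]; rcases hr with e | e <;> rw [e] <;> assumption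
    obtain ⟨σ, hσ⟩ := h.one i a _ (conj_mem h.hyp (G.inv_mem h.mem) i b1) fun r hr =>
      k r (hb _ (by simpa using hr))
    have h2 := k q hq
    rw [hσ, co_fix, ← e, ← co_fix, ← hσ, conj_fix] at h2
    exact b4 h2
  let W : Finset α := Finset.univ.filter fun c => g⁻¹ (fun _ => c) i = a ∨ g⁻¹ (fun _ => c) i = b
  have k2 : ∀ p, p ∈ slab i {a, b} ↔ g p ∈ slab i W := fun p => by
    simp only [mem_slab, W, Finset.mem_filter, Finset.mem_univ, true_and, Finset.mem_insert,
      Finset.mem_singleton]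
    exact ⟨fun k => k1 (g p) _ rfl (by simpa using k), fun k => by simpa using k1 (fun _ => g p i) (g p) rfl k⟩
  have cW : W.card = 2 := by
    have := card_pre g _ _ k2
    rw [card_slab, card_slab, Finset.card_pair ba.symm] at this
    exact (Nat.eq_of_mul_eq_mul_right ff_pos this).symm
  have aW : a ∈ W := by
    simp only [W, Finset.mem_filter, Finset.mem_univ, true_and]
    exact hb _ (by simp)
  obtain ⟨b', hb', e⟩ : ∃ b', b' ≠ a ∧ W = {a, b'} := by
    obtain ⟨x, y, xy, e⟩ := Finset.card_eq_two.1 cW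
    rw [e] at aW ⊢
    rcases Finset.mem_insert.1 aW with rfl | k
    · exact ⟨y, xy.symm, rfl⟩
    · rw [Finset.mem_singleton.1 k]
      exact ⟨x, xy, Finset.pair_comm _ _⟩
  have k3 : ∀ p, (g p i = a ∨ g p i = b') ↔ (p i = a ∨ p i = b) := fun p => by
    simpa [e] using (k2 p).symm
  have k4 : ∀ c d : α, c ≠ d → c ≠ a → c ≠ b' → d ≠ a → d ≠ b' → ∀ p p' : ι → α, p' i = p i →
      g p i = c → g p' i = c ∨ g p' i = d := fun c d cd ca cb da db p p' e hp => by
    have z : ∀ x, ((swap a b' * swap c d) x = a ∨ (swap a b' * swap c d) x = b') ↔ (x = a ∨ x = b') :=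
      fun x => by
      simp only [Perm.mul_apply, swap_apply_eq_iff, swap_apply_left, swap_apply_right,
        swap_apply_of_ne_of_ne ca.symm da.symm, swap_apply_of_ne_of_ne cb.symm db.symm, or_comm]
    have zg : ∀ r, g ((g⁻¹ * co i (swap a b' * swap c d) * g) r) i = (swap a b' * swap c d) (g r i) :=
      fun r => by simp [Perm.mul_apply]
    obtain ⟨σ, hσ⟩ := h.rt i a b ba.symm _ (conj_mem h.hyp h.mem i (σ := swap a b' * swap c d)
      (by simp [Perm.sign_swap hb'.symm, Perm.sign_swap cd]))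
      (fun r => by rw [← k3, zg, z, k3]) fun r l r1 r2 hl => by
        have r3 := not_or.1 (mt (k3 r).1 (not_or.2 ⟨r1, r2⟩))
        have r4 := not_or.1 (mt (z (g r i)).1 (not_or.2 r3))
        have := h.one.two.ol h.hyp ba.symm (G.inv_mem h.mem) (a' := a) (b' := b')
          (fun q => by simpa using (k3 (g⁻¹ q)).symm) r3.1 r3.2 r4.1 r4.2 hl
        rw [Perm.mul_apply, Perm.mul_apply, co_apply, this]
        simp
    by_contra hn
    have r3 := not_or.1 (mt (k3 p').1 (e ▸ mt (k3 p).2 (hp ▸ not_or.2 ⟨ca, cb⟩)))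
    have h2 := (conj_fix g i (swap a b' * swap c d) p').2 (by
      rw [Perm.mul_apply, swap_apply_of_ne_of_ne (not_or.1 hn).1 (not_or.1 hn).2,
        swap_apply_of_ne_of_ne r3.1 r3.2])
    rw [hσ, co_fix, e, ← co_fix, ← hσ, conj_fix, hp, Perm.mul_apply, swap_apply_left,
      swap_apply_of_ne_of_ne da db] at h2
    exact cd h2.symm
  obtain ⟨c, ca, cb, -, -⟩ := exists_ne4 m5 a b' a a
  obtain ⟨d, da, db, dc, -⟩ := exists_ne4 m5 a b' c a
  obtain ⟨d', da', db', dc', dd⟩ := exists_ne4 m5 a b' c d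
  obtain ⟨x, hx⟩ := l3 h.hyp h.one h.mem (c := c) (c' := g⁻¹ (fun _ => c) i)
    (pr_eq_hy fun q hq => (k4 c d dc.symm ca cb da db _ q hq (by simp)).elim id fun e1 =>
      (k4 c d' dc'.symm ca cb da' db' _ q hq (by simp)).resolve_right fun e2 =>
        dd (e2.symm.trans e1)) a
  obtain ⟨p, hp⟩ := Finset.card_pos.1 (h.eq ▸ h.pos)
  rw [hx, Finset.mem_inter, mem_hy, mem_hy] at hp
  exact h.ne (by rw [hx, ← hp.1, hp.2])

theorem full {c : α} (hc : c ≠ a) : ∃ r, g r i = a ∧ r i = c := by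
  obtain ⟨p, hp, pa⟩ : ∃ p, g p i = a ∧ p i ≠ a := by_contra fun hn => h.ne
    (Finset.eq_of_subset_of_card_le (fun p hp => by
      simpa using by_contra fun e => hn ⟨p, by simpa using hp, e⟩) (by rw [card_pr, card_hy]))
  obtain ⟨p', hp', pa', pp⟩ : ∃ p', g p' i = a ∧ p' i ≠ a ∧ p' i ≠ p i := by_contra fun hn =>
    h.not_single pa fun q hq => by_contra fun e => hn ⟨q, hq, not_or.1 e⟩
  by_cases e : c = p i
  · exact ⟨p, hp, e.symm⟩
  obtain ⟨β, b1, b2, b3, b4⟩ := exists_even_map h.hyp.m5 pa' pp hc e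
  exact ⟨_, h.stab hp pa b1 b2 b3 hp', by simp [b4]⟩

theorem cl {p : ι → α} {c : α} (pa : p i ≠ a) (hc : c ≠ a) (hp : g p i = a) :
    g (update p i c) i = a := by
  obtain ⟨w, w1, w2, w3, -⟩ := exists_ne4 h.hyp.m5 a (p i) c a
  obtain ⟨r, hr, rfl⟩ := h.full w1
  obtain ⟨β, b1, b2, b3, b4⟩ := exists_even_map h.hyp.m5 pa w2.symm hc w3.symm
  exact b4 ▸ h.stab hr w1 b1 b2 b3 hp

theorem co_stab {σ : Perm α} (s2 : σ a = a) (p : ι → α) : g (co i σ p) i = a ↔ g p i = a := by
  by_cases pa : p i = a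
  · rw [co_fix.2 (by rw [pa, s2])]
  have h1 : σ (p i) ≠ a := fun e => pa (σ.injective (e.trans s2.symm))
  refine ⟨fun k => ?_, h.cl pa h1⟩
  simpa [co_apply] using h.cl (p := co i σ p) (by simpa using h1) pa k

theorem closed {p : ι → α} (hp : g p i = a) (c : α) : g (update p i c) i = a := by
  have m5 := h.hyp.m5
  by_contra hn
  obtain ⟨σ, s1, s2, -, s3⟩ := exists_even_move m5 hn hn
  refine s3 ((conj_fix g i σ _).1 ?_)
  have uG := conj_mem h.hyp h.mem i s1
  have u1 : ∀ r, g r i = a → (g⁻¹ * co i σ * g) r = r := fun r hr => by rw [conj_fix, hr, s2]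
  have u0 : ∀ r, (g⁻¹ * co i σ * g) r i = a ↔ r i = a := fun r => by
    simpa [Perm.mul_apply] using h.inv.co_stab s2 (g r)
  have up := u1 p hp
  generalize g⁻¹ * co i σ * g = u at uG u1 u0 up
  have c1 : ∀ ρ : Perm α, Perm.sign ρ = 1 → ρ a = a → ∀ r, u (co i ρ r) = co i ρ (u r) :=
    fun ρ r1 r2 r => by
    have vG := h.hyp.co_mem i r1
    obtain ⟨τ, hτ⟩ := h.one i a _ (G.mul_mem (G.mul_mem (G.inv_mem uG) (G.inv_mem vG))
      (G.mul_mem uG vG)) fun q hq => by
        simp only [Perm.mul_apply, Perm.inv_eq_iff_eq]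
        rw [co_fix.2 (by rw [hq, r2]), co_fix.2 (by rw [(u0 q).2 hq, r2])]
    have t1 : τ = 1 := Equiv.ext fun x => by
      have k : ∀ q : ι → α, u (co i ρ q) = co i ρ (u q) → τ (q i) = q i := fun q hq => by
        rw [← co_fix, ← hτ]
        simp only [Perm.mul_apply, Perm.inv_eq_iff_eq]
        exact hq
      by_cases xa : x = a
      · exact k (fun _ => x) (by
          rw [co_fix.2 (by rw [xa, r2]), co_fix.2 (by rw [(u0 _).2 xa, r2])])
      · obtain ⟨q, hq, rfl⟩ := h.full xa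
        exact k q (by rw [u1 q hq, u1 _ ((h.co_stab r2 q).2 hq)])
    have := congrArg (fun x : Perm (ι → α) => x r) hτ
    simpa only [t1, map_one, Perm.one_apply, Perm.mul_apply, Perm.inv_eq_iff_eq] using this
  have c2 : ∀ r, u r i = r i := fun r => by_contra fun e => by
    have ra : u r i ≠ a := fun e' => e (e'.trans ((u0 r).1 e').symm)
    obtain ⟨ρ, r1, r2, r3, r4⟩ := exists_even_move m5 ra e
    have := c1 ρ r1 r2 r
    rw [co_fix.2 r3, eq_comm, co_fix] at this
    exact r4 this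
  have c3 : ∀ r d, r i ≠ a → d ≠ a → u (update r i d) = update (u r) i d := fun r d ra da => by
    obtain ⟨ρ, r1, r2, -, r3⟩ := exists_even_map m5 ra ra da da
    simpa only [co_apply, c2, r3] using c1 ρ r1 r2 r
  have c4 : ∀ x, x ≠ a → ∃ z : Perm α, z a = x ∧ z x = a ∧ ∀ r, u (co i z r) = co i z (u r) :=
    fun x xa => by
    obtain ⟨d, da, dx, -, -⟩ := exists_ne4 m5 a x a a
    obtain ⟨e, ea, ex, ed, -⟩ := exists_ne4 m5 a x d a
    have zG := h.hyp.co_mem i (σ := swap a x * swap d e)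
      (by simp [Perm.sign_swap xa.symm, Perm.sign_swap ed.symm])
    have zd : (swap a x * swap d e) d = e := by simp [swap_apply_of_ne_of_ne ea ex]
    refine ⟨swap a x * swap d e, by simp [swap_apply_of_ne_of_ne da.symm ea.symm],
      by simp [swap_apply_of_ne_of_ne dx.symm ex.symm], fun r => ?_⟩
    generalize swap a x * swap d e = z at zG zd
    obtain ⟨τ, hτ⟩ := h.one i d _ (G.mul_mem (G.mul_mem (G.inv_mem uG) (G.inv_mem zG))
      (G.mul_mem uG zG)) fun q hq => by
        simp only [Perm.mul_apply, Perm.inv_eq_iff_eq]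
        rw [co_apply, co_apply, c2, hq, zd, c3 q e (hq ▸ da) ea]
    have t1 : τ = 1 := Equiv.ext fun y => by
      have k : u (co i z fun _ => y) = co i z (u (co i τ fun _ => y)) := by
        rw [← hτ]
        simp [Perm.mul_apply]
      have := congrFun k i
      simpa [c2] using this.symm
    have := congrArg (fun x : Perm (ι → α) => x r) hτ
    simpa only [t1, map_one, Perm.one_apply, Perm.mul_apply, Perm.inv_eq_iff_eq] using this
  by_cases pa : p i = a
  · by_cases ca : c = a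
    · rw [ca, ← pa, update_eq_self, up]
    · obtain ⟨z, z1, -, z2⟩ := c4 c ca
      simpa only [co_apply, up, pa, z1] using z2 p
  · by_cases ca : c = a
    · obtain ⟨z, -, z1, z2⟩ := c4 _ pa
      simpa only [co_apply, up, ca, z1] using z2 p
    · rw [c3 p c pa ca, up]

end MP

theorem pr_one (i : ι) (a : α) : pr (1 : Perm (ι → α)) i a = hy i a := by
  ext p; simp

theorem exists_hy {G : Subgroup (Perm (ι → α))} (H : Hyp G) (h1 : Onep G) (hR : Rtp G)
    {g : Perm (ι → α)} (hg : g ∈ G) (i : ι) (a : α) : ∃ j c, pr g i a = hy j c := by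
  have m5 := H.m5
  have := H.ne
  obtain ⟨j, hj⟩ := H.exists_ne i
  let T := {x : (Perm (ι → α) × ι × α) × Perm (ι → α) × ι × α |
    x.1.1 ∈ G ∧ x.2.1 ∈ G ∧ pr x.1.1 x.1.2.1 x.1.2.2 ≠ pr x.2.1 x.2.2.1 x.2.2.2}
  obtain ⟨b, ba, -⟩ := exists_ne4 m5 a a a a
  have h0 : ((1, i, a), 1, j, a) ∈ T := ⟨G.one_mem, G.one_mem, fun e => ba (by
    simpa [update_of_ne hj.symm] using Finset.ext_iff.1 e (update (fun _ => a) j b))⟩
  obtain ⟨⟨⟨g1, i1, a1⟩, g2, i2, a2⟩, ⟨m1, m2, ne⟩, hmax⟩ := Set.exists_max_image T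
    (fun x => (pr x.1.1 x.1.2.1 x.1.2.2 ∩ pr x.2.1 x.2.2.1 x.2.2.2).card) (Set.toFinite _) ⟨_, h0⟩
  dsimp only at m1 m2 ne hmax
  set ζ := (pr g1 i1 a1 ∩ pr g2 i2 a2).card with hζ
  have mx : Mx G ζ := fun g hg g' hg' i i' a a' ne => hmax ((g, i, a), g', i', a') ⟨hg, hg', ne⟩
  have pos : 0 < ζ := lt_of_lt_of_le (Finset.card_pos.2 ⟨fun _ => a, by simp⟩) (hmax _ h0)
  have key : ∀ g ∈ G, ∀ (i j : ι) (a c : α), pr g i a ≠ hy j c → (pr g i a ∩ hy j c).card = ζ →
      ∀ p ∈ pr g i a, ∀ x, update p j x ∈ pr g i a := fun g hg i j a c ne e => by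
    obtain ⟨g', hg', e'⟩ := pr_move H hg i j a c
    rw [← e'] at ne e ⊢
    exact fun p hp x => mem_pr.2 ((MP.mk H h1 hR mx pos hg' ne e).closed (mem_pr.1 hp) x)
  have e1 : (pr (g1 * g2⁻¹) i1 a1 ∩ hy i2 a2).card = ζ :=
    (card_pre g2 _ _ fun p => by simp [Perm.mul_apply]).symm
  have hf := card_closed (key _ (G.mul_mem m1 (G.inv_mem m2)) i1 i2 a1 a2 (fun e => ne (by
    ext p
    simpa [Perm.mul_apply] using Finset.ext_iff.1 e (g2 p))) e1) a2
  rw [e1, card_pr] at hf
  by_contra hn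
  have hn' : ∀ j c, pr g i a ≠ hy j c := fun j c e => hn ⟨j, c, e⟩
  have cl : ∀ l, ∀ p ∈ pr g i a, ∀ x, update p l x ∈ pr g i a := fun l => by
    refine key g hg i l a a (hn' l a) (by_contra fun hc => ?_)
    have le : ∀ c, (pr g i a ∩ hy l c).card ≤ ζ := fun c =>
      pr_one l c ▸ mx g hg 1 G.one_mem i l a c (by rw [pr_one]; exact hn' l c)
    have := Finset.sum_lt_sum (s := Finset.univ) (fun c _ => le c)
      ⟨a, Finset.mem_univ _, lt_of_le_of_ne (le a) hc⟩
    rw [Finset.sum_const, Finset.card_univ, smul_eq_mul, ← hf, ← card_pr g i a,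
      Finset.card_eq_sum_card_fiberwise (f := fun p => p l) (t := Finset.univ)
        (fun _ _ => Finset.mem_coe.mpr (Finset.mem_univ _))] at this
    refine this.ne (Finset.sum_congr rfl fun c _ => ?_)
    congr 1
    ext p; simp
  have := ind_update (fun _ => True) (· ∈ pr g i a) (fun p l x _ hp => cl l p hp x)
    (p := g⁻¹ fun _ => a) (q := g⁻¹ fun _ => b) (by simp) fun l hl => absurd trivial hl
  exact ba (by simpa using this)

theorem phi {G : Subgroup (Perm (ι → α))} (H : Hyp G) (h1 : Onep G) (hR : Rtp G) :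
    ∀ g ∈ G, ∃ (π : Perm ι) (τ : ι → Perm α), g = wr π τ := by
  intro g hg
  choose J t ht using exists_hy H h1 hR hg
  have k : ∀ i a p, g p i = a ↔ p (J i a) = t i a := fun i a p => by
    simpa using Finset.ext_iff.1 (ht i a) p
  obtain ⟨a0⟩ := H.ne
  have hJ : ∀ i a, J i a = J i a0 := fun i a => by_contra fun e => by
    have h2 := (k i a (update (fun _ => t i a0) (J i a) (t i a))).2 (by simp)
    have h3 := (k i a0 (update (fun _ => t i a0) (J i a) (t i a))).2
      (by rw [update_of_ne (Ne.symm e)])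
    exact e (by rw [← h2, h3])
  have inj : ∀ i, Injective (t i) := fun i a b e =>
    ((k i a fun _ => t i a).2 rfl).symm.trans ((k i b fun _ => t i a).2 e)
  let τ : ι → Perm α := fun i =>
    (Equiv.ofBijective _ (Finite.injective_iff_bijective.mp (inj i))).symm
  have k2 : ∀ p i, g p i = τ i (p (J i a0)) := fun p i => by
    rw [k, hJ]
    exact ((Equiv.ofBijective _ (Finite.injective_iff_bijective.mp (inj i))).apply_symm_apply _).symm
  have sur : Surjective fun i => J i a0 := fun l => by_contra fun hn => by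
    obtain ⟨b, ba, -⟩ := exists_ne4 H.m5 a0 a0 a0 a0
    have : g (update (fun _ => a0) l b) = g fun _ => a0 := funext fun i => by
      rw [k2, k2, update_of_ne fun e => hn ⟨i, e⟩]
    exact ba (by simpa using congrFun (g.injective this) l)
  exact ⟨(Equiv.ofBijective _ (Finite.surjective_iff_bijective.mp sur)).symm, τ,
    Equiv.ext fun p => funext fun i => k2 p i⟩

end Cfsg.Agent.PA
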