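import Cfsg.Agent.PA.Defs

/-!
# The four rigidity properties of an overgroup of `A_m ≀ S_k` (for S5767)
-/

set_option autoImplicit false

namespace Cfsg.Agent.PA

open Equiv Function

variable {ι α : Type*} [Fintype ι] [DecidableEq ι] [Fintype α] [DecidableEq α]

/-- elements preserving every `i`-line act uniformly -/
def LNp (G : Subgroup (Perm (ι → α))) : Prop :=
  ∀ (i : ι), ∀ g ∈ G, (∀ p l, l ≠ i → g p l = p l) → ∃ σ : Perm α, g = co i σ

/-- elements fixing two parallel hyperplanes pointwise -/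
def Twop (G : Subgroup (Perm (ι → α))) : Prop :=
  ∀ (i : ι) (a b : α), a ≠ b → ∀ g ∈ G, (∀ p, p i = a ∨ p i = b → g p = p) →
    ∃ σ : Perm α, g = co i σ

/-- elements stabilizing the union of two parallel hyperplanes and preserving lines outside -/
def Rtp (G : Subgroup (Perm (ι → α))) : Prop :=
  ∀ (i : ι) (a b : α), a ≠ b → ∀ g ∈ G,
    (∀ p, (g p i = a ∨ g p i = b) ↔ (p i = a ∨ p i = b)) →
    (∀ p l, p i ≠ a → p i ≠ b → l ≠ i → g p l = p l) → ∃ σ : Perm α, g = co i σ

/-- elements fixing a hyperplane pointwise -/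
def Onep (G : Subgroup (Perm (ι → α))) : Prop :=
  ∀ (i : ι) (a : α), ∀ g ∈ G, (∀ p, p i = a → g p = p) → ∃ σ : Perm α, g = co i σ

theorem Onep.two {G : Subgroup (Perm (ι → α))} (h : Onep G) : Twop G :=
  fun i a _ _ g hg hf => h i a g hg fun p hp => hf p (Or.inl hp)

/-- OL: an element of `G` carrying one pair of parallel hyperplanes to another carries the
punctured lines to punctured lines. -/
theorem Twop.ol {G : Subgroup (Perm (ι → α))} (H : Hyp G) (h2 : Twop G) {i : ι} {a b a' b' : α}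
    (hab : a ≠ b) {h : Perm (ι → α)} (hh : h ∈ G)
    (hF : ∀ p, (h p i = a ∨ h p i = b) ↔ (p i = a' ∨ p i = b')) {p : ι → α} {c : α}
    (hpa : p i ≠ a') (hpb : p i ≠ b') (hca : c ≠ a') (hcb : c ≠ b') {l : ι} (hl : l ≠ i) :
    h (update p i c) l = h p l := by
  obtain ⟨β, h1, h3, h4, h5⟩ := exists_even_map H.m5 hpa hpb hca hcb
  obtain ⟨σ, hσ⟩ := h2 i a b hab (h * co i β * h⁻¹)
    (G.mul_mem (G.mul_mem hh (H.co_mem i h1)) (G.inv_mem hh)) (by
      intro q hq
      have h6 := (hF (h⁻¹ q)).mp (by simpa using hq)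
      have : co i β (h⁻¹ q) = h⁻¹ q := by
        rw [co_fix]; rcases h6 with e | e <;> rw [e] <;> assumption
      rw [Perm.mul_apply, Perm.mul_apply, this]; simp)
  have := congrArg (fun x : Perm (ι → α) => x (h p) l) hσ
  simp only [Perm.mul_apply, Perm.coe_inv, symm_apply_apply, co_ne hl] at this
  rw [← this, co_apply, h5]

end Cfsg.Agent.PA
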