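import Cfsg.Agent.PA.Props

/-!
# Elements stabilizing two parallel hyperplanes and the lines outside (for S5767)
-/

set_option autoImplicit false
set_option linter.unusedSectionVars false

namespace Cfsg.Agent.PA

open Equiv Function

theorem fix_of_five {X : Type*} [DecidableEq X] {g : Perm X} (h5 : g ^ 5 = 1) {S : Finset X}
    (hS : S.card ≤ 4) (hc : ∀ q ∈ S, g q ∈ S) {p : X} (hp : p ∈ S) : g p = p := by
  have hper : IsPeriodicPt g 5 p := by
    show g^[5] p = p
    rw [← Perm.coe_pow, h5]; rfl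
  rcases (Nat.dvd_prime Nat.prime_five).mp hper.minimalPeriod_dvd with h | h
  · exact minimalPeriod_eq_one_iff_isFixedPt.mp h
  · exfalso
    have hmem : ∀ n, g^[n] p ∈ S := by
      intro n
      induction n with
      | zero => exact hp
      | succ n ih => rw [iterate_succ_apply']; exact hc _ ih
    have hinj := iterate_injOn_Iio_minimalPeriod (f := g) (x := p)
    rw [h] at hinj
    have := Finset.card_le_card_of_injOn (s := Finset.range 5) (t := S) (fun n => g^[n] p)
      (fun n _ => hmem n) (fun x hx y hy e => hinj (by simpa using hx) (by simpa using hy) e)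
    rw [Finset.card_range] at this
    omega

variable {ι α : Type*} [Fintype ι] [DecidableEq ι] [Fintype α] [DecidableEq α]
variable {G : Subgroup (Perm (ι → α))}

theorem eq_update {i : ι} {p q : ι → α} (h : ∀ l, l ≠ i → q l = p l) : q = update p i (q i) := by
  funext l
  by_cases hl : l = i
  · subst hl; simp
  · rw [update_of_ne hl, h l hl]

/-- the group of the hypothesis of `Rtp` -/
def Rg (G : Subgroup (Perm (ι → α))) (i : ι) (a b : α) : Subgroup (Perm (ι → α)) where
  carrier := {g | g ∈ G ∧ (∀ p, (g p i = a ∨ g p i = b) ↔ (p i = a ∨ p i = b)) ∧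
    ∀ p l, p i ≠ a → p i ≠ b → l ≠ i → g p l = p l}
  one_mem' := ⟨G.one_mem, fun _ => Iff.rfl, fun _ _ _ _ _ => rfl⟩
  mul_mem' := by
    rintro g h ⟨g1, g2, g3⟩ ⟨h1, h2, h3⟩
    refine ⟨G.mul_mem g1 h1, fun p => (g2 _).trans (h2 p), fun p l ha hb hl => ?_⟩
    have : ¬ (h p i = a ∨ h p i = b) := by rw [h2]; tauto
    push Not at this
    rw [Perm.mul_apply, g3 _ _ this.1 this.2 hl, h3 _ _ ha hb hl]
  inv_mem' := by
    rintro g ⟨g1, g2, g3⟩
    have h2 : ∀ p, (g⁻¹ p i = a ∨ g⁻¹ p i = b) ↔ (p i = a ∨ p i = b) := fun p => by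
      simpa using (g2 (g⁻¹ p)).symm
    refine ⟨G.inv_mem g1, h2, fun p l ha hb hl => ?_⟩
    have : ¬ (g⁻¹ p i = a ∨ g⁻¹ p i = b) := by rw [h2]; tauto
    push Not at this
    simpa using (g3 _ _ this.1 this.2 hl).symm

theorem Rg.conj {i : ι} {a b : α} {w g : Perm (ι → α)} (hw : w ∈ G) (hc : Cm i w)
    (hg : g ∈ Rg G i a b) : w * g * w⁻¹ ∈ Rg G i a b := by
  obtain ⟨g1, g2, g3⟩ := hg
  refine ⟨G.mul_mem (G.mul_mem hw g1) (G.inv_mem hw), fun p => ?_, fun p l ha hb hl => ?_⟩
  · rw [Perm.mul_apply, Perm.mul_apply, hc.1, g2, hc.inv.1]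
  · rw [Perm.mul_apply, Perm.mul_apply,
      eq_update (fun l hl => g3 (w⁻¹ p) l (by rwa [hc.inv.1]) (by rwa [hc.inv.1]) hl), hc.2,
      update_of_ne hl]
    simp

theorem rt_five (H : Hyp G) (hL : LNp G) (h2 : Twop G) (h5 : Fintype.card α = 5) {i : ι} {a b : α}
    (hab : a ≠ b) {g : Perm (ι → α)} (hg : g ∈ Rg G i a b) : ∃ σ : Perm α, g = co i σ := by
  classical
  refine hL i g hg.1 fun p l hl => ?_
  by_contra hne
  let r : (ι → α) → (ι → α) → Prop := fun p q => ∃ h ∈ Rg G i a b, h p = q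
  have hr : Equivalence r := by
    refine ⟨fun p => ⟨1, one_mem _, rfl⟩, ?_, ?_⟩
    · rintro p q ⟨h, hh, rfl⟩; exact ⟨h⁻¹, inv_mem hh, by simp⟩
    · rintro p q s ⟨h, hh, rfl⟩ ⟨k, hk, rfl⟩; exact ⟨k * h, mul_mem hk hh, rfl⟩
  have hinv : ∀ σ : Perm α, Perm.sign σ = 1 → ∀ p q, r p q → r (co l σ p) (co l σ q) := by
    rintro σ hσ p q ⟨h, hh, rfl⟩
    exact ⟨_, Rg.conj (H.co_mem l hσ) (cm_co hl σ) hh, by simp [Perm.mul_apply]⟩
  have hfull := full_of_rel H.m5 hr hinv (p := p) (q := g p) ⟨g, hg, rfl⟩ (Ne.symm hne)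
  set q := g p
  have hcl : ∀ x ∈ Finset.univ.filter (r q), ∀ c, update x l c ∈ Finset.univ.filter (r q) := by
    intro x hx c
    simp only [Finset.mem_filter, Finset.mem_univ, true_and] at hx ⊢
    obtain ⟨β, h1, h3⟩ := exists_even_map0 H.m5 (x l) c
    have := hinv β h1 _ _ hx
    rw [co_apply l β x, h3] at this
    exact hr.trans (hfull _) this
  have hcard := card_closed hcl a
  have hdvd : 5 ∣ Nat.card (Rg G i a b) := by
    refine Dvd.dvd.trans ?_ (MulAction.stabilizer (Rg G i a b) q).index_dvd_card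
    rw [MulAction.index_stabilizer]
    have : MulAction.orbit (Rg G i a b) q = (Finset.univ.filter (r q) : Finset _) := by
      ext x
      simp only [Finset.coe_filter, Finset.mem_univ, true_and, Set.mem_setOf_eq]
      exact ⟨fun ⟨h, hh⟩ => ⟨h, h.2, hh⟩, fun ⟨h, hh, e⟩ => ⟨⟨h, hh⟩, e⟩⟩
    rw [this, Set.ncard_coe_finset, hcard, h5]
    exact Dvd.intro _ rfl
  haveI : Fact (Nat.Prime 5) := ⟨Nat.prime_five⟩
  obtain ⟨x, hx⟩ := exists_prime_orderOf_dvd_card' 5 hdvd
  have hx5 : x.1 ^ 5 = 1 := by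
    have := pow_orderOf_eq_one x
    rw [hx] at this
    exact congrArg Subtype.val this
  obtain ⟨x1, x2, x3⟩ := x.2
  have hoff : ∀ p, p i ≠ a → p i ≠ b → x.1 p = p := by
    intro p ha hb
    refine fix_of_five hx5 (S := (Finset.univ \ {a, b}).image (update p i)) ?_ ?_ ?_
    · refine Finset.card_image_le.trans ?_
      rw [Finset.card_sdiff_of_subset (Finset.subset_univ _), Finset.card_univ, Finset.card_pair hab]
      omega
    · intro y hy
      simp only [Finset.mem_image, Finset.mem_sdiff, Finset.mem_univ, true_and, Finset.mem_insert,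
        Finset.mem_singleton] at hy ⊢
      obtain ⟨c, hc, rfl⟩ := hy
      refine ⟨x.1 (update p i c) i, by rw [x2]; simpa using hc, (eq_update fun l hl => ?_).symm⟩
      push Not at hc
      rw [x3 _ _ (by simpa using hc.1) (by simpa using hc.2) hl, update_of_ne hl]
    · simp only [Finset.mem_image, Finset.mem_sdiff, Finset.mem_univ, true_and, Finset.mem_insert,
        Finset.mem_singleton]
      exact ⟨p i, by tauto, by simp⟩
  obtain ⟨c, hca, hcb, -⟩ := exists_ne4 H.m5 a b a a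
  obtain ⟨d, hda, hdb, hdc, -⟩ := exists_ne4 H.m5 a b c a
  obtain ⟨σ, hσ⟩ := h2 i c d hdc.symm x.1 x1 (by
    intro p hp
    rcases hp with e | e <;> exact hoff p (by rwa [e]) (by rwa [e]))
  have hon : ∀ p, p i = a ∨ p i = b → x.1 p = p := by
    intro p hp
    refine fix_of_five hx5 (S := ({a, b} : Finset α).image (update p i)) ?_ ?_ ?_
    · refine Finset.card_image_le.trans ?_
      rw [Finset.card_pair hab]; omega
    · intro y hy
      simp only [Finset.mem_image, Finset.mem_insert, Finset.mem_singleton] at hy ⊢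
      obtain ⟨c, hc, rfl⟩ := hy
      refine ⟨x.1 (update p i c) i, by rw [x2]; simpa using hc, (eq_update fun l hl => ?_).symm⟩
      rw [hσ, co_ne hl, update_of_ne hl]
    · simp only [Finset.mem_image, Finset.mem_insert, Finset.mem_singleton]
      exact ⟨p i, hp, by simp⟩
  have : x = 1 := by
    apply Subtype.ext
    ext1 p
    by_cases hp : p i = a ∨ p i = b
    · exact hon p hp
    · push Not at hp; exact hoff p hp.1 hp.2
  rw [this, orderOf_one] at hx
  omega

theorem rt_six (H : Hyp G) (h2 : Twop G) (h6 : 6 ≤ Fintype.card α) {i : ι} {a b : α}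
    (hab : a ≠ b) {g : Perm (ι → α)} (hg : g ∈ Rg G i a b) : ∃ σ : Perm α, g = co i σ := by
  obtain ⟨g1, g2, g3⟩ := id hg
  obtain ⟨-, g2', g3'⟩ := inv_mem hg
  have hgi : ∀ x, g⁻¹ (g x) = x := fun x => by simp
  have hoff : ∀ p, p i ≠ a → p i ≠ b → g p i ≠ a ∧ g p i ≠ b := by
    intro p ha hb
    have : ¬ (g p i = a ∨ g p i = b) := by rw [g2]; tauto
    tauto
  have hconst : ∀ p q, p i ≠ a → p i ≠ b → q i = p i → g q i = g p i := by
    intro p q ha hb hq
    obtain ⟨ha', hb'⟩ := hoff p ha hb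
    obtain ⟨q', hq'⟩ := g.surjective (update (g q) i (g p i))
    have hq1 : ¬ (q' i = a ∨ q' i = b) := by rw [← g2, hq']; simp [ha', hb']
    push Not at hq1
    by_cases hw : q' i = p i
    · have : q' = q := by
        funext l
        by_cases hl : l = i
        · rw [hl, hw, hq]
        · rw [← g3 q' l hq1.1 hq1.2 hl, hq', update_of_ne hl, g3 q l (by rwa [hq]) (by rwa [hq]) hl]
      rw [this] at hq'
      rw [hq']; simp
    exfalso
    obtain ⟨y, hy⟩ := exists_notMem ({a, b, q' i, p i} : Finset α)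
      (lt_of_le_of_lt Finset.card_le_four (by omega))
    obtain ⟨z, hz⟩ := exists_notMem ({y, a, b, q' i, p i} : Finset α)
      (lt_of_le_of_lt Finset.card_le_five (by omega))
    simp only [Finset.mem_insert, Finset.mem_singleton, not_or] at hy hz
    have hs : Perm.sign (swap (p i) y * swap (p i) z) = 1 := by
      simp [Perm.sign_swap (Ne.symm hy.2.2.2), Perm.sign_swap (Ne.symm hz.2.2.2.2)]
    have hfix : ∀ u, u ≠ p i → u ≠ y → u ≠ z → (swap (p i) y * swap (p i) z) u = u := by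
      intro u u1 u2 u3
      rw [Perm.mul_apply, swap_apply_of_ne_of_ne u1 u3, swap_apply_of_ne_of_ne u1 u2]
    obtain ⟨σ, hσ⟩ := h2 i a b hab (g * co i (swap (p i) y * swap (p i) z) * g⁻¹)
      (G.mul_mem (G.mul_mem g1 (H.co_mem i hs)) (G.inv_mem g1)) (by
        intro x hx
        have h6 := (g2' x).mpr hx
        have : co i (swap (p i) y * swap (p i) z) (g⁻¹ x) = g⁻¹ x := by
          rw [co_fix]
          rcases h6 with e | e <;> rw [e]
          · exact hfix a ha.symm (Ne.symm hy.1) (Ne.symm hz.2.1)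
          · exact hfix b hb.symm (Ne.symm hy.2.1) (Ne.symm hz.2.2.1)
        rw [Perm.mul_apply, Perm.mul_apply, this]; simp)
    have e1 : co i σ (g q') = g q' := by
      rw [← hσ, Perm.mul_apply, Perm.mul_apply, hgi,
        co_fix.mpr (hfix _ hw (Ne.symm hy.2.2.1) (Ne.symm hz.2.2.2.1))]
    rw [co_fix, hq', update_self, ← co_fix (i := i), ← hσ, Perm.mul_apply, Perm.mul_apply,
      hgi, g.apply_eq_iff_eq, co_fix, Perm.mul_apply, swap_apply_left,
      swap_apply_of_ne_of_ne hz.2.2.2.2 hz.1] at e1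
    exact hz.2.2.2.2 e1
  have hinj : Injective fun c : α => if c = a ∨ c = b then c else g (fun _ => c) i := by
    intro c d hcd
    simp only at hcd
    by_cases hc : c = a ∨ c = b <;> by_cases hd : d = a ∨ d = b
    · simpa [hc, hd] using hcd
    · rw [if_pos hc, if_neg hd] at hcd
      exact absurd ((g2 _).mp (hcd ▸ hc)) hd
    · rw [if_neg hc, if_pos hd] at hcd
      exact absurd ((g2 _).mp (hcd ▸ hd)) hc
    · rw [if_neg hc, if_neg hd] at hcd
      push Not at hc hd
      have h1 : g (update (fun _ => c) i d) = g (fun _ => c) := by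
        funext l
        by_cases hl : l = i
        · rw [hl, hcd]; exact hconst _ _ hd.1 hd.2 (by simp)
        · rw [g3 _ _ (by simpa using hd.1) (by simpa using hd.2) hl, g3 _ _ hc.1 hc.2 hl,
            update_of_ne hl]
      simpa using (congrFun (g.injective h1) i).symm
  let σ : Perm α := Equiv.ofBijective _ (Finite.injective_iff_bijective.mp hinj)
  obtain ⟨σ', s1, s2⟩ : ∃ σ' : Perm α, Perm.sign σ' = 1 ∧ ∀ c, c ≠ a → c ≠ b → σ' c = σ c := by
    rcases Int.units_eq_one_or (Perm.sign σ) with h | h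
    · exact ⟨σ, h, fun _ _ _ => rfl⟩
    · refine ⟨σ * swap a b, by simp [h, Perm.sign_swap hab], fun c ha hb => ?_⟩
      rw [Perm.mul_apply, swap_apply_of_ne_of_ne ha hb]
  have hag : ∀ p, p i ≠ a → p i ≠ b → ((co i σ')⁻¹ * g) p = p := by
    intro p ha hb
    rw [Perm.mul_apply, Perm.inv_eq_iff_eq, co_apply, s2 _ ha hb]
    rw [eq_update (fun l hl => g3 p l ha hb hl)]
    congr 1
    simp only [σ, ofBijective_apply, ha, hb, or_self, if_false]
    exact (hconst p (fun _ => p i) ha hb rfl).symm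
  obtain ⟨c, hca, hcb, -⟩ := exists_ne4 H.m5 a b a a
  obtain ⟨d, hda, hdb, hdc, -⟩ := exists_ne4 H.m5 a b c a
  obtain ⟨ρ, hρ⟩ := h2 i c d hdc.symm _ (G.mul_mem (G.inv_mem (H.co_mem i s1)) g1) (by
    intro p hp
    rcases hp with e | e <;> exact hag p (by rwa [e]) (by rwa [e]))
  exact ⟨σ' * ρ, by rw [map_mul, ← hρ]; group⟩

theorem rtp (H : Hyp G) (hL : LNp G) (h2 : Twop G) : Rtp G := by
  intro i a b hab g hg h1 h3
  rcases Nat.eq_or_lt_of_le H.m5 with h | h
  · exact rt_five H hL h2 h.symm hab ⟨hg, h1, h3⟩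
  · exact rt_six H h2 h hab ⟨hg, h1, h3⟩

end Cfsg.Agent.PA
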