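import Cfsg.Agent.PA.Props

/-!
# The width-three step (for S5767)

`Ω = ι → α`, `m = card α ≥ 5`, `π p = p j`, `H_T = slab j T`, `z_{xy} = co j (swap x y)` ("swap"),
`f = ff ι α` (`card_slab : |H_T| = |T| f`).  Call `g` *commuting* if it commutes with all swaps.

PROOF.
* F0: if `c = z * (g * z * g⁻¹)` (`z = z_{xy}`, `x ≠ y`) is commuting then `c = 1`.  By `comm_of_swap`,
  `cm_of_comm`: `Cm j c`.  Put `z' = g z g⁻¹ = z c`.  For `q ∈ H_{xy}`: `(z' q) j = swap x y (q j) ≠ q j`, so
  `supp z = H_{xy} ⊆ supp z'`; equal cards (`Perm.card_support_conj`) give `supp z' = H_{xy}`.  If `c p ≠ p`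
  take `q = update p j w`, `w ∉ {x,y}`: `c q = update (c p) j w ≠ q` and `z' q = z c q = c q ≠ q`, contradiction.
* W3: `g ∈ K` not commuting, `N` a finset with `|N| ≤ 2`, `w ∉ N`, `g` commutes with `z_{w v}` for all `v ∉ N`.
  Then the conclusion holds.  `g` commutes with `z_{uv}` for all `u,v ∉ N` (`(u v) = (w u)(w v)(w u)`).
  Some `z_{n w}` (`n ∈ N`) does not commute with `g` (else all `z_{w v}` commute, so all swaps do).
  `c = z_{nw} * (g z_{nw} g⁻¹) ∈ K`, `c ≠ 1`, and `c` fixes each `p` with `p j ∉ D = insert w N`: indeed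
  if `q j ∈ {n, w}` then `(g q) j ∈ D` (else `u = (g q) j ∉ D`; pick `v ∉ D ∪ {u}` (`m ≥ 5`); `z_{uv}` fixes `q`,
  commutes with `g`, so fixes `g q`, absurd); so for `p j ∉ D`, `q = g⁻¹ p` has `q j ∉ {n,w}`.
* For `g` put `M(g) = {p | (g p) j ≠ p j}`, `m_x = |M(g) ∩ hy j x|`, `e(T) = |{q ∈ H_T | g q ∉ H_T}|`
  `= |{q ∉ H_T | g q ∈ H_T}|` (`g` is a bijection), `e(T) ≤ |M ∩ H_T|`.
  BOUND: for `T = {x,y}`, `z = z_{xy}`, `c = z g z g⁻¹`: `|M(c)| ≤ 2|M(g) ∩ H_T| + e(T) ≤ 3|M(g) ∩ H_T|`
  (`p = g q`; if `q ∉ H_T` then `c p = z p`, so `p ∈ M(c)` forces `g q ∈ H_T`; if `q ∈ H_T` and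
  `q, z q ∉ M(g)` then `(c p) j = p j`), and `c` fixes every `p ∉ H_T ∪ O`, `O = g H_T \ H_T`, `|O| = e(T)`.
* Take `g ∈ K` non-commuting with `ν = |M(g)|` minimal.  If `ν = 0`, `c = z g z g⁻¹ ≠ 1` has width `T` (2).
  Let `ν > 0`.  By F0 and minimality: (*) for every non-commuting `g' ∈ K` and every swap `z_U` not commuting
  with `g'`: `ν ≤ 3 |M(g') ∩ H_U|`.
* Find `T = {x,y}` with `z_T` not commuting with `g` and `3 e(T) ≤ ν` (or finish by W3):
  - some `m_{x0} = 0`: `N = {y | z_{x0 y}` does not commute with `g}`; `|N| ≤ 2` ⇒ W3 (`w = x0`); else take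
    `y ∈ N` with `m_y` minimal: `3 m_y ≤ ∑ m = ν`, `e({x0,y}) ≤ m_{x0} + m_y`.
  - all `m_x > 0`: if `z_{uv}` commutes with `g` (`u ≠ v`) then `g` preserves `H_{uv} = supp z_{uv}`; so each `x`
    has at most one commuting partner (two would give `m_x = 0`).  Let `x0` minimize `m_x` (`m·m_{x0} ≤ ν`).
    `∑_{y ≠ x0} e({x0,y}) = ν + (m-4) m_{x0}` (count `q ∈ M`: `q j = x0` contributes `m-2`, other `q` contribute
    `1` unless `(g q) j = x0`, and the number of those is `m_{x0}`); `≤ ν + (m-2) m_{x0} - ...`, any form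
    that gives: no partner ⇒ `m-1` terms, the least has `3e ≤ ν` (`6m-12 ≤ m²-m`); a partner and `m ≥ 6` ⇒
    `m-2` non-commuting terms, the least has `e ≤ 2ν/m ≤ ν/3`; a partner `x1` and `m = 5`: `g` preserves
    `H_C`, `C = {x0,x1}ᶜ`, `|C| = 3`; take `w ∈ C` with `m_w` least, `T = C \ {w}`: `e(T) ≤ m_w ≤ ν/3`, and
    `z_T` does not commute (else `g` preserves `hy j w`, `m_w = 0`).
* `c1 = z_T g z_T g⁻¹ ∈ K`, `≠ 1`, non-commuting by F0, fixes points outside `H_T ∪ O`, `3|O| ≤ ν`.
  If `O ⊆ hy j w` for one `w` (or `O = ∅`): width `insert w T`.  Else `O` meets two hyperplanes.  For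
  `U = {u,v}` disjoint from `T` with `z_U` not commuting with `c1`: `ν ≤ 3|M(c1) ∩ H_U| ≤ 3|O ∩ H_U| ≤ 3|O| ≤ ν`
  so `O ⊆ H_U`.  Choose `y0 ∉ T` with `O ∩ hy j y0 = ∅` if there is one, else any `y0 ∉ T` (then `O` meets
  `≥ 3` hyperplanes); in both cases `O ⊄ H_{y0 v}` for all `v`, so `c1` commutes with all `z_{y0 v}`, `v ∉ T`:
  W3 with `N = T`, `w = y0`.
-/

set_option autoImplicit false
set_option linter.unusedSectionVars false

namespace Cfsg.Agent.PA

open Equiv Function

variable {ι α : Type*} [Fintype ι] [DecidableEq ι] [Fintype α] [DecidableEq α]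

namespace St

/-- commuting with all swaps -/
def Cmt (j : ι) (g : Perm (ι → α)) : Prop := ∀ x y : α, g * co j (swap x y) = co j (swap x y) * g

/-- the commutator with a swap -/
def cc (j : ι) (x y : α) (g : Perm (ι → α)) : Perm (ι → α) :=
  co j (swap x y) * (g * co j (swap x y) * g⁻¹)

/-- points whose `j`-coordinate moves -/
def MM (j : ι) (g : Perm (ι → α)) : Finset (ι → α) := Finset.univ.filter fun p => g p j ≠ p j

/-- points leaving the slab -/
def OUT (j : ι) (g : Perm (ι → α)) (T : Finset α) : Finset (ι → α) :=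
  Finset.univ.filter fun q => q j ∈ T ∧ g q j ∉ T

/-- points entering the slab -/
def IN (j : ι) (g : Perm (ι → α)) (T : Finset α) : Finset (ι → α) :=
  Finset.univ.filter fun q => q j ∉ T ∧ g q j ∈ T

@[simp] theorem mem_MM {j : ι} {g : Perm (ι → α)} {p : ι → α} : p ∈ MM j g ↔ g p j ≠ p j := by
  simp [MM]

@[simp] theorem mem_OUT {j : ι} {g : Perm (ι → α)} {T : Finset α} {p : ι → α} :
    p ∈ OUT j g T ↔ p j ∈ T ∧ g p j ∉ T := by simp [OUT]

@[simp] theorem mem_IN {j : ι} {g : Perm (ι → α)} {T : Finset α} {p : ι → α} :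
    p ∈ IN j g T ↔ p j ∉ T ∧ g p j ∈ T := by simp [IN]

theorem card_IN (j : ι) (g : Perm (ι → α)) (T : Finset α) : (IN j g T).card = (OUT j g T).card := by
  have h : (slab j T).card = (Finset.univ.filter fun q => g q j ∈ T).card := by
    symm
    apply Finset.card_bij (fun q _ => g q)
    · intro q hq; simpa using hq
    · intro p _ q _ e; exact g.injective e
    · intro p hp; exact ⟨g⁻¹ p, by simpa using hp, by simp⟩
  have := Finset.card_sdiff_comm h
  convert this.symm using 2
  · ext q; simp [and_comm]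
  · ext q; simp

theorem OUT_sub (j : ι) (g : Perm (ι → α)) (T : Finset α) : OUT j g T ⊆ MM j g ∩ slab j T := by
  intro q hq
  simp only [mem_OUT, Finset.mem_inter, mem_MM, mem_slab] at hq ⊢
  exact ⟨fun e => hq.2 (e ▸ hq.1), hq.1⟩

theorem zz (j : ι) (x y : α) : co j (swap x y) * co j (swap x y) = (1 : Perm (ι → α)) := by
  rw [← map_mul, swap_mul_self, map_one]

theorem zz' (j : ι) (x y : α) (p : ι → α) : co j (swap x y) (co j (swap x y) p) = p := by
  rw [← Perm.mul_apply, zz]; rfl

theorem z_fix {j : ι} {x y : α} {p : ι → α} (h : p j ∉ ({x, y} : Finset α)) :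
    co j (swap x y) p = p := by
  simp only [Finset.mem_insert, Finset.mem_singleton, not_or] at h
  exact co_fix.mpr (swap_apply_of_ne_of_ne h.1 h.2)

theorem z_fix_iff {j : ι} {x y : α} (hxy : x ≠ y) {p : ι → α} :
    co j (swap x y) p = p ↔ p j ∉ ({x, y} : Finset α) := by
  refine ⟨fun h hp => ?_, z_fix⟩
  rw [co_fix] at h
  simp only [Finset.mem_insert, Finset.mem_singleton] at hp
  rcases hp with e | e <;> rw [e] at h
  · exact hxy (by simpa using h.symm)
  · exact hxy (by simpa using h)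

theorem cc_mem {K : Subgroup (Perm (ι → α))} {j : ι}
    (hK : ∀ x y : α, ∀ g ∈ K, co j (swap x y) * g * co j (swap x y) ∈ K)
    {g : Perm (ι → α)} (hg : g ∈ K) (x y : α) : cc j x y g ∈ K := by
  have := K.mul_mem (hK x y g hg) (K.inv_mem hg)
  simpa [cc, mul_assoc] using this

theorem cc_ne {j : ι} {g : Perm (ι → α)} {x y : α}
    (h : g * co j (swap x y) ≠ co j (swap x y) * g) : cc j x y g ≠ 1 := by
  intro e
  apply h
  calc g * co j (swap x y) = (co j (swap x y) * co j (swap x y)) * (g * co j (swap x y)) := by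
        rw [zz, one_mul]
    _ = co j (swap x y) * cc j x y g * g := by rw [cc]; group
    _ = co j (swap x y) * g := by rw [e, mul_one]

theorem cc_fix {j : ι} {g : Perm (ι → α)} {x y : α} {p : ι → α} (h1 : p j ∉ ({x, y} : Finset α))
    (h2 : g⁻¹ p j ∉ ({x, y} : Finset α)) : cc j x y g p = p := by
  rw [cc, Perm.mul_apply, Perm.mul_apply, Perm.mul_apply, z_fix h2]
  simpa using z_fix h1

theorem pres {j : ι} {g : Perm (ι → α)} {x y : α} (hxy : x ≠ y)
    (h : g * co j (swap x y) = co j (swap x y) * g) (p : ι → α) :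
    g p j ∈ ({x, y} : Finset α) ↔ p j ∈ ({x, y} : Finset α) := by
  rw [← not_iff_not, ← z_fix_iff hxy, ← z_fix_iff hxy, ← Perm.mul_apply, ← h, Perm.mul_apply,
    g.apply_eq_iff_eq]

theorem f0 (hm : 5 ≤ Fintype.card α) {j : ι} {g : Perm (ι → α)} {x y : α}
    (h : Cmt j (cc j x y g)) : cc j x y g = 1 := by
  by_cases hxy : x = y
  · subst hxy; simp [cc, swap_self, ← Perm.one_def]
  have hc : Cm j (cc j x y g) := cm_of_comm hm fun σ _ => comm_of_swap h σ
  have e : g * co j (swap x y) * g⁻¹ = co j (swap x y) * cc j x y g := by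
    rw [cc, ← mul_assoc (co j _), zz, one_mul]
  have hsub : (co j (swap x y) : Perm (ι → α)).support ⊆ (g * co j (swap x y) * g⁻¹).support := by
    intro q hq
    rw [Perm.mem_support, Ne, co_fix] at hq
    rw [Perm.mem_support, e]
    intro h'
    apply hq
    simpa [Perm.mul_apply, hc.1] using congrFun h' j
  have heq := Finset.eq_of_subset_of_card_le hsub (by rw [Perm.card_support_conj])
  ext1 p
  obtain ⟨w, hx, hy, -⟩ := exists_ne4 hm x y x x
  have hw : ∀ q : ι → α, co j (swap x y) (update q j w) = update q j w :=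
    fun q => z_fix (by simp [hx, hy])
  have h1 : update p j w ∉ (g * co j (swap x y) * g⁻¹).support := by
    rw [← heq, Perm.notMem_support, hw]
  rw [Perm.notMem_support, e, Perm.mul_apply, hc.2, hw] at h1
  funext l
  by_cases hl : l = j
  · rw [hl, hc.1]; rfl
  · simpa [update_of_ne hl] using congrFun h1 l

theorem bound {j : ι} (g : Perm (ι → α)) (x y : α) :
    (MM j (cc j x y g)).card ≤ 3 * (MM j g ∩ slab j {x, y}).card := by
  have hsub : MM j (cc j x y g) ⊆ ((IN j g {x, y}).image g ∪ (MM j g ∩ slab j {x, y}).image g) ∪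
      (MM j g ∩ slab j {x, y}).image (fun q => g (co j (swap x y) q)) := by
    intro p hp
    obtain ⟨q, rfl⟩ := g.surjective p
    rw [mem_MM] at hp
    simp only [Finset.mem_union, Finset.mem_image]
    by_cases h1 : q j ∈ ({x, y} : Finset α)
    · by_cases h2 : g q j = q j
      · right
        refine ⟨co j (swap x y) q, ?_, by rw [zz']⟩
        rw [Finset.mem_inter, mem_MM, mem_slab]
        constructor
        · intro e
          apply hp
          simp only [cc, Perm.mul_apply, Perm.coe_inv, symm_apply_apply, co_same] at e ⊢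
          rw [e, h2, swap_apply_self]
        · simp only [Finset.mem_insert, Finset.mem_singleton, co_same] at h1 ⊢
          rcases h1 with e | e <;> simp [e]
      · exact Or.inl (Or.inr ⟨q, by simpa using ⟨h2, by simpa using h1⟩, rfl⟩)
    · refine Or.inl (Or.inl ⟨q, mem_IN.mpr ⟨h1, by_contra fun h2 => hp ?_⟩, rfl⟩)
      rw [cc_fix h2 (by simpa using h1)]
  have h1 := Finset.card_le_card hsub
  have h2 := Finset.card_union_le ((IN j g {x, y}).image g ∪ (MM j g ∩ slab j {x, y}).image g)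
    ((MM j g ∩ slab j {x, y}).image (fun q => g (co j (swap x y) q)))
  have h3 := Finset.card_union_le ((IN j g {x, y}).image g) ((MM j g ∩ slab j {x, y}).image g)
  have h4 := Finset.card_image_le (s := IN j g {x, y}) (f := g)
  have h5 := Finset.card_image_le (s := MM j g ∩ slab j {x, y}) (f := g)
  have h6 := Finset.card_image_le (s := MM j g ∩ slab j {x, y})
    (f := fun q => g (co j (swap x y) q))
  have h7 := Finset.card_le_card (OUT_sub j g {x, y})
  rw [card_IN] at h4
  omega

/-- the conclusion -/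
def Wd (K : Subgroup (Perm (ι → α))) (j : ι) : Prop :=
  ∃ h ∈ K, h ≠ 1 ∧ ∃ D : Finset α, D.card ≤ 3 ∧ ∀ p : ι → α, p j ∉ D → h p = p

theorem comm_star {j : ι} {g : Perm (ι → α)} {w u v : α}
    (hu : g * co j (swap w u) = co j (swap w u) * g)
    (hv : g * co j (swap w v) = co j (swap w v) * g) :
    g * co j (swap u v) = co j (swap u v) * g := by
  by_cases h1 : v = w
  · rw [h1, swap_comm]; exact hu
  by_cases h2 : v = u
  · rw [h2]; simp [swap_self, ← Perm.one_def]
  have : swap u v = swap w u * swap w v * swap w u := by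
    rw [swap_comm w v]
    exact (swap_mul_swap_mul_swap h1 h2).symm
  rw [this, map_mul, map_mul]
  exact ((Commute.mul_right hu hv).mul_right hu).eq

theorem w3 (hm : 5 ≤ Fintype.card α) {K : Subgroup (Perm (ι → α))} {j : ι}
    (hK : ∀ x y : α, ∀ g ∈ K, co j (swap x y) * g * co j (swap x y) ∈ K)
    {g : Perm (ι → α)} (hg : g ∈ K) (hn : ¬ Cmt j g) {N : Finset α} (hN : N.card ≤ 2) {w : α}
    (hw : ∀ v, v ∉ N → g * co j (swap w v) = co j (swap w v) * g) : Wd K j := by
  obtain ⟨n, hnw⟩ : ∃ n, g * co j (swap w n) ≠ co j (swap w n) * g := by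
    by_contra h
    push Not at h
    exact hn fun u v => comm_star (h u) (h v)
  have hnN : n ∈ N := by_contra fun h => hnw (hw n h)
  have hD : (insert w N).card ≤ 3 := (Finset.card_insert_le _ _).trans (by omega)
  refine ⟨cc j w n g, cc_mem hK hg w n, cc_ne hnw, insert w N, hD, fun p hp => ?_⟩
  have hsub : ∀ c ∈ ({w, n} : Finset α), c ∈ insert w N := by
    intro c hc
    simp only [Finset.mem_insert, Finset.mem_singleton] at hc ⊢
    rcases hc with e | e
    · exact Or.inl e
    · exact Or.inr (e ▸ hnN)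
  refine cc_fix (fun h => hp (hsub _ h)) fun h => ?_
  obtain ⟨v, hv⟩ := exists_notMem (insert (p j) (insert w N))
    (lt_of_le_of_lt (Finset.card_insert_le _ _) (by omega))
  rw [Finset.mem_insert, not_or] at hv
  have hc := comm_star (hw (p j) fun h => hp (Finset.mem_insert_of_mem h))
    (hw v fun h => hv.2 (Finset.mem_insert_of_mem h))
  have h2 := (pres (Ne.symm hv.1) hc (g⁻¹ p)).mp (by simp)
  have h3 := hsub _ h
  rcases Finset.mem_insert.mp h2 with e | e
  · exact hp (e ▸ h3)
  · exact hv.2 (Finset.mem_singleton.mp e ▸ h3)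

/-- the number of moved points on a hyperplane -/
def mx (j : ι) (g : Perm (ι → α)) (x : α) : ℕ := (MM j g ∩ hy j x).card

theorem sum_mx (j : ι) (g : Perm (ι → α)) (T : Finset α) :
    ∑ x ∈ T, mx j g x = (MM j g ∩ slab j T).card := by
  rw [Finset.card_eq_sum_card_fiberwise (f := fun p => p j) (t := T)
    (fun p hp => by simpa using (Finset.mem_inter.mp hp).2)]
  refine Finset.sum_congr rfl fun x hx => ?_
  rw [mx]
  congr 1
  ext p
  simp only [Finset.mem_inter, mem_MM, mem_hy, Finset.mem_filter, mem_slab]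
  exact ⟨fun h => ⟨⟨h.1, h.2 ▸ hx⟩, h.2⟩, fun h => ⟨h.1.1, h.2⟩⟩

theorem sum_mx_le (j : ι) (g : Perm (ι → α)) (T : Finset α) :
    ∑ x ∈ T, mx j g x ≤ (MM j g).card := by
  rw [sum_mx]; exact Finset.card_le_card Finset.inter_subset_left

theorem exists_min (j : ι) (g : Perm (ι → α)) {T : Finset α} (hT : T.Nonempty) :
    ∃ w ∈ T, T.card * mx j g w ≤ (MM j g).card := by
  obtain ⟨w, hw, h⟩ := T.exists_min_image (mx j g) hT
  refine ⟨w, hw, le_trans ?_ (sum_mx_le j g T)⟩
  simpa using Finset.card_nsmul_le_sum T (mx j g) _ h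

theorem out_single (j : ι) (g : Perm (ι → α)) (x : α) : (OUT j g {x}).card = mx j g x := by
  rw [mx]
  congr 1
  ext p
  simp only [mem_OUT, Finset.mem_singleton, Finset.mem_inter, mem_MM, mem_hy]
  exact ⟨fun h => ⟨h.1 ▸ h.2, h.1⟩, fun h => ⟨h.2, h.2 ▸ h.1⟩⟩

theorem sum_out (j : ι) (g : Perm (ι → α)) (x : α) :
    ∑ y ∈ Finset.univ.erase x, (OUT j g {x, y}).card + 4 * mx j g x ≤
      (MM j g).card + Fintype.card α * mx j g x := by
  let t : α → α → ℕ := fun u v => (Finset.univ.filter fun q : ι → α => q j = u ∧ g q j = v).card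
  have h1 : ∑ y ∈ Finset.univ.erase x, t x y = mx j g x := by
    rw [← out_single, Finset.card_eq_sum_card_fiberwise (f := fun p => g p j)
      (t := Finset.univ.erase x) (fun p hp => by simpa using (mem_OUT.mp hp).2)]
    refine Finset.sum_congr rfl fun y hy => ?_
    simp only [t]
    congr 1
    ext p
    simp only [Finset.mem_filter, Finset.mem_univ, true_and, mem_OUT, Finset.mem_singleton]
    exact ⟨fun h => ⟨⟨h.1, h.2 ▸ (Finset.mem_erase.mp hy).1⟩, h.2⟩, fun h => ⟨h.1.1, h.2⟩⟩
  have h2 : ∑ y ∈ Finset.univ.erase x, t y x = mx j g x := by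
    rw [← out_single, ← card_IN, Finset.card_eq_sum_card_fiberwise (f := fun p => p j)
      (t := Finset.univ.erase x) (fun p hp => by simpa using (mem_IN.mp hp).1)]
    refine Finset.sum_congr rfl fun y hy => ?_
    simp only [t]
    congr 1
    ext p
    simp only [Finset.mem_filter, Finset.mem_univ, true_and, mem_IN, Finset.mem_singleton]
    exact ⟨fun h => ⟨⟨h.1 ▸ (Finset.mem_erase.mp hy).1, h.2⟩, h.1⟩, fun h => ⟨h.2, h.1.2⟩⟩
  have h3 : ∀ y ∈ Finset.univ.erase x,
      (OUT j g {x, y}).card + t x y + t y x ≤ mx j g x + mx j g y := by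
    intro y hy
    have hyx := (Finset.mem_erase.mp hy).1
    rw [← Finset.sum_pair (f := mx j g) hyx.symm, sum_mx]
    simp only [t]
    rw [← Finset.card_union_of_disjoint, ← Finset.card_union_of_disjoint]
    · apply Finset.card_le_card
      intro q hq
      simp only [Finset.mem_union, Finset.mem_filter, Finset.mem_univ, true_and] at hq
      rcases hq with (h | h) | h
      · exact OUT_sub j g _ h
      · simp [h.1, h.2, hyx]
      · simp [h.1, h.2, hyx.symm]
    · rw [Finset.disjoint_left]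
      intro q hq hq'
      simp only [Finset.mem_union, Finset.mem_filter, Finset.mem_univ, true_and, mem_OUT] at hq hq'
      rcases hq with h | h
      · exact h.2 (by simp [hq'.2])
      · exact hyx (hq'.1.symm.trans h.1)
    · rw [Finset.disjoint_left]
      intro q hq hq'
      simp only [Finset.mem_filter, Finset.mem_univ, true_and, mem_OUT] at hq hq'
      exact hq.2 (by simp [hq'.2])
  have h4 := Finset.sum_le_sum h3
  rw [Finset.sum_add_distrib, Finset.sum_add_distrib, Finset.sum_add_distrib, h1, h2,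
    Finset.sum_const, Finset.card_erase_of_mem (Finset.mem_univ x), Finset.card_univ,
    smul_eq_mul] at h4
  have h5 := sum_mx_le j g Finset.univ
  rw [← Finset.add_sum_erase _ _ (Finset.mem_univ x)] at h5
  obtain ⟨m, hm⟩ : ∃ m, Fintype.card α = m + 1 :=
    ⟨_, (Nat.succ_pred_eq_of_pos (Fintype.card_pos_iff.mpr ⟨x⟩)).symm⟩
  rw [hm] at h4 ⊢
  simp only [Nat.add_sub_cancel] at h4
  nlinarith

theorem exists_T (hm : 5 ≤ Fintype.card α) {K : Subgroup (Perm (ι → α))} {j : ι}
    (hK : ∀ x y : α, ∀ g ∈ K, co j (swap x y) * g * co j (swap x y) ∈ K)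
    {g : Perm (ι → α)} (hg : g ∈ K) (hn : ¬ Cmt j g) (hW : ¬ Wd K j) :
    ∃ x y, g * co j (swap x y) ≠ co j (swap x y) * g ∧
      3 * (OUT j g {x, y}).card ≤ (MM j g).card := by
  have hle : ∀ x y, x ≠ y → (OUT j g {x, y}).card ≤ mx j g x + mx j g y := by
    intro x y hxy
    rw [← Finset.sum_pair (f := mx j g) hxy, sum_mx]
    exact Finset.card_le_card (OUT_sub j g _)
  have hne : ∀ x y, g * co j (swap x y) ≠ co j (swap x y) * g → x ≠ y := by
    rintro x y h rfl
    exact h (by simp [swap_self, ← Perm.one_def])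
  let P : α → Finset α := fun x =>
    Finset.univ.filter fun y => g * co j (swap x y) ≠ co j (swap x y) * g
  have hP : ∀ x y, y ∈ P x ↔ g * co j (swap x y) ≠ co j (swap x y) * g := by simp [P]
  by_cases h0 : ∃ x0, mx j g x0 = 0
  · obtain ⟨x0, h0⟩ := h0
    by_cases h2 : (P x0).card ≤ 2
    · exact absurd (w3 hm hK hg hn h2 fun v hv => by_contra fun h => hv ((hP _ _).mpr h)) hW
    obtain ⟨y, hy, h⟩ := exists_min j g (T := P x0) (Finset.card_pos.mp (by omega))
    refine ⟨x0, y, (hP _ _).mp hy, ?_⟩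
    have := hle x0 y (hne _ _ ((hP _ _).mp hy))
    nlinarith
  push Not at h0
  have hpos : ∀ x, ∃ p : ι → α, p j = x ∧ g p j ≠ x := by
    intro x
    obtain ⟨p, hp⟩ := Finset.card_ne_zero.mp (h0 x)
    simp only [Finset.mem_inter, mem_MM, mem_hy] at hp
    exact ⟨p, hp.2, hp.2 ▸ hp.1⟩
  obtain ⟨x0, -, hx0⟩ := exists_min j g (T := Finset.univ)
    (Finset.card_pos.mp (by rw [Finset.card_univ]; omega))
  rw [Finset.card_univ] at hx0
  by_contra hc
  push Not at hc
  have hsum : (P x0).card * ((MM j g).card + 1) + 12 * mx j g x0 ≤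
      3 * ((MM j g).card + Fintype.card α * mx j g x0) := by
    have h1 := sum_out j g x0
    have h2 : ∑ y ∈ P x0, (OUT j g {x0, y}).card ≤
        ∑ y ∈ Finset.univ.erase x0, (OUT j g {x0, y}).card :=
      Finset.sum_le_sum_of_subset fun y hy => by simpa using (hne _ _ ((hP _ _).mp hy)).symm
    have h3 := Finset.card_nsmul_le_sum (P x0) (fun y => 3 * (OUT j g {x0, y}).card)
      ((MM j g).card + 1) fun y hy => hc _ _ ((hP _ _).mp hy)
    rw [← Finset.mul_sum, smul_eq_mul] at h3
    omega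
  by_cases hp : ∃ x1, x1 ≠ x0 ∧ g * co j (swap x0 x1) = co j (swap x0 x1) * g
  · obtain ⟨x1, hx1, hc1⟩ := hp
    rcases Nat.eq_or_lt_of_le hm with h5 | h6
    · have hC : (Finset.univ \ {x0, x1} : Finset α).card = 3 := by
        rw [Finset.card_sdiff_of_subset (Finset.subset_univ _), Finset.card_univ,
          Finset.card_pair hx1.symm, ← h5]
      obtain ⟨w, hw, hw'⟩ := exists_min j g (T := Finset.univ \ {x0, x1})
        (Finset.card_pos.mp (by omega))
      obtain ⟨x, y, hxy, he⟩ := Finset.card_eq_two.mp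
        (show ((Finset.univ \ {x0, x1} : Finset α).erase w).card = 2 by
          rw [Finset.card_erase_of_mem hw, hC])
      have hmem : ∀ c, c ∈ ({x, y} : Finset α) ↔ c ≠ w ∧ c ∉ ({x0, x1} : Finset α) := by
        intro c; rw [← he]; simp
      have hw0 : w ∉ ({x0, x1} : Finset α) := by simpa using hw
      have hnc : g * co j (swap x y) ≠ co j (swap x y) * g := by
        intro hc2
        obtain ⟨p, hp1, hp2⟩ := hpos w
        have a1 := pres hxy hc2 p
        have a2 := pres hx1.symm hc1 p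
        rw [hmem, hmem, a2, hp1] at a1
        exact (a1.mp ⟨hp2, hw0⟩).1 rfl
      have h1 : OUT j g {x, y} ⊆ IN j g {w} := by
        intro q hq
        rw [mem_OUT, hmem, hmem, pres hx1.symm hc1] at hq
        rw [mem_IN, Finset.mem_singleton, Finset.mem_singleton]
        exact ⟨hq.1.1, by_contra fun h => hq.2 ⟨h, hq.1.2⟩⟩
      have h2 := Finset.card_le_card h1
      rw [card_IN, out_single] at h2
      have := hc x y hnc
      rw [hC] at hw'
      omega
    · have h1 : Finset.univ \ {x0, x1} ⊆ P x0 := by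
        intro y hy
        simp only [Finset.mem_sdiff, Finset.mem_univ, Finset.mem_insert, Finset.mem_singleton,
          true_and, not_or] at hy
        rw [hP]
        intro hc2
        obtain ⟨p, hp1, hp2⟩ := hpos x0
        have a1 := (pres (Ne.symm hy.1) hc2 p).mpr (by simp [hp1])
        have a2 := (pres hx1.symm hc1 p).mpr (by simp [hp1])
        simp only [Finset.mem_insert, Finset.mem_singleton, hp2, false_or] at a1 a2
        exact hy.2 (a1.symm.trans a2)
      have h2 := Finset.card_le_card h1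
      rw [Finset.card_sdiff_of_subset (Finset.subset_univ _), Finset.card_univ,
        Finset.card_pair hx1.symm] at h2
      obtain ⟨m, hm'⟩ : ∃ m, Fintype.card α = m + 6 := ⟨Fintype.card α - 6, by omega⟩
      rw [hm'] at h2 hsum hx0
      have h3 : (m + 4) * ((MM j g).card + 1) ≤ (P x0).card * ((MM j g).card + 1) :=
        Nat.mul_le_mul_right _ (by omega)
      have h4 := Nat.mul_le_mul_left (m + 1) hx0
      nlinarith [Nat.zero_le (m * m * mx j g x0), Nat.zero_le (m * mx j g x0)]
  · push Not at hp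
    have h1 : Finset.univ.erase x0 ⊆ P x0 := fun y hy =>
      (hP _ _).mpr (hp y (Finset.mem_erase.mp hy).1)
    have h2 := Finset.card_le_card h1
    rw [Finset.card_erase_of_mem (Finset.mem_univ _), Finset.card_univ] at h2
    obtain ⟨m, hm'⟩ : ∃ m, Fintype.card α = m + 5 := ⟨Fintype.card α - 5, by omega⟩
    rw [hm'] at h2 hsum hx0
    have h3 : (m + 4) * ((MM j g).card + 1) ≤ (P x0).card * ((MM j g).card + 1) :=
      Nat.mul_le_mul_right _ (by omega)
    have h4 := Nat.mul_le_mul_left (m + 1) hx0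
    nlinarith [Nat.zero_le (m * m * mx j g x0), Nat.zero_le (m * mx j g x0)]

end St

open St in
/-- If `K` is normalized by the transpositions of the coordinate `j` and not centralized by them,
then some nontrivial element of `K` is supported on at most three hyperplanes `p j = c`. -/
theorem step (hm : 5 ≤ Fintype.card α) (K : Subgroup (Perm (ι → α))) (j : ι)
    (hK : ∀ x y : α, ∀ g ∈ K, co j (swap x y) * g * co j (swap x y) ∈ K)
    {g : Perm (ι → α)} (hg : g ∈ K) {x y : α}
    (hxy : g * co j (swap x y) ≠ co j (swap x y) * g) :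
    ∃ h ∈ K, h ≠ 1 ∧ ∃ D : Finset α, D.card ≤ 3 ∧ ∀ p : ι → α, p j ∉ D → h p = p := by
  classical
  by_contra hW
  change ¬ Wd K j at hW
  have hex : ∃ n, ∃ g ∈ K, ¬ Cmt j g ∧ (MM j g).card = n := ⟨_, g, hg, fun h => hxy (h x y), rfl⟩
  obtain ⟨g, hg, hn, hcard⟩ := Nat.find_spec hex
  have hstar : ∀ g' ∈ K, ∀ u v, g' * co j (swap u v) ≠ co j (swap u v) * g' →
      (MM j g).card ≤ 3 * (MM j g' ∩ slab j {u, v}).card := by
    intro g' hg' u v h
    refine le_trans ?_ (bound g' u v)
    rw [hcard]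
    exact Nat.find_min' hex ⟨_, cc_mem hK hg' u v, fun h' => cc_ne h (f0 hm h'), rfl⟩
  obtain ⟨x, y, hxy, hT⟩ := exists_T hm hK hg hn hW
  have hc1 := cc_mem hK hg x y
  have hc2 := cc_ne hxy
  let O : Finset (ι → α) := IN j g⁻¹ {x, y}
  have hO : O.card = (OUT j g {x, y}).card := by
    symm
    apply Finset.card_bij (fun q _ => g q)
    · intro q hq; rw [mem_OUT] at hq; simpa [O] using ⟨by simpa using hq.2, by simpa using hq.1⟩
    · intro p _ q _ e; exact g.injective e
    · intro p hp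
      rw [mem_IN] at hp
      exact ⟨g⁻¹ p, mem_OUT.mpr ⟨hp.2, by simpa using hp.1⟩, by simp⟩
  have hfix : ∀ p : ι → α, p j ∉ ({x, y} : Finset α) → p ∉ O → cc j x y g p = p :=
    fun p h1 h2 => cc_fix h1 fun h => h2 (mem_IN.mpr ⟨h1, h⟩)
  have hT2 : ({x, y} : Finset α).card ≤ 2 := Finset.card_le_two
  obtain ⟨p1, hp1, p2, hp2, hp12⟩ : ∃ p1 ∈ O, ∃ p2 ∈ O, p1 j ≠ p2 j := by
    by_contra h
    push Not at h
    apply hW
    rcases O.eq_empty_or_nonempty with e | ⟨p0, hp0⟩
    · exact ⟨_, hc1, hc2, {x, y}, by omega, fun p hp => hfix p hp (by simp [e])⟩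
    · refine ⟨_, hc1, hc2, insert (p0 j) {x, y}, Finset.card_le_three, fun p hp => ?_⟩
      rw [Finset.mem_insert, not_or] at hp
      exact hfix p hp.2 fun h' => hp.1 (h _ h' _ hp0)
  have hU : ∀ u v, u ∉ ({x, y} : Finset α) → v ∉ ({x, y} : Finset α) →
      cc j x y g * co j (swap u v) ≠ co j (swap u v) * cc j x y g →
      ∀ p ∈ O, p j = u ∨ p j = v := by
    intro u v hu hv h
    have h1 := hstar _ hc1 u v h
    have h2 : MM j (cc j x y g) ∩ slab j {u, v} ⊆ O ∩ slab j {u, v} := by
      intro p hp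
      rw [Finset.mem_inter] at hp ⊢
      refine ⟨by_contra fun h' => mem_MM.mp hp.1 ?_, hp.2⟩
      rw [hfix p ?_ h']
      rcases Finset.mem_insert.mp (mem_slab.mp hp.2) with e | e
      · rwa [e]
      · rwa [Finset.mem_singleton.mp e]
    have h3 := Finset.card_le_card h2
    have h4 := Finset.eq_of_subset_of_card_le (Finset.inter_subset_left (s₁ := O)
      (s₂ := slab j {u, v})) (by omega)
    intro p hp
    rw [← h4] at hp
    simpa using (Finset.mem_inter.mp hp).2
  obtain ⟨y0, hy0, hy1⟩ : ∃ y0, y0 ∉ ({x, y} : Finset α) ∧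
      ∀ v, ¬ ∀ p ∈ O, p j = y0 ∨ p j = v := by
    by_cases h : ∃ y0, y0 ∉ ({x, y} : Finset α) ∧ ∀ p ∈ O, p j ≠ y0
    · obtain ⟨y0, h1, h2⟩ := h
      refine ⟨y0, h1, fun v hv => hp12 ?_⟩
      rw [(hv p1 hp1).resolve_left (h2 p1 hp1), (hv p2 hp2).resolve_left (h2 p2 hp2)]
    · push Not at h
      obtain ⟨y0, a1, a2, -⟩ := exists_ne4 hm x y x x
      refine ⟨y0, by simp [a1, a2], fun v hv => ?_⟩
      obtain ⟨u, b1, b2, b3, b4⟩ := exists_ne4 hm x y y0 v
      obtain ⟨p, hp, e⟩ := h u (by simp [b1, b2])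
      rcases hv p hp with e' | e'
      · exact b3 (e.symm.trans e')
      · exact b4 (e.symm.trans e')
  exact hW (w3 hm hK hc1 (fun h => hc2 (f0 hm h)) hT2 (w := y0) fun v hv =>
    by_contra fun h => hy1 v (hU y0 v hy0 hv h))

end Cfsg.Agent.PA
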