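import Cfsg.Agent.PA.Step

/-!
# Elements fixing two parallel hyperplanes (for S5767)
-/

set_option autoImplicit false
set_option linter.unusedSectionVars false

namespace Cfsg.Agent.PA

open Equiv Function

section Tri

variable {X : Type*} [DecidableEq X]

/-- the three-cycle on `A, B, C` lies in `N` -/
def Tri (N : Subgroup (Perm X)) (A B C : X) : Prop := swap A B * swap A C ∈ N

variable {N : Subgroup (Perm X)} {A B C D : X}

theorem Tri.symm (h : Tri N A B C) : Tri N A C B := by
  simpa [Tri] using N.inv_mem h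

theorem Tri.rot (h : Tri N A B C) (h1 : A ≠ B) (h2 : A ≠ C) (h3 : B ≠ C) : Tri N B C A := by
  have : swap B C * swap B A = swap A B * swap A C := by
    ext z
    simp only [Perm.mul_apply, swap_apply_def]
    split_ifs <;> simp_all
  rw [Tri, this]; exact h

theorem Tri.trans (h : Tri N A B C) (h' : Tri N A B D) : Tri N A C D := by
  have := N.mul_mem (N.inv_mem h) h'
  rw [mul_inv_rev, swap_inv, swap_inv, mul_assoc, ← mul_assoc (swap A B), swap_mul_self,
    one_mul] at this
  exact this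

theorem Tri.conj (h : Tri N A B C) {w : Perm X} (hw : w ∈ N) : Tri N (w A) (w B) (w C) := by
  have := N.mul_mem (N.mul_mem hw h) (N.inv_mem hw)
  rw [Tri, swap_apply_apply, swap_apply_apply]
  convert this using 1
  group

theorem tri_of_meet {x y : Perm X} (hx : x ∈ N) (hy : y ∈ N) {p0 : X} (hx0 : x p0 ≠ p0)
    (hy0 : y p0 ≠ p0) (h : ∀ p, x p ≠ p → y p ≠ p → p = p0) :
    ∃ A B C, A ≠ B ∧ A ≠ C ∧ B ≠ C ∧ Tri N A B C := by
  have h1 : x (x p0) ≠ x p0 := fun e => hx0 (x.injective e)
  have h2 : y (y p0) ≠ y p0 := fun e => hy0 (y.injective e)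
  have h3 : y (x p0) = x p0 := by_contra fun e => hx0 (h _ h1 e)
  have hd : Perm.Disjoint (swap p0 (x p0) * x) y := by
    intro p
    by_cases hp : p = p0
    · left; subst hp; simp
    · by_cases hyp : y p = p
      · exact Or.inr hyp
      · left
        have hxp : x p = p := by_contra fun e => hp (h p e hyp)
        rw [Perm.mul_apply, hxp]
        exact swap_apply_of_ne_of_ne hp fun e => h1 (e ▸ hxp)
  refine ⟨x p0, p0, y p0, hx0, fun e => h2 (e ▸ h3), hy0.symm, ?_⟩
  have hm := N.mul_mem (N.mul_mem (N.mul_mem hx hy) (N.inv_mem hx)) (N.inv_mem hy)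
  have e1 : swap (x p0) (y p0) = y * swap p0 (x p0) * y⁻¹ := by
    rw [← swap_apply_apply, h3, swap_comm]
  have e2 := hd.commute.eq
  rw [Tri, e1, swap_comm (x p0) p0]
  convert hm using 1
  set s := swap p0 (x p0)
  have hs : s * s = 1 := swap_mul_self _ _
  have hs' : s⁻¹ = s := swap_inv _ _
  calc s * (y * s * y⁻¹) = s * (y * (s * x)) * x⁻¹ * y⁻¹ := by group
    _ = s * (s * x * y) * x⁻¹ * y⁻¹ := by rw [e2]
    _ = (s * s) * (x * y * x⁻¹ * y⁻¹) := by group
    _ = x * y * x⁻¹ * y⁻¹ := by rw [hs, one_mul]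

end Tri

variable {ι α : Type*} [Fintype ι] [DecidableEq ι] [Fintype α] [DecidableEq α]

theorem exists_even_off (hm : 5 ≤ Fintype.card α) {D : Finset α} (hD : D.card ≤ 3) {u : α}
    (hu : u ∈ D) : ∃ β : Perm α, Perm.sign β = 1 ∧ β u = u ∧ ∀ c ∈ D, β c ∈ D → c = u := by
  obtain ⟨D', hDD, -, hD'⟩ := Finset.exists_subsuperset_card_eq (Finset.subset_univ D) hD
    (by rw [Finset.card_univ]; omega)
  obtain ⟨d1, d2, hd, he⟩ := Finset.card_eq_two.mp
    (show (D'.erase u).card = 2 by rw [Finset.card_erase_of_mem (hDD hu), hD'])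
  have h1 : d1 ≠ u := (Finset.mem_erase.mp (he ▸ (by simp : d1 ∈ ({d1, d2} : Finset α)))).1
  have h2 : d2 ≠ u := (Finset.mem_erase.mp (he ▸ (by simp : d2 ∈ ({d1, d2} : Finset α)))).1
  have hmem : ∀ c ∈ D, c = u ∨ c = d1 ∨ c = d2 := by
    intro c hc
    by_cases hcu : c = u
    · exact Or.inl hcu
    · have : c ∈ D'.erase u := Finset.mem_erase.mpr ⟨hcu, hDD hc⟩
      rw [he] at this
      right; simpa using this
  obtain ⟨e1, a1, a2, a3, -⟩ := exists_ne4 hm u d1 d2 u
  obtain ⟨e2, b1, b2, b3, b4⟩ := exists_ne4 hm u d1 d2 e1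
  refine ⟨swap d1 e1 * swap d2 e2, by simp [Perm.sign_swap a2.symm, Perm.sign_swap b3.symm], ?_, ?_⟩
  · rw [Perm.mul_apply, swap_apply_of_ne_of_ne h2.symm b1.symm,
      swap_apply_of_ne_of_ne h1.symm a1.symm]
  · intro c hc hc'
    rcases hmem c hc with e | e | e
    · exact e
    · rw [e, Perm.mul_apply, swap_apply_of_ne_of_ne hd b2.symm, swap_apply_left] at hc'
      rcases hmem _ hc' with e | e | e <;> contradiction
    · rw [e, Perm.mul_apply, swap_apply_left, swap_apply_of_ne_of_ne b2 b4] at hc'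
      rcases hmem _ hc' with e | e | e <;> contradiction

theorem tri_line (hm : 5 ≤ Fintype.card α) {N : Subgroup (Perm (ι → α))}
    (hN : ∀ β : ι → Perm α, (∀ l, Perm.sign (β l) = 1) → wr 1 β ∈ N) {x : Perm (ι → α)}
    (hx : x ∈ N) (hx1 : x ≠ 1) {D : ι → Finset α} (hD : ∀ l, (D l).card ≤ 3)
    (hb : ∀ p l, p l ∉ D l → x p = p) :
    ∃ (C : ι → α) (l : ι) (c d : α), d ≠ C l ∧ d ≠ c ∧ Tri N C (update C l c) (update C l d) := by
  have hco : ∀ (l : ι) (σ : Perm α), Perm.sign σ = 1 → co l σ ∈ N := by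
    intro l σ hσ
    rw [co_eq_wr]
    apply hN
    intro l'
    by_cases h : l' = l
    · subst h; simpa using hσ
    · simp [Pi.mulSingle_eq_of_ne h]
  obtain ⟨p0, hp0⟩ : ∃ p0, x p0 ≠ p0 := by
    by_contra h
    push Not at h
    exact hx1 (Equiv.ext h)
  have hb' : ∀ p, x p ≠ p → ∀ l, p l ∈ D l := fun p hp l => by_contra fun h => hp (hb p l h)
  choose β h1 h2 h3 using fun l => exists_even_off hm (hD l) (hb' p0 hp0 l)
  have hw := hN β h1
  have hw0 : wr 1 β p0 = p0 := funext fun l => by simpa using h2 l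
  have hw0' : (wr 1 β)⁻¹ p0 = p0 := by rw [Perm.inv_eq_iff_eq, hw0]
  obtain ⟨A, B, C, hAB, hAC, hBC, hT⟩ := tri_of_meet hx
    (N.mul_mem (N.mul_mem hw hx) (N.inv_mem hw)) hp0 (by
      rw [Perm.mul_apply, Perm.mul_apply, hw0']
      intro e
      exact hp0 ((wr 1 β).injective (e.trans hw0.symm))) (by
      intro p hp hp'
      obtain ⟨q, rfl⟩ := (wr 1 β).surjective p
      have hq : x q ≠ q := by
        intro e; apply hp'; simp [Perm.mul_apply, e]
      have : q = p0 := funext fun l => h3 l _ (hb' q hq l) (by simpa using hb' _ hp l)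
      rw [this, hw0])
  have key : ∀ A B C : ι → α, ∀ l, C l ≠ A l → C l ≠ B l → Tri N A B C →
      ∃ (C : ι → α) (l : ι) (c d : α), d ≠ C l ∧ d ≠ c ∧ Tri N C (update C l c) (update C l d) := by
    intro A B C l hA hB hT
    have k1 : ∀ c, c ≠ A l → c ≠ B l → c ≠ C l → Tri N C A (update C l c) := by
      intro c a1 a2 a3
      obtain ⟨σ, s1, s2, s3, s4⟩ := exists_even_map hm hA hB a1 a2
      have t1 := hT.conj (hco l σ s1)
      rw [co_fix.mpr s2, co_fix.mpr s3, co_apply, s4] at t1
      refine ((hT.trans t1).rot (fun e => hA (by rw [e])) (fun e => a1 (by rw [e]; simp))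
        (fun e => a3 (by rw [e]; simp))).symm
    obtain ⟨c, a1, a2, a3, -⟩ := exists_ne4 hm (A l) (B l) (C l) (C l)
    obtain ⟨d, b1, b2, b3, b4⟩ := exists_ne4 hm (A l) (B l) (C l) c
    exact ⟨C, l, c, d, b3, b4, (k1 c a1 a2 a3).trans (k1 d b1 b2 b3)⟩
  obtain ⟨l, hl⟩ := Function.ne_iff.mp hAB
  by_cases e1 : C l = A l
  · exact key A C B l hl.symm (e1 ▸ hl.symm) hT.symm
  · by_cases e2 : C l = B l
    · exact key B C A l hl (e2 ▸ hl) (hT.rot hAB hAC hBC)
    · exact key A B C l e1 e2 hT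

/-- restriction to the coordinates in `J` -/
def res (J : Finset ι) (p : ι → α) : J → α := fun x => p x

/-- a permutation acting on the coordinates in `J` only -/
def xt (J : Finset ι) : Perm (J → α) →* Perm (ι → α) where
  toFun σ :=
    { toFun := fun p l => if h : l ∈ J then σ (res J p) ⟨l, h⟩ else p l
      invFun := fun p l => if h : l ∈ J then σ.symm (res J p) ⟨l, h⟩ else p l
      left_inv := fun p => by
        have : res J (fun l => if h : l ∈ J then σ (res J p) ⟨l, h⟩ else p l) = σ (res J p) := by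
          funext x; simp [res]
        funext l
        by_cases h : l ∈ J
        · simp only [this, h, dif_pos, symm_apply_apply]; rfl
        · simp [h]
      right_inv := fun p => by
        have : res J (fun l => if h : l ∈ J then σ.symm (res J p) ⟨l, h⟩ else p l) =
            σ.symm (res J p) := by
          funext x; simp [res]
        funext l
        by_cases h : l ∈ J
        · simp only [this, h, dif_pos, apply_symm_apply]; rfl
        · simp [h] }
  map_one' := by
    ext p l
    by_cases h : l ∈ J <;> simp [h, res]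
  map_mul' σ τ := by
    ext p l
    have : res J (fun l => if h : l ∈ J then τ (res J p) ⟨l, h⟩ else p l) = τ (res J p) := by
      funext x; simp [res]
    by_cases h : l ∈ J
    · simp [h, Perm.mul_apply, this]
    · simp [h, Perm.mul_apply]

theorem xt_mem {J : Finset ι} (σ : Perm (J → α)) (p : ι → α) {l : ι} (h : l ∈ J) :
    xt J σ p l = σ (res J p) ⟨l, h⟩ := dif_pos h

theorem xt_not {J : Finset ι} (σ : Perm (J → α)) (p : ι → α) {l : ι} (h : l ∉ J) :
    xt J σ p l = p l := dif_neg h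

theorem xt_wr (J : Finset ι) (β : J → Perm α) :
    xt J (wr 1 β) = wr 1 (fun l => if h : l ∈ J then β ⟨l, h⟩ else 1) := by
  ext p l
  by_cases h : l ∈ J
  · rw [xt_mem _ _ h]; simp [h, res]
  · rw [xt_not _ _ h]; simp [h]

/-- extension of a point by a constant -/
def ex (J : Finset ι) (c : α) (A : J → α) : ι → α := fun l => if h : l ∈ J then A ⟨l, h⟩ else c

@[simp] theorem res_ex (J : Finset ι) (c : α) (A : J → α) : res J (ex J c A) = A := by
  funext x; simp [res, ex]

theorem exists_xt (c : α) {J : Finset ι} {g : Perm (ι → α)} (h : ∀ l, l ∉ J → Cm l g) :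
    ∃ σ : Perm (J → α), g = xt J σ := by
  have hinj : Injective fun A : J → α => res J (g (ex J c A)) := by
    intro A B hAB
    have : g (ex J c A) = g (ex J c B) := by
      funext l
      by_cases hl : l ∈ J
      · exact congrFun hAB ⟨l, hl⟩
      · rw [(h l hl).1, (h l hl).1]; simp [ex, hl]
    simpa using congrArg (res J) (g.injective this)
  refine ⟨Equiv.ofBijective _ (Finite.injective_iff_bijective.mp hinj), ?_⟩
  ext p l
  by_cases hl : l ∈ J
  · rw [xt_mem _ _ hl, ofBijective_apply]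
    exact dep_of_cm (fun l => l ∉ J) h (fun x hx => by simp [ex, not_not.mp hx, res]) (by simpa)
  · rw [xt_not _ _ hl, (h l hl).1]

theorem comm_of_fix {l : ι} {a b : α} {g : Perm (ι → α)}
    (h : ∀ p, p l = a ∨ p l = b → g p = p) : g * co l (swap a b) = co l (swap a b) * g := by
  ext1 p
  rw [Perm.mul_apply, Perm.mul_apply]
  by_cases hp : p l = a ∨ p l = b
  · rw [h p hp, h]
    rcases hp with e | e <;> simp [e]
  · have hq : ¬ (g p l = a ∨ g p l = b) := fun hq => hp (g.injective (h _ hq) ▸ hq)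
    push Not at hp hq
    rw [co_fix.mpr (swap_apply_of_ne_of_ne hp.1 hp.2), co_fix.mpr (swap_apply_of_ne_of_ne hq.1 hq.2)]

variable {G : Subgroup (Perm (ι → α))}

theorem conj_swap_mem (H : Hyp G) {l j : ι} (hj : j ≠ l) {a b : α} (hab : a ≠ b)
    {g : Perm (ι → α)} (hg : g ∈ G) (h : ∀ p, p l = a ∨ p l = b → g p = p) (x y : α) :
    co j (swap x y) * g * co j (swap x y) ∈ G := by
  by_cases hxy : x = y
  · subst hxy; simpa [swap_self, ← Perm.one_def] using hg
  have hw := H.co2_mem hj (σ := swap x y) (τ := swap a b)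
    (by rw [Perm.sign_swap hxy, Perm.sign_swap hab])
  have := G.mul_mem (G.mul_mem hw hg) (G.inv_mem hw)
  rw [mul_inv_rev, ← map_inv, ← map_inv, swap_inv, swap_inv, mul_assoc (co j _), ← comm_of_fix h,
    mul_assoc, mul_assoc, ← mul_assoc (co l _), ← map_mul, swap_mul_self, map_one, one_mul,
    ← mul_assoc] at this
  exact this

theorem step_fx (H : Hyp G) (S : (ι → α) → Prop) {l j : ι} (hj : j ≠ l) {a b : α} (hab : a ≠ b)
    (hS : ∀ p, p l = a ∨ p l = b → S p) (hS' : ∀ p c, S p → S (update p j c))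
    {g : Perm (ι → α)} (hg : g ∈ G) (hf : ∀ p, S p → g p = p) (hc : ¬ Cm j g) :
    ∃ h ∈ G, h ≠ 1 ∧ (∀ p, S p → h p = p) ∧
      ∃ D : Finset α, D.card ≤ 3 ∧ ∀ p : ι → α, p j ∉ D → h p = p := by
  let K : Subgroup (Perm (ι → α)) :=
    { carrier := {g | g ∈ G ∧ ∀ p, S p → g p = p}
      one_mem' := ⟨G.one_mem, fun _ _ => rfl⟩
      mul_mem' := fun h1 h2 => ⟨G.mul_mem h1.1 h2.1, fun p hp => by
        rw [Perm.mul_apply, h2.2 p hp, h1.2 p hp]⟩
      inv_mem' := fun h1 => ⟨G.inv_mem h1.1, fun p hp => by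
        rw [Perm.inv_eq_iff_eq, h1.2 p hp]⟩ }
  obtain ⟨x, y, hxy⟩ : ∃ x y, g * co j (swap x y) ≠ co j (swap x y) * g := by
    by_contra hn
    push Not at hn
    exact hc (cm_of_comm H.m5 fun σ _ => comm_of_swap hn σ)
  obtain ⟨h, hh, h1, hD⟩ := step H.m5 K j (by
    intro x y g hg
    refine ⟨conj_swap_mem H hj hab hg.1 (fun p hp => hg.2 p (hS p hp)) x y, fun p hp => ?_⟩
    rw [Perm.mul_apply, Perm.mul_apply, hg.2 (co j (swap x y) p) (hS' p _ hp), ← Perm.mul_apply, ← map_mul,
      swap_mul_self, map_one, Perm.one_apply]) (g := g) ⟨hg, hf⟩ hxy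
  exact ⟨h, hh.1, h1, hh.2, hD⟩

theorem exists_two_notMem (hm : 5 ≤ Fintype.card α) {D : Finset α} (hD : D.card ≤ 3) :
    ∃ a b, a ≠ b ∧ a ∉ D ∧ b ∉ D := by
  obtain ⟨a, ha⟩ := exists_notMem D (by omega)
  obtain ⟨b, hb⟩ := exists_notMem (insert a D)
    (lt_of_le_of_lt (Finset.card_insert_le _ _) (by omega))
  rw [Finset.mem_insert, not_or] at hb
  exact ⟨a, b, Ne.symm hb.1, ha, hb.2⟩

/-- some nontrivial element is supported in a box with small sides in the directions of `J` -/
def Bx (G : Subgroup (Perm (ι → α))) (J : Finset ι) : Prop :=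
  ∃ g ∈ G, g ≠ 1 ∧ ∃ D : ι → Finset α, (∀ l, (D l).card ≤ 3) ∧
    ∀ (p : ι → α) l, l ∈ J → p l ∉ D l → g p = p

theorem not_bx (H : Hyp G) (hL : LNp G) (J : Finset ι) (hJ : 2 ≤ J.card) : ¬ Bx G J := by
  induction hn : Fintype.card ι - J.card using Nat.strong_induction_on generalizing J with
  | _ n ih =>
  rintro ⟨g, hg, hg1, D, hD, hb⟩
  by_cases hc : ∀ l, l ∉ J → Cm l g
  · obtain ⟨c0⟩ := H.ne
    obtain ⟨x, rfl⟩ := exists_xt c0 hc
    obtain ⟨C, l, c, d, hd, hdc, hT⟩ := tri_line H.m5 (N := G.comap (xt J)) (x := x) (by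
        intro β hβ
        rw [Subgroup.mem_comap, xt_wr]
        apply H.base
        apply Finset.prod_eq_one
        intro l _
        by_cases h : l ∈ J <;> simp [h, hβ]) hg (fun e => hg1 (by rw [e, map_one]))
      (D := fun l => D l) (fun l => hD l) (by
        intro A l hl
        have := hb (ex J c0 A) l l.2 (by simpa [ex] using hl)
        funext l'
        have h2 := congrFun this l'
        rw [xt_mem _ _ l'.2, res_ex] at h2
        simpa [ex] using h2)
    have hfix : ∀ (A : J → α) (l' : J), l' ≠ l →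
        (swap C (update C l c) * swap C (update C l d)) A l' = A l' := by
      intro A l' hl'
      have : ∀ (e : α) (A : J → α), swap C (update C l e) A l' = A l' := by
        intro e A
        rw [swap_apply_def]
        split_ifs with h1 h2
        · rw [h1, update_of_ne hl']
        · rw [h2, update_of_ne hl']
        · rfl
      rw [Perm.mul_apply, this, this]
    obtain ⟨σ, hσ⟩ := hL l _ hT (by
      intro p l' hl'
      by_cases h : l' ∈ J
      · rw [xt_mem _ _ h, hfix _ _ (fun e => hl' (congrArg Subtype.val e))]; rfl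
      · rw [xt_not _ _ h])
    obtain ⟨l', hl'J, hl'⟩ := Finset.exists_mem_ne (by omega : 1 < J.card) (l : ι)
    have hl'' : (⟨l', hl'J⟩ : J) ≠ l := fun e => hl' (congrArg Subtype.val e)
    obtain ⟨e, he, -⟩ := exists_ne4 H.m5 (C ⟨l', hl'J⟩) c c c
    have h1 := congrArg (fun w : Perm (ι → α) => w (ex J c0 C) l) hσ
    have h2 := congrArg (fun w : Perm (ι → α) => w (ex J c0 (update C ⟨l', hl'J⟩ e)) l) hσ
    simp only [xt_mem _ _ l.2, res_ex, co_same] at h1 h2
    have n1 : ∀ c', update C ⟨l', hl'J⟩ e ≠ update C l c' := fun c' h => he (by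
      simpa [update_of_ne hl''] using congrFun h ⟨l', hl'J⟩)
    have n2 : update C ⟨l', hl'J⟩ e ≠ C := fun h => he (by simpa using congrFun h ⟨l', hl'J⟩)
    rw [Perm.mul_apply, swap_apply_of_ne_of_ne n2 (n1 d), swap_apply_of_ne_of_ne n2 (n1 c)] at h2
    simp only [ex, l.2, dif_pos, Subtype.coe_eta, update_of_ne hl''.symm] at h1 h2
    rw [← h2, Perm.mul_apply, swap_apply_left, swap_apply_of_ne_of_ne
      (fun h => hd (by simpa using congrFun h l)) (fun h => hdc (by simpa using congrFun h l))] at h1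
    exact hd (by simpa using h1)
  · push Not at hc
    obtain ⟨j, hj, hc⟩ := hc
    obtain ⟨l, hl⟩ := Finset.card_pos.mp (by omega : 0 < J.card)
    obtain ⟨a, b, hab, ha, hb'⟩ := exists_two_notMem H.m5 (hD l)
    obtain ⟨h, hh, h1, h2, E, hE, h3⟩ := step_fx H (fun p => ∃ l ∈ J, p l ∉ D l) (l := l) (j := j)
      (fun e => hj (e ▸ hl)) hab
      (fun p hp => ⟨l, hl, by rcases hp with e | e <;> rw [e] <;> assumption⟩)
      (fun p c ⟨l', h1, h2⟩ => ⟨l', h1, by rwa [update_of_ne (fun e : l' = j => hj (e ▸ h1))]⟩) hg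
      (fun p ⟨l', h1, h2⟩ => hb p l' h1 h2) hc
    have hlt : (insert j J).card ≤ Fintype.card ι := Finset.card_le_univ _
    rw [Finset.card_insert_of_notMem hj] at hlt
    refine ih _ ?_ (insert j J) (by rw [Finset.card_insert_of_notMem hj]; omega) rfl
      ⟨h, hh, h1, update D j E, ?_, ?_⟩
    · rw [Finset.card_insert_of_notMem hj]; omega
    · intro l'
      by_cases e : l' = j
      · subst e; simpa using hE
      · rw [update_of_ne e]; exact hD l'
    · intro p l' hl' hp
      by_cases e : l' = j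
      · subst e; exact h3 p (by simpa using hp)
      · rw [update_of_ne e] at hp
        exact h2 p ⟨l', (Finset.mem_insert.mp hl').resolve_left e, hp⟩

theorem twop (H : Hyp G) (hL : LNp G) : Twop G := by
  intro i a b hab g hg hf
  have := H.ne
  by_contra hn
  obtain ⟨j, hj, hc⟩ : ∃ j, j ≠ i ∧ ¬ Cm j g := by
    by_contra h
    push Not at h
    exact hn (eq_co_of_cm h)
  obtain ⟨h, hh, h1, h2, E, hE, h3⟩ := step_fx H (fun p => p i = a ∨ p i = b) hj hab
    (fun _ hp => hp) (fun p c hp => by rwa [update_of_ne hj.symm]) hg hf hc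
  obtain ⟨a', b', hab', ha', hb'⟩ := exists_two_notMem H.m5 hE
  obtain ⟨k, hk, k1, k2, F, hF, k3⟩ := step_fx H (fun p => p j ∉ E) hj.symm hab'
    (fun p hp => by rcases hp with e | e <;> rw [e] <;> assumption)
    (fun p c hp => by rwa [update_of_ne hj]) hh h3 (by
      intro hc
      apply h1
      ext1 p
      have := hc.2 (update p i a) (p i)
      rw [h2 (update p i a) (Or.inl (by simp))] at this
      simpa using this)
  refine not_bx H hL {i, j} (by rw [Finset.card_pair hj.symm]) ⟨k, hk, k1,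
    update (fun _ => E) i F, ?_, ?_⟩
  · intro l
    by_cases e : l = i
    · subst e; simpa using hF
    · rw [update_of_ne e]; exact hE
  · intro p l hl hp
    by_cases e : l = i
    · subst e; exact k3 p (by simpa using hp)
    · rw [update_of_ne e] at hp
      have : l = j := by simpa [e] using hl
      subst this
      exact k2 p hp

end Cfsg.Agent.PA
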